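import Cfsg.Agent.Lib.Helper82.Contrib

/-!
# The dimension of a block

For a Sylow `p`-subgroup `P` of `G` and an irreducible character `ψ`, let
`zz p P ψ = ⟨ψ|_P, 1_P⟩` (a natural number).  With `ctr p χ ψ = p^a ⟨χ⁰, ψ⟩` the contributions:

* `sum_ctr_mul_zz`: `∑_ψ ctr p χ ψ * zz ψ = χ(1)`;
* `sum_ctr_mul_deg`: `∑_ψ ctr p χ ψ * ψ(1) = p^a χ(1)`;
* `block_dim`: `∑_{χ ∈ B} χ(1)^2 = p^a ∑_{ψ ∈ B} zz ψ * ψ(1)` for a block `B`;
* `not_dvd_sum_zz`: if `ψ(1) = p^e w ψ` on `B` with `p^e` the least `p`-part of a degree in `B`,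
  then `p ∤ ∑_{ψ ∈ B} zz ψ * w ψ`.

Together: the exact power of `p` dividing `∑_{χ ∈ B} χ(1)^2` is `p^(a+e) = p^(2a-d)`.
-/

set_option autoImplicit false
open Cfsg

namespace Cfsg.Agent.Lib.Helper82.BlockDim

open Cfsg.Agent.Lib.Helper82.Contrib
open Cfsg.Agent.Lib.Helper77.LocalRing
open scoped ComplexConjugate

universe u
variable {G : Type u} [Group G] [Fintype G] (p : ℕ) [Fact p.Prime]

theorem exists_zz (P : Sylow p G) [Fintype (P : Subgroup G)] (ψ : IrrCharacter G) :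
    ∃ m : ℕ, ∑ w : (P : Subgroup G), (ψ : G → ℂ) (w : G)
      = ((p ^ (Nat.card G).factorization p : ℕ) : ℂ) * m := by
  obtain ⟨m, hm⟩ := Cfsg.Agent.Lib.CT.PairCount.char_sum_subgroup
    (Cfsg.Agent.Lib.CT.Wedderburn.isCharacter_of_irr ψ.2) (P : Subgroup G)
  refine ⟨m, ?_⟩
  rw [hm, Sylow.card_eq_multiplicity]

/-- The multiplicity of the trivial character of the Sylow subgroup `P` in `ψ|_P`. -/
noncomputable def zz (P : Sylow p G) [Fintype (P : Subgroup G)] (ψ : IrrCharacter G) : ℕ :=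
  (exists_zz p P ψ).choose

theorem zz_spec (P : Sylow p G) [Fintype (P : Subgroup G)] (ψ : IrrCharacter G) :
    ∑ w : (P : Subgroup G), (ψ : G → ℂ) (w : G)
      = ((p ^ (Nat.card G).factorization p : ℕ) : ℂ) * (zz p P ψ : ℂ) :=
  (exists_zz p P ψ).choose_spec

omit [Fintype G] in
/-- The sum of `c χ⁰` over a Sylow `p`-subgroup is `c χ(1)`. -/
theorem sum_tw_sylow (P : Sylow p G) [Fintype (P : Subgroup G)] (c : ℂ) (χ : G → ℂ) :
    ∑ w : (P : Subgroup G), tw p c χ (w : G) = c * χ 1 := by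
  classical
  have hpp : p.Prime := Fact.out
  rw [Finset.sum_eq_single (1 : (P : Subgroup G))]
  · rw [tw_apply, Subgroup.coe_one, orderOf_one, if_neg]
    exact fun h => hpp.one_lt.ne' (Nat.dvd_one.1 h)
  · intro w _ hw
    rw [tw_apply, if_pos]
    obtain ⟨k, hk⟩ := P.2 w
    have h1 : orderOf w ∣ p ^ k := orderOf_dvd_of_pow_eq_one hk
    obtain ⟨j, _, hj⟩ := (Nat.dvd_prime_pow hpp).1 h1
    have h2 : orderOf (w : G) = orderOf w := Subgroup.orderOf_coe w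
    rw [h2, hj]
    rcases Nat.eq_zero_or_pos j with h0 | h0
    · exfalso
      rw [h0, pow_zero, orderOf_eq_one_iff] at hj
      exact hw hj
    · exact dvd_pow_self p h0.ne'
  · intro h
    exact absurd (Finset.mem_univ _) h

/-- `∑_ψ ctr p χ ψ * ⟨ψ|_P, 1⟩ = χ(1)`. -/
theorem sum_ctr_mul_zz [Fintype (IrrCharacter G)] (P : Sylow p G) [Fintype (P : Subgroup G)]
    (χ : IrrCharacter G) :
    ∑ ψ : IrrCharacter G, ctr p χ ψ * (zz p P ψ : ℤ) = (charDegree (χ : G → ℂ) : ℤ) := by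
  have hpp : p.Prime := Fact.out
  have hpa : ((p ^ (Nat.card G).factorization p : ℕ) : ℂ) ≠ 0 :=
    Nat.cast_ne_zero.2 (pow_ne_zero _ hpp.ne_zero)
  have h1 := sum_tw_sylow p P ((p ^ (Nat.card G).factorization p : ℕ) : ℂ) (χ : G → ℂ)
  have h2 : ∑ w : (P : Subgroup G),
      tw p ((p ^ (Nat.card G).factorization p : ℕ) : ℂ) (χ : G → ℂ) (w : G)
      = ((p ^ (Nat.card G).factorization p : ℕ) : ℂ)
        * ∑ ψ : IrrCharacter G, (ctr p χ ψ : ℂ) * (zz p P ψ : ℂ) := by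
    rw [tw_eq_sum p χ]
    simp only [Finset.sum_apply, Pi.smul_apply, smul_eq_mul]
    rw [Finset.sum_comm, Finset.mul_sum]
    refine Finset.sum_congr rfl fun ψ _ => ?_
    rw [← Finset.mul_sum, zz_spec p P ψ]
    ring
  rw [h1] at h2
  have h3 := mul_left_cancel₀ hpa h2
  have h4 : ((charDegree (χ : G → ℂ) : ℤ) : ℂ) = (χ : G → ℂ) 1 := by
    rw [Int.cast_natCast]
    exact Cfsg.Agent.Lib.CT.Wedderburn.char_natCast_charDegree
      (Cfsg.Agent.Lib.CT.Wedderburn.isCharacter_of_irr χ.2)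
  have h5 : ((∑ ψ : IrrCharacter G, ctr p χ ψ * (zz p P ψ : ℤ) : ℤ) : ℂ)
      = ((charDegree (χ : G → ℂ) : ℤ) : ℂ) := by
    rw [h4, h3]
    push_cast
    rfl
  exact_mod_cast h5

/-- `∑_ψ ctr p χ ψ * ψ(1) = p^a χ(1)`. -/
theorem sum_ctr_mul_deg [Fintype (IrrCharacter G)] (χ : IrrCharacter G) :
    ∑ ψ : IrrCharacter G, ctr p χ ψ * (charDegree (ψ : G → ℂ) : ℤ)
      = (p : ℤ) ^ (Nat.card G).factorization p * (charDegree (χ : G → ℂ) : ℤ) := by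
  have hpp : p.Prime := Fact.out
  have h1 : tw p ((p ^ (Nat.card G).factorization p : ℕ) : ℂ) (χ : G → ℂ) 1
      = ((p ^ (Nat.card G).factorization p : ℕ) : ℂ) * (χ : G → ℂ) 1 := by
    rw [tw_apply, orderOf_one, if_neg]
    exact fun h => hpp.one_lt.ne' (Nat.dvd_one.1 h)
  have h2 : tw p ((p ^ (Nat.card G).factorization p : ℕ) : ℂ) (χ : G → ℂ) 1
      = ∑ ψ : IrrCharacter G, (ctr p χ ψ : ℂ) * (ψ : G → ℂ) 1 := by
    rw [tw_eq_sum p χ]
    simp only [Finset.sum_apply, Pi.smul_apply, smul_eq_mul]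
  rw [h1] at h2
  have hdeg : ∀ ψ : IrrCharacter G, (ψ : G → ℂ) 1 = ((charDegree (ψ : G → ℂ) : ℤ) : ℂ) := by
    intro ψ
    rw [Int.cast_natCast]
    exact (Cfsg.Agent.Lib.CT.Wedderburn.char_natCast_charDegree
      (Cfsg.Agent.Lib.CT.Wedderburn.isCharacter_of_irr ψ.2)).symm
  have h5 : ((∑ ψ : IrrCharacter G, ctr p χ ψ * (charDegree (ψ : G → ℂ) : ℤ) : ℤ) : ℂ)
      = (((p : ℤ) ^ (Nat.card G).factorization p * (charDegree (χ : G → ℂ) : ℤ) : ℤ) : ℂ) := by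
    push_cast
    have h6 := h2.symm
    rw [hdeg χ] at h6
    push_cast at h6
    rw [← h6]
    refine Finset.sum_congr rfl fun ψ _ => ?_
    rw [hdeg ψ]
    push_cast
    rfl
  exact_mod_cast h5

/-- Sums of contributions against a function may be restricted to the block. -/
theorem sum_block_eq [Fintype (IrrCharacter G)]
    {M : Ideal AlgInt} (hM : IsPModular p M)
    (B : Set (IrrCharacter G)) [DecidablePred (· ∈ B)] (hB : IsPBlock M B)
    (χ : IrrCharacter G) (hχ : χ ∈ B) (f : IrrCharacter G → ℤ) :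
    ∑ ψ ∈ Finset.univ.filter (· ∈ B), ctr p χ ψ * f ψ = ∑ ψ : IrrCharacter G, ctr p χ ψ * f ψ := by
  apply Finset.sum_subset (Finset.subset_univ _)
  intro ψ _ hψ
  have hψB : ψ ∉ B := fun h => hψ (Finset.mem_filter.2 ⟨Finset.mem_univ _, h⟩)
  rw [ctr_eq_zero_of_not_mem p hM B hB χ ψ hχ hψB, zero_mul]

/-- `∑_{χ ∈ B} χ(1)^2 = p^a ∑_{ψ ∈ B} ⟨ψ|_P, 1⟩ ψ(1)`. -/
theorem block_dim [Fintype (IrrCharacter G)] (P : Sylow p G) [Fintype (P : Subgroup G)]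
    {M : Ideal AlgInt} (hM : IsPModular p M)
    (B : Set (IrrCharacter G)) [DecidablePred (· ∈ B)] (hB : IsPBlock M B) :
    ∑ χ ∈ Finset.univ.filter (· ∈ B), (charDegree (χ : G → ℂ) : ℤ) ^ 2
      = (p : ℤ) ^ (Nat.card G).factorization p
        * ∑ ψ ∈ Finset.univ.filter (· ∈ B), (zz p P ψ : ℤ) * (charDegree (ψ : G → ℂ) : ℤ) := by
  classical
  calc ∑ χ ∈ Finset.univ.filter (· ∈ B), (charDegree (χ : G → ℂ) : ℤ) ^ 2
      = ∑ χ ∈ Finset.univ.filter (· ∈ B), ∑ ψ ∈ Finset.univ.filter (· ∈ B),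
          (charDegree (χ : G → ℂ) : ℤ) * (ctr p χ ψ * (zz p P ψ : ℤ)) := by
        refine Finset.sum_congr rfl fun χ hχ => ?_
        have hχB : χ ∈ B := (Finset.mem_filter.1 hχ).2
        rw [← Finset.mul_sum, sum_block_eq p hM B hB χ hχB, sum_ctr_mul_zz p P χ, sq]
    _ = ∑ ψ ∈ Finset.univ.filter (· ∈ B), ∑ χ ∈ Finset.univ.filter (· ∈ B),
          (zz p P ψ : ℤ) * (ctr p ψ χ * (charDegree (χ : G → ℂ) : ℤ)) := by
        rw [Finset.sum_comm]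
        refine Finset.sum_congr rfl fun ψ _ => Finset.sum_congr rfl fun χ _ => ?_
        rw [ctr_symm p χ ψ]
        ring
    _ = ∑ ψ ∈ Finset.univ.filter (· ∈ B), (zz p P ψ : ℤ)
          * ((p : ℤ) ^ (Nat.card G).factorization p * (charDegree (ψ : G → ℂ) : ℤ)) := by
        refine Finset.sum_congr rfl fun ψ hψ => ?_
        have hψB : ψ ∈ B := (Finset.mem_filter.1 hψ).2
        rw [← Finset.mul_sum, sum_block_eq p hM B hB ψ hψB, sum_ctr_mul_deg p ψ]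
    _ = (p : ℤ) ^ (Nat.card G).factorization p
        * ∑ ψ ∈ Finset.univ.filter (· ∈ B), (zz p P ψ : ℤ) * (charDegree (ψ : G → ℂ) : ℤ) := by
        rw [Finset.mul_sum]
        refine Finset.sum_congr rfl fun ψ _ => ?_
        ring

/-- If the degrees in `B` are `p^e w ψ` with `p^e` the exact power of `p` in the degree of
`χ₁ ∈ B`, then `p ∤ ∑_{ψ ∈ B} ⟨ψ|_P, 1⟩ w ψ`. -/
theorem not_dvd_sum_zz [Fintype (IrrCharacter G)] (P : Sylow p G) [Fintype (P : Subgroup G)]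
    {M : Ideal AlgInt} (hM : IsPModular p M)
    (B : Set (IrrCharacter G)) [DecidablePred (· ∈ B)] (hB : IsPBlock M B)
    (χ₁ : IrrCharacter G) (hχ₁ : χ₁ ∈ B) (w : IrrCharacter G → ℕ)
    (hw : ∀ ψ ∈ B, charDegree (ψ : G → ℂ)
      = p ^ (charDegree (χ₁ : G → ℂ)).factorization p * w ψ) :
    ¬ p ∣ ∑ ψ ∈ Finset.univ.filter (· ∈ B), zz p P ψ * w ψ := by
  classical
  have hpp : p.Prime := Fact.out
  have hMp : M.IsPrime := isPrime_of_isPModular hM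
  intro hdvd
  obtain ⟨e, he⟩ : ∃ e, e = (charDegree (χ₁ : G → ℂ)).factorization p := ⟨_, rfl⟩
  rw [← he] at hw
  have hpe : ((p : ℂ) ^ e) ≠ 0 := pow_ne_zero _ (Nat.cast_ne_zero.2 hpp.ne_zero)
  have hG0 : (Nat.card G : ℂ) ≠ 0 := Nat.cast_ne_zero.2 Nat.card_pos.ne'
  -- the unit κ = p^a / |G|
  obtain ⟨κ, hκ⟩ : ∃ κ : ℂ, κ
      = ((Nat.card G / p ^ (Nat.card G).factorization p : ℕ) : ℂ)⁻¹ := ⟨_, rfl⟩
  have hκR : MemLocalRing M κ := by
    rw [hκ]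
    exact Cfsg.Agent.Lib.CT.DefectZeroBlock.memLocalRing_inv_natCast hM (not_dvd_cardCompl p)
  have hκe : ((p ^ (Nat.card G).factorization p : ℕ) : ℂ) / (Nat.card G : ℂ) = κ := by
    have h1 : (Nat.card G : ℂ) = ((p ^ (Nat.card G).factorization p
        * (Nat.card G / p ^ (Nat.card G).factorization p) : ℕ) : ℂ) := by
      rw [Nat.ordProj_mul_ordCompl_eq_self]
    have h2 : ((p ^ (Nat.card G).factorization p : ℕ) : ℂ) ≠ 0 :=
      Nat.cast_ne_zero.2 (pow_ne_zero _ hpp.ne_zero)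
    have h3 : ((Nat.card G / p ^ (Nat.card G).factorization p : ℕ) : ℂ) ≠ 0 :=
      Nat.cast_ne_zero.2 fun h => not_dvd_cardCompl (G := G) p (h ▸ dvd_zero p)
    rw [hκ]
    conv_lhs => rw [h1]
    rw [Nat.cast_mul]
    field_simp
  have hctr : ∀ ψ ∈ B, (ctr p χ₁ ψ : ℂ)
      = (p : ℂ) ^ e * (κ * (w ψ : ℂ) * Om p (ψ : G → ℂ) (χ₁ : G → ℂ)) := by
    intro ψ hψ
    rw [ctr_symm, ctr_eq]
    have h1 : (ψ : G → ℂ) 1 = ((p ^ e * w ψ : ℕ) : ℂ) := by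
      rw [← hw ψ hψ]
      exact (Cfsg.Agent.Lib.CT.Wedderburn.char_natCast_charDegree
        (Cfsg.Agent.Lib.CT.Wedderburn.isCharacter_of_irr ψ.2)).symm
    have h2 : ((p ^ (Nat.card G).factorization p : ℕ) : ℂ) * (ψ : G → ℂ) 1 / (Nat.card G : ℂ)
        = ((p ^ (Nat.card G).factorization p : ℕ) : ℂ) / (Nat.card G : ℂ) * (ψ : G → ℂ) 1 := by
      ring
    rw [h2, hκe, h1]
    push_cast
    ring
  have h1 : ((charDegree (χ₁ : G → ℂ) : ℤ) : ℂ)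
      = ∑ ψ ∈ Finset.univ.filter (· ∈ B), (ctr p χ₁ ψ : ℂ) * (zz p P ψ : ℂ) := by
    rw [← sum_ctr_mul_zz p P χ₁, ← sum_block_eq p hM B hB χ₁ hχ₁]
    push_cast
    rfl
  have h2 : (w χ₁ : ℂ) = ∑ ψ ∈ Finset.univ.filter (· ∈ B),
      κ * (w ψ : ℂ) * Om p (ψ : G → ℂ) (χ₁ : G → ℂ) * (zz p P ψ : ℂ) := by
    apply mul_left_cancel₀ hpe
    rw [Finset.mul_sum]
    have h3 : ((charDegree (χ₁ : G → ℂ) : ℤ) : ℂ) = (p : ℂ) ^ e * (w χ₁ : ℂ) := by
      rw [Int.cast_natCast, hw χ₁ hχ₁]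
      push_cast
      rfl
    rw [← h3, h1]
    refine Finset.sum_congr rfl fun ψ hψ => ?_
    rw [hctr ψ (Finset.mem_filter.1 hψ).2]
    ring
  have h3 : (w χ₁ : ℂ) = κ * Om p (χ₁ : G → ℂ) (χ₁ : G → ℂ)
        * ((∑ ψ ∈ Finset.univ.filter (· ∈ B), zz p P ψ * w ψ : ℕ) : ℂ)
      + ∑ ψ ∈ Finset.univ.filter (· ∈ B), κ * (w ψ : ℂ) * (zz p P ψ : ℂ)
        * (Om p (ψ : G → ℂ) (χ₁ : G → ℂ) - Om p (χ₁ : G → ℂ) (χ₁ : G → ℂ)) := by
    rw [h2]
    push_cast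
    rw [Finset.mul_sum, ← Finset.sum_add_distrib]
    refine Finset.sum_congr rfl fun ψ _ => ?_
    ring
  have h4 : MemLocalIdeal M (w χ₁ : ℂ) := by
    rw [h3]
    apply memLocalIdeal_add hMp
    · exact memLocalIdeal_mul_left hMp
        (memLocalRing_mul hMp hκR (memLocalRing_Om p hMp χ₁ χ₁))
        (memLocalIdeal_natCast_of_dvd hM hdvd)
    · apply memLocalIdeal_sum hMp
      intro ψ hψ
      have hψB : ψ ∈ B := (Finset.mem_filter.1 hψ).2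
      exact memLocalIdeal_mul_left hMp
        (memLocalRing_mul hMp (memLocalRing_mul hMp hκR (memLocalRing_natCast hMp _))
          (memLocalRing_natCast hMp _))
        (Om_sub_mem p hMp ψ χ₁ χ₁ (sameBlock_of_mem hMp hB hψB hχ₁))
  have h5 : p ∣ w χ₁ := (memLocalIdeal_natCast_iff hM _).1 h4
  have h6 : p ^ (e + 1) ∣ charDegree (χ₁ : G → ℂ) := by
    rw [hw χ₁ hχ₁, pow_succ]
    exact Nat.mul_dvd_mul_left _ h5
  have h7 := Nat.pow_succ_factorization_not_dvd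
    (Cfsg.Agent.Lib.CT.Wedderburn.irr_charDegree_pos χ₁.2).ne' hpp
  rw [← he] at h7
  exact h7 h6

end Cfsg.Agent.Lib.Helper82.BlockDim
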