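import Mathlib
import Cfsg.Agent.Lib.Helper17.ExcSimple
import Cfsg.Agent.Lib.Helper68.ExcFive

/-!
# Piece G2 of S0983: the degree equation for a self-centralizing subgroup of order 5 with
`|N(P)| = 10` in a simple group
-/

set_option autoImplicit false

namespace Cfsg.Agent.Lib.Helper82.DegFive

open Cfsg Subgroup
open Cfsg.Agent.Lib.CT.Wedderburn
open Cfsg.Agent.Lib.Helper17.ExcSimple

/-- Degree equation for `|P| = 5`, `C(P) = P`, `|N(P)| = 10` in a simple group. -/
theorem degrees_five {G : Type*} [Group G] [Finite G] [IsSimpleGroup G]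
    (hG : ¬ IsMulCommutative G) (P : Subgroup G) (hP : Nat.card P = 5)
    (hC : Nat.card (centralizer (P : Set G)) = 5)
    (hN : Nat.card (normalizer (P : Set G)) = 5 * 2) :
    ∃ D d : ℕ, D ∣ Nat.card G ∧ d ∣ Nat.card G ∧ D ≠ 1 ∧
      ((D % 5 = 1 ∧ d = D + 1) ∨ (D % 5 = 4 ∧ D = d + 1)) := by
  classical
  have hGfin : Fintype G := Fintype.ofFinite G
  have hIrr : Finite (IrrCharacter G) := finite_irrCharacter G
  have hIrrF : Fintype (IrrCharacter G) := Fintype.ofFinite _
  have hp : Nat.Prime 5 := by norm_num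
  obtain ⟨n, ε, δ, θ, χ, i₀, hε, hδ, hχT, -, -, ⟨a, ha⟩, heq, -, -, -⟩ :=
    Cfsg.Agent.Lib.Helper68.ExcFive.exceptional_five P hP (centralizer_le_of_card P hp hP hC) hN
  have hD1 := charDegree_ne_one hG χ hχT
  have hDpos : 0 < charDegree (χ : G → ℂ) := irr_charDegree_pos χ.2
  have hdpos : 0 < charDegree ((θ i₀ : IrrCharacter G) : G → ℂ) := irr_charDegree_pos (θ i₀).2
  refine ⟨charDegree (χ : G → ℂ), charDegree ((θ i₀ : IrrCharacter G) : G → ℂ),
    Cfsg.Agent.Lib.Helper80.Integrality.charDegree_dvd_card χ,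
    Cfsg.Agent.Lib.Helper80.Integrality.charDegree_dvd_card (θ i₀), hD1, ?_⟩
  rcases hδ with rfl | rfl <;> rcases hε with rfl | rfl
  · left
    exact ⟨by omega, by omega⟩
  · exfalso; omega
  · exfalso; omega
  · right
    exact ⟨by omega, by omega⟩

end Cfsg.Agent.Lib.Helper82.DegFive
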