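import Mathlib
import Cfsg.Agent.Lib.Helper88.CEStmt

/-!
# S5127 piece JCARD (helper82)

If `P` is fully normalized in `E` (invariant in `F`) then `|N_T(ψ(P))| ≤ |N_T(P)|` for every map
`ψ` of `F` with source `P`: by the Frattini clause `ψ = β ∘ φ₀`, `φ₀` in `E`, `β ∈ Aut_F(T)`, and
`N_T(β(Q)) = β(N_T(Q))`.
-/

set_option autoImplicit false

namespace Cfsg.Agent.Lib.Helper82.CEJCARD

open Cfsg Cfsg.FusionSystem Cfsg.Agent.Lib.Helper88.CEStmt

universe u

/-- `|N_T(Q)|` computed inside `T` -/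
theorem card_normalizerIn {Ω : Type u} [Group Ω] (T Q : Subgroup Ω) (hQ : Q ≤ T) :
    Nat.card (normalizerIn T Q) =
      Nat.card (Subgroup.normalizer ((Q.subgroupOf T : Subgroup T) : Set T)) := by
  rw [← Subgroup.subgroupOf_normalizer_eq hQ]
  have h1 : (normalizerIn T Q).subgroupOf T =
      (Subgroup.normalizer (Q : Set Ω)).subgroupOf T := by
    unfold normalizerIn
    rw [Subgroup.inf_subgroupOf_left]
  rw [← h1]
  exact (Nat.card_congr (Subgroup.subgroupOfEquivOfLe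
    (inf_le_left : normalizerIn T Q ≤ T)).toEquiv).symm

theorem main : JCard.{u} := by
  intro Ω _ S _ F T E hE P hfn ψ hψ
  obtain ⟨hsub, hstr, hinv, hfrat⟩ := hE
  obtain ⟨hPT, hfn⟩ := hfn
  obtain ⟨α, hα, φ₀, hφ₀, hψα⟩ := hfrat P hPT ψ hψ
  have hφT : ∀ x : P, φ₀ x ∈ T := (E.le_of_mem hφ₀).2
  have hQT : φ₀.range ≤ T := by
    rintro _ ⟨x, rfl⟩
    exact hφT x
  have hRT : ψ.range ≤ T := by
    rintro _ ⟨x, rfl⟩
    rw [hψα x (hφT x)]
    exact (α ⟨φ₀ x, hφT x⟩).2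
  have hle := hfn φ₀.range ⟨φ₀, hφ₀, rfl⟩
  have hmap : ψ.range.subgroupOf T = (φ₀.range.subgroupOf T).map α.toMonoidHom := by
    ext t
    rw [Subgroup.mem_subgroupOf, Subgroup.mem_map]
    constructor
    · rintro ⟨x, hx⟩
      refine ⟨⟨φ₀ x, hφT x⟩, ?_, ?_⟩
      · rw [Subgroup.mem_subgroupOf]
        exact ⟨x, rfl⟩
      · apply Subtype.ext
        rw [← hx, hψα x (hφT x)]
        rfl
    · rintro ⟨q, hq, rfl⟩
      rw [Subgroup.mem_subgroupOf] at hq
      obtain ⟨x, hx⟩ := hq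
      refine ⟨x, ?_⟩
      rw [hψα x (hφT x)]
      have h1 : (⟨φ₀ x, hφT x⟩ : T) = q := Subtype.ext hx
      rw [h1]
      rfl
  rw [card_normalizerIn T ψ.range hRT, hmap, ← Subgroup.map_equiv_normalizer_eq,
    Subgroup.card_map_of_injective (f := α.toMonoidHom) α.injective,
    ← card_normalizerIn T φ₀.range hQT]
  exact hle

end Cfsg.Agent.Lib.Helper82.CEJCARD
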