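import Mathlib
import Cfsg.Agent.Lib.Helper88.CEStmt

/-!
# S5127 piece KMEM (helper82)

For `C_T(P) ≤ P`, `X ≤ C_S(T)` and `κ ∈ K_X(P)` the displacements `x⁻¹ κ(x)` lie in `Z(P)`.
-/

set_option autoImplicit false

namespace Cfsg.Agent.Lib.Helper82.CEKMEM

open Cfsg Cfsg.FusionSystem Cfsg.Agent.Lib.Helper88.CEStmt

universe u

theorem main : KMem.{u} := by
  intro Ω _ S F T hTS P hPT hcen X hX κ hκ x hx
  obtain ⟨-, hκP, hκT⟩ := hκ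
  have hzT := hκT x hx
  have hcomm : ∀ u ∈ P, u * ((x : Ω)⁻¹ * ((κ x : ↥(P ⊔ X)) : Ω)) =
      (x : Ω)⁻¹ * ((κ x : ↥(P ⊔ X)) : Ω) * u := by
    intro u hu
    have hux : u * (x : Ω) = (x : Ω) * u :=
      Subgroup.mem_centralizer_iff.mp (hX hx).2 u (hPT hu)
    have hux' : (⟨u, Subgroup.mem_sup_left hu⟩ : ↥(P ⊔ X)) * x =
        x * (⟨u, Subgroup.mem_sup_left hu⟩ : ↥(P ⊔ X)) := Subtype.ext hux
    have h1 := congrArg κ hux'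
    rw [map_mul, map_mul, hκP ⟨u, Subgroup.mem_sup_left hu⟩ hu] at h1
    have h2 : u * ((κ x : ↥(P ⊔ X)) : Ω) = ((κ x : ↥(P ⊔ X)) : Ω) * u :=
      congrArg Subtype.val h1
    have h3 : u * (x : Ω)⁻¹ = (x : Ω)⁻¹ * u := by
      calc u * (x : Ω)⁻¹ = (x : Ω)⁻¹ * ((x : Ω) * u) * (x : Ω)⁻¹ := by group
        _ = (x : Ω)⁻¹ * (u * (x : Ω)) * (x : Ω)⁻¹ := by rw [hux]
        _ = (x : Ω)⁻¹ * u := by group
    calc u * ((x : Ω)⁻¹ * ((κ x : ↥(P ⊔ X)) : Ω))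
        = u * (x : Ω)⁻¹ * ((κ x : ↥(P ⊔ X)) : Ω) := by rw [mul_assoc]
      _ = (x : Ω)⁻¹ * (u * ((κ x : ↥(P ⊔ X)) : Ω)) := by rw [h3, mul_assoc]
      _ = (x : Ω)⁻¹ * ((κ x : ↥(P ⊔ X)) : Ω) * u := by rw [h2, mul_assoc]
  refine ⟨hcen ⟨hzT, ?_⟩, hcomm⟩
  exact Subgroup.mem_centralizer_iff.mpr (fun u hu => hcomm u hu)

end Cfsg.Agent.Lib.Helper82.CEKMEM
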