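import Mathlib
import Cfsg.Prelude.Def_Characters
import Cfsg.Prelude.Def_Blocks
import Cfsg.Prelude.Def_CharExt
import Cfsg.Prelude.Def_Transfer
import Cfsg.Agent.Lib.Helper15.DetChar
import Cfsg.Agent.Lib.Helper3.Spectral
import Cfsg.Agent.Lib.Helper80.Deg2p
import Cfsg.Agent.Lib.Helper74.SCRep
import Cfsg.Agent.Lib.CT.LinChar
import Cfsg.Agent.Lib.Helper81.CliffCorr

/-!
Determinantal characters: multiplicativity, twisting by a linear character, Galois
conjugation (via the Newton identities), restriction, and triviality on `p`-elements of the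
`p`-residual.
-/

set_option autoImplicit false

namespace Cfsg.Agent.Lib.Helper82.DetPow

open Cfsg

universe u

theorem esymm_eq_of_psum_eq {ι : Type*} [Fintype ι] [DecidableEq ι] (x y : ι → ℂ)
    (h : ∀ j : ℕ, 0 < j → ∑ i, x i ^ j = ∑ i, y i ^ j) (k : ℕ) :
    MvPolynomial.aeval x (MvPolynomial.esymm ι ℂ k) =
      MvPolynomial.aeval y (MvPolynomial.esymm ι ℂ k) := by
  induction k using Nat.strong_induction_on with
  | _ k ih =>
    rcases Nat.eq_zero_or_pos k with rfl | hk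
    · simp
    · have hx := congrArg (MvPolynomial.aeval x) (MvPolynomial.mul_esymm_eq_sum ι ℂ k)
      have hy := congrArg (MvPolynomial.aeval y) (MvPolynomial.mul_esymm_eq_sum ι ℂ k)
      simp only [map_mul, map_natCast, map_pow, map_neg, map_one, map_sum] at hx hy
      have hkne : (k : ℂ) ≠ 0 := by exact_mod_cast hk.ne'
      apply mul_left_cancel₀ hkne
      rw [hx, hy]
      congr 1
      apply Finset.sum_congr rfl
      intro a ha
      rw [Finset.mem_filter] at ha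
      have ha1 : a.1 + a.2 = k := Finset.HasAntidiagonal.mem_antidiagonal.mp ha.1
      rw [ih a.1 ha.2]
      congr 1
      have h2 : 0 < a.2 := by omega
      simp only [MvPolynomial.psum, map_sum, map_pow, MvPolynomial.aeval_X]
      exact h a.2 h2

theorem prod_eq_of_psum_eq_aux {ι : Type*} [Fintype ι] (x y : ι → ℂ)
    (h : ∀ j : ℕ, 0 < j → ∑ i, x i ^ j = ∑ i, y i ^ j) : ∏ i, x i = ∏ i, y i := by
  classical
  have h1 := esymm_eq_of_psum_eq x y h (Fintype.card ι)
  simpa [MvPolynomial.esymm, ← Finset.card_univ, Finset.powersetCard_self] using h1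

/-- Two finite families of complex numbers with the same power sums have the same product. -/
theorem prod_eq_of_psum_eq {ι ι' : Type*} [Fintype ι] [Fintype ι'] (x : ι → ℂ) (y : ι' → ℂ)
    (h : ∀ j : ℕ, ∑ i, x i ^ j = ∑ i, y i ^ j) : ∏ i, x i = ∏ i, y i := by
  classical
  have hc : Fintype.card ι = Fintype.card ι' := by
    have h0 := h 0
    simp only [pow_zero, Finset.sum_const, Finset.card_univ, nsmul_eq_mul, mul_one] at h0
    exact_mod_cast h0
  let e : ι ≃ ι' := Fintype.equivOfCardEq hc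
  have h1 : ∏ i, y i = ∏ i, y (e i) := (Equiv.prod_comp e y).symm
  rw [h1]
  apply prod_eq_of_psum_eq_aux
  intro j _
  rw [h j]
  exact (Equiv.sum_comp e (fun i => y i ^ j)).symm

variable {G : Type u} [Group G] [Finite G]

open Cfsg.Agent.Lib.Helper15.DetChar

/-- The determinantal character of an irreducible character is multiplicative. -/
theorem detChar_mul {χ : G → ℂ} (hχ : IsIrrCharacter G χ) (g h : G) :
    detChar χ (g * h) = detChar χ g * detChar χ h := by
  obtain ⟨n, σ, hirr, hσ⟩ := hχ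
  have hχ' : IsIrrCharacter G χ := ⟨n, σ, hirr, hσ⟩
  rw [detChar_eq_of_rep' hχ' σ hσ]
  show LinearMap.det (σ (g * h)) = LinearMap.det (σ g) * LinearMap.det (σ h)
  rw [map_mul, map_mul]

theorem detChar_one {χ : G → ℂ} (hχ : IsIrrCharacter G χ) : detChar χ 1 = 1 := by
  obtain ⟨n, σ, hirr, hσ⟩ := hχ
  have hχ' : IsIrrCharacter G χ := ⟨n, σ, hirr, hσ⟩
  rw [detChar_eq_of_rep' hχ' σ hσ]
  show LinearMap.det (σ 1) = 1
  rw [map_one, map_one]

theorem detChar_pow {χ : G → ℂ} (hχ : IsIrrCharacter G χ) (g : G) (k : ℕ) :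
    detChar χ (g ^ k) = detChar χ g ^ k := by
  induction k with
  | zero => rw [pow_zero, pow_zero, detChar_one hχ]
  | succ k ih => rw [pow_succ, pow_succ, detChar_mul hχ, ih]

theorem detChar_ne_zero {χ : G → ℂ} (hχ : IsIrrCharacter G χ) (g : G) : detChar χ g ≠ 0 := by
  intro h
  have h1 := detChar_mul hχ g g⁻¹
  rw [mul_inv_cancel, detChar_one hχ, h, zero_mul] at h1
  exact one_ne_zero h1

/-- The determinantal character of the twist of `χ` by a linear character. -/
theorem detChar_twist {χ : G → ℂ} (hχ : IsIrrCharacter G χ) (f : G →* ℂˣ) (g : G) :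
    detChar (fun x => ((f x : ℂˣ) : ℂ) * χ x) g
      = ((f g : ℂˣ) : ℂ) ^ charDegree χ * detChar χ g := by
  obtain ⟨n, σ, hirr, hσ⟩ := hχ
  have hχ' : IsIrrCharacter G χ := ⟨n, σ, hirr, hσ⟩
  have hirr2 : IsIrrCharacter G (fun x => ((f x : ℂˣ) : ℂ) * χ x) :=
    Cfsg.Agent.Lib.CT.LinChar.isIrrCharacter_linear_mul
      (Cfsg.Agent.Lib.CT.LinChar.isCharacter_of_hom f) (by simp) hχ'
  have h2 : (Cfsg.Agent.Lib.CT.LinChar.twist f σ).character
      = fun x => ((f x : ℂˣ) : ℂ) * χ x := by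
    rw [Cfsg.Agent.Lib.CT.LinChar.twist_character, hσ]
  rw [detChar_eq_of_rep' hirr2 (Cfsg.Agent.Lib.CT.LinChar.twist f σ) h2,
    detChar_eq_of_rep' hχ' σ hσ]
  show LinearMap.det (((f g : ℂˣ) : ℂ) • σ g) = _
  rw [LinearMap.det_smul, Module.finrank_fin_fun]
  have hn : n = charDegree χ := by
    have h3 : ((n : ℕ) : ℂ) = (charDegree χ : ℂ) := by
      rw [← Cfsg.Agent.Lib.Helper81.CliffCorr.deg_cast ⟨χ, hχ'⟩]
      show (n : ℂ) = χ 1
      rw [← hσ, Representation.char_one, Module.finrank_fin_fun]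
    exact_mod_cast h3
  show ((f g : ℂˣ) : ℂ) ^ n * LinearMap.det (σ g)
    = ((f g : ℂˣ) : ℂ) ^ charDegree χ * LinearMap.det (σ g)
  congr 2

/-- The determinantal character of a Galois conjugate. -/
theorem detChar_galois {χ χ' : G → ℂ} (hχ : IsIrrCharacter G χ)
    (hχ' : IsIrrCharacter G χ') (k : ℕ) (h : ∀ g, χ' g = χ (g ^ k)) (g : G) :
    detChar χ' g = detChar χ (g ^ k) := by
  classical
  obtain ⟨n, σ, hirr, hσ⟩ := hχ
  obtain ⟨n', σ', hirr', hσ'⟩ := hχ'
  rw [detChar_eq_of_rep' ⟨n', σ', hirr', hσ'⟩ σ' hσ', detChar_eq_of_rep' ⟨n, σ, hirr, hσ⟩ σ hσ]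
  show LinearMap.det (σ' g) = LinearMap.det (σ (g ^ k))
  obtain ⟨b, μ, hb, -⟩ := Cfsg.Agent.Lib.Helper3.Spectral.exists_eigenbasis σ g
  obtain ⟨b', μ', hb', -⟩ := Cfsg.Agent.Lib.Helper3.Spectral.exists_eigenbasis σ' g
  have hpow : ∀ (j : ℕ) i, σ (g ^ j) (b i) = μ i ^ j • b i := by
    intro j i
    rw [map_pow]
    exact Cfsg.Agent.Lib.Helper74.SCRep.pow_apply_eigen (σ g) (b i) (μ i) (hb i) j
  have hpow' : ∀ (j : ℕ) i, σ' (g ^ j) (b' i) = μ' i ^ j • b' i := by
    intro j i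
    rw [map_pow]
    exact Cfsg.Agent.Lib.Helper74.SCRep.pow_apply_eigen (σ' g) (b' i) (μ' i) (hb' i) j
  rw [Cfsg.Agent.Lib.Helper80.Deg2p.det_eq_prod_of_eigenbasis b' (σ' g) μ' hb',
    Cfsg.Agent.Lib.Helper80.Deg2p.det_eq_prod_of_eigenbasis b (σ (g ^ k)) (fun i => μ i ^ k)
      (hpow k)]
  apply prod_eq_of_psum_eq
  intro j
  have e1 : ∑ i, μ' i ^ j = χ' (g ^ j) := by
    rw [← hσ']
    exact (Cfsg.Agent.Lib.Helper3.Spectral.trace_eq_sum_of_eigenbasis b' (σ' (g ^ j))
      (fun i => μ' i ^ j) (hpow' j)).symm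
  have e2 : ∑ i, (μ i ^ k) ^ j = χ (g ^ (k * j)) := by
    rw [← hσ]
    simp_rw [← pow_mul]
    exact (Cfsg.Agent.Lib.Helper3.Spectral.trace_eq_sum_of_eigenbasis b (σ (g ^ (k * j)))
      (fun i => μ i ^ (k * j)) (hpow (k * j))).symm
  rw [e1, e2, h, ← pow_mul, mul_comm]

/-- The determinantal character of an irreducible restriction. -/
theorem detChar_res (N : Subgroup G) {χ : G → ℂ} (hχ : IsIrrCharacter G χ)
    (hres : IsIrrCharacter N (fun n : N => χ n)) (n : N) :
    detChar (fun n : N => χ n) n = detChar χ (n : G) := by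
  obtain ⟨d, σ, hirr, hσ⟩ := hχ
  have h2 : (show Representation ℂ N (Fin d → ℂ) from σ.comp N.subtype).character
      = fun n : N => χ n := by
    funext m
    rw [← hσ]
    rfl
  rw [detChar_eq_of_rep' ⟨d, σ, hirr, hσ⟩ σ hσ,
    detChar_eq_of_rep' hres (show Representation ℂ N (Fin d → ℂ) from σ.comp N.subtype) h2]
  rfl

omit [Finite G] in
/-- A multiplicative complex function on the `p`-residual is trivial on `p`-elements. -/
theorem eq_one_of_pResidual (p : ℕ) [Fact p.Prime] (lam : ↥(pResidual p G) → ℂ)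
    (h1 : lam 1 = 1) (hmul : ∀ a b, lam (a * b) = lam a * lam b)
    (v : ↥(pResidual p G)) (j : ℕ) (hv : v ^ p ^ j = 1) : lam v = 1 := by
  have hp : p.Prime := Fact.out
  have hpow : ∀ (a : ↥(pResidual p G)) (m : ℕ), lam (a ^ m) = lam a ^ m := by
    intro a m
    induction m with
    | zero => rw [pow_zero, pow_zero, h1]
    | succ m ih => rw [pow_succ, pow_succ, hmul, ih]
  have key : ∀ (g : G) (hg : g ∈ pResidual p G),
      ∃ m : ℕ, m.Coprime p ∧ lam ⟨g, hg⟩ ^ m = 1 := by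
    intro g hg
    unfold pResidual at hg
    induction hg using Subgroup.closure_induction with
    | mem x hx =>
      refine ⟨orderOf x, hx, ?_⟩
      rw [← hpow]
      have e : (⟨x, Subgroup.subset_closure hx⟩ : ↥(pResidual p G)) ^ orderOf x = 1 := by
        apply Subtype.ext
        rw [Subgroup.coe_pow, Subgroup.coe_one]
        exact pow_orderOf_eq_one x
      rw [e, h1]
    | one => exact ⟨1, Nat.coprime_one_left p, by rw [pow_one]; exact h1⟩
    | mul x y hx hy ihx ihy =>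
      obtain ⟨m₁, hm₁, e₁⟩ := ihx
      obtain ⟨m₂, hm₂, e₂⟩ := ihy
      refine ⟨m₁ * m₂, Nat.Coprime.mul_left hm₁ hm₂, ?_⟩
      have e : (⟨x * y, Subgroup.mul_mem _ hx hy⟩ : ↥(pResidual p G))
          = ⟨x, hx⟩ * ⟨y, hy⟩ := rfl
      rw [e, hmul, mul_pow, pow_mul, e₁, one_pow, mul_comm m₁ m₂, pow_mul, e₂, one_pow, one_mul]
    | inv x hx ihx =>
      obtain ⟨m, hm, e₁⟩ := ihx
      refine ⟨m, hm, ?_⟩
      have e : lam ⟨x⁻¹, Subgroup.inv_mem _ hx⟩ * lam ⟨x, hx⟩ = 1 := by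
        rw [← hmul]
        have : (⟨x⁻¹, Subgroup.inv_mem _ hx⟩ : ↥(pResidual p G)) * ⟨x, hx⟩ = 1 := by
          apply Subtype.ext
          show x⁻¹ * x = 1
          exact inv_mul_cancel x
        rw [this, h1]
      have e2 := congrArg (fun z => z ^ m) e
      simp only [mul_pow, e₁, mul_one, one_pow] at e2
      exact e2
  obtain ⟨m, hm, e⟩ := key v.1 v.2
  have e' : lam v ^ p ^ j = 1 := by rw [← hpow, hv, h1]
  have h3 := pow_gcd_eq_one.mpr ⟨e, e'⟩
  have h4 : m.gcd (p ^ j) = 1 := Nat.Coprime.pow_right j hm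
  rw [h4, pow_one] at h3
  exact h3

end Cfsg.Agent.Lib.Helper82.DetPow
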