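import Mathlib
import Cfsg.Prelude.Def_Perm

/-!
# S4025 piece SAC: orders of the (semi)affine groups of a Galois field
-/

set_option autoImplicit false

namespace Cfsg.Agent.Lib.Helper82.EqSAC

universe u

/-- Ring automorphisms of a `ZMod p`-algebra are algebra automorphisms. -/
noncomputable def ringAutEquiv (p : ℕ) (F : Type u) [Field F] [Algebra (ZMod p) F] :
    (F ≃+* F) ≃ (F ≃ₐ[ZMod p] F) where
  toFun f := AlgEquiv.ofRingEquiv (f := f) (fun x => by
    have h : (f : F →+* F).comp (algebraMap (ZMod p) F) = algebraMap (ZMod p) F :=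
      Subsingleton.elim _ _
    exact RingHom.congr_fun h x)
  invFun g := g.toRingEquiv
  left_inv f := by ext x; rfl
  right_inv g := by ext x; rfl

theorem card_ringAut (p n : ℕ) [Fact p.Prime] (hn : n ≠ 0) :
    Nat.card (GaloisField p n ≃+* GaloisField p n) = n := by
  rw [Nat.card_congr (ringAutEquiv p (GaloisField p n)), IsGalois.card_aut_eq_finrank,
    GaloisField.finrank p hn]

theorem card_field (p n : ℕ) [Fact p.Prime] (hn : n ≠ 0) : Nat.card (GaloisField p n) = p ^ n :=
  GaloisField.card p n hn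

theorem card_semiaffine_le (p n : ℕ) [Fact p.Prime] (hn : n ≠ 0) :
    Nat.card (Cfsg.semiaffineGroup (GaloisField p n)) ≤ p ^ n * (p ^ n - 1) * n := by
  classical
  have hfin : Finite (GaloisField p n ≃+* GaloisField p n) :=
    Nat.finite_of_card_ne_zero (by rw [card_ringAut p n hn]; exact hn)
  have hex : ∀ σ : ↥(Cfsg.semiaffineGroup (GaloisField p n)),
      ∃ t : (GaloisField p n)ˣ × GaloisField p n × (GaloisField p n ≃+* GaloisField p n),
        ∀ x, (σ : Equiv.Perm (GaloisField p n)) x = (t.1 : GaloisField p n) * t.2.2 x + t.2.1 := by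
    intro σ
    obtain ⟨a, b, φ, h⟩ := σ.2
    exact ⟨(a, b, φ), h⟩
  choose g hg using hex
  have hinj : Function.Injective g := by
    intro σ τ h
    apply Subtype.ext
    apply Equiv.ext
    intro x
    rw [hg σ x, hg τ x, h]
  have h1 := Nat.card_le_card_of_injective g hinj
  rw [Nat.card_prod, Nat.card_prod, Nat.card_units, card_ringAut p n hn, card_field p n hn] at h1
  calc Nat.card (Cfsg.semiaffineGroup (GaloisField p n)) ≤ (p ^ n - 1) * (p ^ n * n) := h1
    _ = p ^ n * (p ^ n - 1) * n := by ring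

theorem card_affine_le (p n : ℕ) [Fact p.Prime] (hn : n ≠ 0) :
    Nat.card (Cfsg.affineGroup (GaloisField p n)) ≤ p ^ n * (p ^ n - 1) := by
  classical
  have hex : ∀ σ : ↥(Cfsg.affineGroup (GaloisField p n)),
      ∃ t : (GaloisField p n)ˣ × GaloisField p n,
        ∀ x, (σ : Equiv.Perm (GaloisField p n)) x = (t.1 : GaloisField p n) * x + t.2 := by
    intro σ
    obtain ⟨a, b, h⟩ := σ.2
    exact ⟨(a, b), h⟩
  choose g hg using hex
  have hinj : Function.Injective g := by
    intro σ τ h
    apply Subtype.ext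
    apply Equiv.ext
    intro x
    rw [hg σ x, hg τ x, h]
  have h1 := Nat.card_le_card_of_injective g hinj
  rw [Nat.card_prod, Nat.card_units, card_field p n hn] at h1
  calc Nat.card (Cfsg.affineGroup (GaloisField p n)) ≤ (p ^ n - 1) * p ^ n := h1
    _ = p ^ n * (p ^ n - 1) := by ring

end Cfsg.Agent.Lib.Helper82.EqSAC
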