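import Mathlib

set_option autoImplicit false

namespace Cfsg.Agent.Lib.Helper82.FourierCount

open Finset
open scoped ComplexConjugate

/-! ### An integer inequality -/

theorem int_ineq (p s q r A B : ℤ) (hs : s ≤ p) (hq : 0 ≤ q) (hr1 : 1 ≤ r) (hr2 : r ≤ p - 1)
    (hAB : B ≤ A) (hB : B = (p - s) * q + r) :
    (p * q + r) ^ 2 + (p - 1) ≤ p * (A + 2 * q * B + s * q ^ 2) := by
  have hp : 0 ≤ p := by linarith
  have h1 : 0 ≤ p * (A - B) := mul_nonneg hp (by linarith)
  have h2 : 0 ≤ p * (p - s) * q := mul_nonneg (mul_nonneg hp (by linarith)) hq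
  have h3 : 0 ≤ p * (p - s) * q ^ 2 := mul_nonneg (mul_nonneg hp (by linarith)) (sq_nonneg q)
  have h4 : 0 ≤ (r - 1) * (p - 1 - r) := mul_nonneg (by linarith) (by linarith)
  have key : p * (A + 2 * q * B + s * q ^ 2) - ((p * q + r) ^ 2 + (p - 1)) =
      p * (A - B) + p * (p - s) * q + p * (p - s) * q ^ 2 + (r - 1) * (p - 1 - r) := by
    rw [hB]; ring
  linarith

/-- For at most `p` natural numbers whose sum is not divisible by `p`. -/
theorem sq_sum_add_le {ι : Type*} (p : ℕ) (S : Finset ι) (hS : S.card ≤ p) (n : ι → ℕ)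
    (hp : ¬ p ∣ ∑ b ∈ S, n b) :
    (∑ b ∈ S, n b) ^ 2 + (p - 1) ≤ p * ∑ b ∈ S, n b ^ 2 := by
  have hp0 : 0 < p := by
    rcases Nat.eq_zero_or_pos p with h | h
    · subst h
      have : S = ∅ := Finset.card_eq_zero.1 (Nat.le_zero.1 hS)
      subst this
      simp at hp
    · exact h
  set m := ∑ b ∈ S, n b with hm
  set q := m / p
  set r := m % p
  have hmqr : m = p * q + r := (Nat.div_add_mod m p).symm
  have hr1 : 1 ≤ r := by
    rcases Nat.eq_zero_or_pos r with h | h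
    · exact absurd (Nat.dvd_of_mod_eq_zero h) hp
    · exact h
  have hr2 : r < p := Nat.mod_lt _ hp0
  -- work in ℤ
  have hA : ∑ b ∈ S, ((n b : ℤ) - q) ≤ ∑ b ∈ S, ((n b : ℤ) - q) ^ 2 :=
    Finset.sum_le_sum fun b _ => Int.le_self_sq _
  have hB : ∑ b ∈ S, ((n b : ℤ) - q) = ((p : ℤ) - S.card) * q + r := by
    rw [Finset.sum_sub_distrib, Finset.sum_const, nsmul_eq_mul]
    have : (∑ b ∈ S, (n b : ℤ)) = (p : ℤ) * q + r := by
      rw [← Nat.cast_sum, ← hm]; exact_mod_cast hmqr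
    rw [this]; ring
  have hexp : ∑ b ∈ S, (n b : ℤ) ^ 2 = ∑ b ∈ S, ((n b : ℤ) - q) ^ 2 +
      2 * q * ∑ b ∈ S, ((n b : ℤ) - q) + S.card * (q : ℤ) ^ 2 := by
    rw [Finset.mul_sum, ← Finset.sum_add_distrib]
    have : (S.card : ℤ) * (q : ℤ) ^ 2 = ∑ _b ∈ S, (q : ℤ) ^ 2 := by
      rw [Finset.sum_const, nsmul_eq_mul]
    rw [this, ← Finset.sum_add_distrib]
    apply Finset.sum_congr rfl
    intro b _
    ring
  have hfin := int_ineq (p : ℤ) (S.card : ℤ) (q : ℤ) (r : ℤ) (∑ b ∈ S, ((n b : ℤ) - q) ^ 2)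
    (∑ b ∈ S, ((n b : ℤ) - q)) (by exact_mod_cast hS) (by positivity) (by exact_mod_cast hr1)
    (by omega) hA hB
  rw [← hexp] at hfin
  have h1 : ((m : ℤ)) = (p : ℤ) * q + r := by exact_mod_cast hmqr
  rw [← h1] at hfin
  have h2 : ((p - 1 : ℕ) : ℤ) = (p : ℤ) - 1 := by
    rw [Nat.cast_sub hp0]; simp
  have : (((m ^ 2 + (p - 1) : ℕ)) : ℤ) ≤ ((p * ∑ b ∈ S, n b ^ 2 : ℕ) : ℤ) := by
    push_cast
    rw [h2]
    exact hfin
  exact_mod_cast this

theorem sq_sum_le_mul {ι : Type*} (p : ℕ) (S : Finset ι) (hS : S.card ≤ p) (n : ι → ℕ) :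
    (∑ b ∈ S, n b) ^ 2 ≤ p * ∑ b ∈ S, n b ^ 2 := by
  calc (∑ b ∈ S, n b) ^ 2 ≤ S.card * ∑ b ∈ S, n b ^ 2 := sq_sum_le_card_mul_sum_sq
    _ ≤ p * ∑ b ∈ S, n b ^ 2 := Nat.mul_le_mul_right _ hS


/-! ### Counting pairs with equal values -/

/-- the number of ordered pairs with equal values -/
def pairCount {I α : Type*} [Fintype I] [DecidableEq α] (φ : I → α) : ℕ :=
  ∑ i : I, ∑ j : I, if φ i = φ j then 1 else 0

theorem pairCount_eq {I α : Type*} [Fintype I] [DecidableEq α] (φ : I → α) :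
    pairCount φ = ∑ a ∈ univ.image φ, (univ.filter (fun i => φ i = a)).card ^ 2 := by
  classical
  unfold pairCount
  have h1 : ∀ i : I, (∑ j : I, if φ i = φ j then 1 else 0) =
      (univ.filter (fun j => φ j = φ i)).card := by
    intro i
    rw [Finset.card_filter]
    apply Finset.sum_congr rfl
    intro j _
    simp only [eq_comm]
  rw [Finset.sum_congr rfl (fun i _ => h1 i)]
  rw [Finset.sum_comp (fun a => (univ.filter (fun j => φ j = a)).card) φ]
  apply Finset.sum_congr rfl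
  intro a _
  rw [smul_eq_mul, sq]

theorem pairCount_pow_le {I : Type*} [Fintype I] [DecidableEq ℂ] (f : I → ℂ) (p : ℕ)
    (hp : p.Prime) (hpI : ¬ p ∣ Fintype.card I) :
    (p - 1) + pairCount (fun i => f i ^ p) ≤ p * pairCount f := by
  classical
  rw [pairCount_eq, pairCount_eq]
  set K : Finset ℂ := univ.image f with hK
  set J : Finset ℂ := univ.image (fun i => f i ^ p) with hJ
  let nn : ℂ → ℕ := fun b => (univ.filter (fun i => f i = b)).card
  let mm : ℂ → ℕ := fun d => (univ.filter (fun i => f i ^ p = d)).card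
  let S : ℂ → Finset ℂ := fun d => K.filter (fun b => b ^ p = d)
  have memK : ∀ b, b ∈ K ↔ ∃ i, f i = b := fun b => by simp [hK]
  have memJ : ∀ d, d ∈ J ↔ ∃ i, f i ^ p = d := fun d => by simp [hJ]
  have memS : ∀ d b, b ∈ S d ↔ (∃ i, f i = b) ∧ b ^ p = d := fun d b => by
    simp only [S, Finset.mem_filter, memK]
  have hScard : ∀ d, (S d).card ≤ p := by
    intro d
    have hsub : S d ⊆ (Polynomial.nthRoots p d).toFinset := by
      intro b hb
      rw [memS] at hb
      rw [Multiset.mem_toFinset, Polynomial.mem_nthRoots hp.pos]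
      exact hb.2
    calc (S d).card ≤ (Polynomial.nthRoots p d).toFinset.card := Finset.card_le_card hsub
      _ ≤ Multiset.card (Polynomial.nthRoots p d) := Multiset.toFinset_card_le _
      _ ≤ p := Polynomial.card_nthRoots p d
  have hm : ∀ d, mm d = ∑ b ∈ S d, nn b := by
    intro d
    have h1 := Finset.card_eq_sum_card_fiberwise (s := univ.filter (fun i => f i ^ p = d))
      (t := S d) (f := f) (by
        intro i hi
        have hi' : f i ^ p = d := by simpa using hi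
        exact Finset.mem_coe.2 ((memS d _).2 ⟨⟨i, rfl⟩, hi'⟩))
    simp only [mm]
    rw [h1]
    apply Finset.sum_congr rfl
    intro b hb
    rw [memS] at hb
    simp only [nn]
    congr 1
    ext i
    simp only [Finset.mem_filter, Finset.mem_univ, true_and]
    constructor
    · exact fun h => h.2
    · intro h
      exact ⟨by rw [h]; exact hb.2, h⟩
  have hsplit : ∑ b ∈ K, nn b ^ 2 = ∑ d ∈ J, ∑ b ∈ S d, nn b ^ 2 := by
    symm
    apply Finset.sum_fiberwise_of_maps_to
    intro b hb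
    rw [memK] at hb
    obtain ⟨i, rfl⟩ := hb
    rw [memJ]
    exact ⟨i, rfl⟩
  have htot : ∑ d ∈ J, mm d = Fintype.card I := by
    have h1 := Finset.card_eq_sum_card_fiberwise (s := (univ : Finset I)) (t := J)
      (f := fun i => f i ^ p) (by
        intro i _
        exact Finset.mem_coe.2 ((memJ _).2 ⟨i, rfl⟩))
    rw [Finset.card_univ] at h1
    rw [h1]
  obtain ⟨d₀, hd₀J, hd₀⟩ : ∃ d₀ ∈ J, ¬ p ∣ mm d₀ := by
    by_contra hcon
    have hcon' : ∀ d ∈ J, p ∣ mm d := fun d hd => by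
      by_contra h
      exact hcon ⟨d, hd, h⟩
    exact hpI (htot ▸ Finset.dvd_sum hcon')
  show (p - 1) + ∑ d ∈ J, mm d ^ 2 ≤ p * ∑ b ∈ K, nn b ^ 2
  rw [hsplit, Finset.mul_sum]
  have hterm : ∀ d ∈ J, mm d ^ 2 + (if d = d₀ then p - 1 else 0) ≤ p * ∑ b ∈ S d, nn b ^ 2 := by
    intro d _
    rw [hm d]
    split_ifs with h
    · subst h
      rw [hm d] at hd₀
      exact sq_sum_add_le p (S d) (hScard d) nn hd₀
    · rw [add_zero]
      exact sq_sum_le_mul p (S d) (hScard d) nn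
  calc (p - 1) + ∑ d ∈ J, mm d ^ 2 = ∑ d ∈ J, (mm d ^ 2 + (if d = d₀ then p - 1 else 0)) := by
        rw [Finset.sum_add_distrib, Finset.sum_ite_eq' J d₀, if_pos hd₀J, add_comm]
    _ ≤ ∑ d ∈ J, p * ∑ b ∈ S d, nn b ^ 2 := Finset.sum_le_sum hterm


/-! ### Sums of powers of roots of unity -/

theorem geom_conj_sum (a b : ℂ) (n : ℕ) (hn : 0 < n) (ha : a ^ n = 1) (hb : b ^ n = 1)
    [Decidable (a = b)] :
    ∑ z ∈ range n, (a * conj b) ^ z = if a = b then (n : ℂ) else 0 := by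
  have hnb : ‖b‖ = 1 := Complex.norm_eq_one_of_pow_eq_one hb hn.ne'
  have hbb : conj b * b = 1 := by
    rw [mul_comm, Complex.mul_conj, Complex.normSq_eq_norm_sq, hnb]; simp
  split_ifs with h
  · subst h
    rw [mul_comm, hbb]; simp
  · have hne : a * conj b ≠ 1 := by
      intro h1
      apply h
      calc a = a * (conj b * b) := by rw [hbb, mul_one]
        _ = (a * conj b) * b := by ring
        _ = b := by rw [h1, one_mul]
    rw [geom_sum_eq hne, mul_pow, ha, ← map_pow, hb]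
    simp

/-- Parseval on the cyclic group of exponents. -/
theorem cyc_sum {I : Type*} [Fintype I] [DecidableEq ℂ] (f : I → ℂ) (n : ℕ) (hn : 0 < n)
    (hf : ∀ i, f i ^ n = 1) :
    ∑ z ∈ range n, ‖∑ i, f i ^ z‖ ^ 2 = (n : ℝ) * pairCount f := by
  have hC : ∑ z ∈ range n, (∑ i, f i ^ z) * conj (∑ i, f i ^ z) =
      (n : ℂ) * (pairCount f : ℂ) := by
    have h1 : ∀ z, (∑ i, f i ^ z) * conj (∑ i, f i ^ z) =
        ∑ i, ∑ j, (f i * conj (f j)) ^ z := by
      intro z
      rw [map_sum, Finset.sum_mul_sum]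
      apply Finset.sum_congr rfl
      intro i _
      apply Finset.sum_congr rfl
      intro j _
      rw [map_pow, mul_pow]
    rw [Finset.sum_congr rfl (fun z _ => h1 z), Finset.sum_comm]
    have h2 : ∀ i, ∑ z ∈ range n, ∑ j, (f i * conj (f j)) ^ z =
        ∑ j, if f i = f j then (n : ℂ) else 0 := by
      intro i
      rw [Finset.sum_comm]
      apply Finset.sum_congr rfl
      intro j _
      exact geom_conj_sum (f i) (f j) n hn (hf i) (hf j)
    rw [Finset.sum_congr rfl (fun i _ => h2 i)]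
    unfold pairCount
    push_cast
    rw [Finset.mul_sum]
    apply Finset.sum_congr rfl
    intro i _
    rw [Finset.mul_sum]
    apply Finset.sum_congr rfl
    intro j _
    split_ifs <;> simp
  have : ((∑ z ∈ range n, ‖∑ i, f i ^ z‖ ^ 2 : ℝ) : ℂ) = (((n : ℝ) * pairCount f : ℝ) : ℂ) := by
    push_cast
    rw [← hC]
    apply Finset.sum_congr rfl
    intro z _
    rw [Complex.mul_conj, Complex.normSq_eq_norm_sq]
    push_cast; rfl
  exact_mod_cast this

theorem split_sum (g : ℕ → ℝ) (p k : ℕ) (hp : 0 < p) :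
    ∑ z ∈ (range (p ^ (k + 1))).filter (fun z => ¬ p ∣ z), g z =
      ∑ z ∈ range (p ^ (k + 1)), g z - ∑ w ∈ range (p ^ k), g (p * w) := by
  have h1 := Finset.sum_filter_add_sum_filter_not (range (p ^ (k + 1))) (fun z => p ∣ z) g
  have h2 : ∑ z ∈ (range (p ^ (k + 1))).filter (fun z => p ∣ z), g z =
      ∑ w ∈ range (p ^ k), g (p * w) := by
    have himg : (range (p ^ (k + 1))).filter (fun z => p ∣ z) = (range (p ^ k)).image (p * ·) := by
      ext z
      simp only [Finset.mem_filter, Finset.mem_range, Finset.mem_image]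
      constructor
      · rintro ⟨hz, w, rfl⟩
        refine ⟨w, ?_, rfl⟩
        rw [pow_succ, mul_comm (p ^ k) p] at hz
        exact lt_of_mul_lt_mul_left hz (Nat.zero_le _)
      · rintro ⟨w, hw, rfl⟩
        refine ⟨?_, dvd_mul_right _ _⟩
        rw [pow_succ, mul_comm (p ^ k) p]
        exact Nat.mul_lt_mul_of_pos_left hw hp
    rw [himg, Finset.sum_image]
    intro a _ b _ hab
    exact Nat.eq_of_mul_eq_mul_left hp hab
  linarith

/-- A sum of `r` roots of unity of `p`-power order, `p ∤ r`: average of squared norms of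
its conjugates over exponents prime to `p`. -/
theorem faithful_sum_ge {I : Type*} [Fintype I] (f : I → ℂ) (p k : ℕ) (hp : p.Prime)
    (hpI : ¬ p ∣ Fintype.card I) (hf : ∀ i, f i ^ (p ^ (k + 1)) = 1) :
    (((range (p ^ (k + 1))).filter (fun z => ¬ p ∣ z)).card : ℝ) ≤
      ∑ z ∈ (range (p ^ (k + 1))).filter (fun z => ¬ p ∣ z), ‖∑ i, f i ^ z‖ ^ 2 := by
  classical
  have hcard : (((range (p ^ (k + 1))).filter (fun z => ¬ p ∣ z)).card : ℝ) =
      (p : ℝ) ^ (k + 1) - (p : ℝ) ^ k := by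
    have := split_sum (fun _ => (1 : ℝ)) p k hp.pos
    simp only [Finset.sum_const, nsmul_eq_mul, mul_one, Finset.card_range] at this
    rw [this]; push_cast; ring
  rw [hcard, split_sum _ p k hp.pos, cyc_sum f (p ^ (k + 1)) (pow_pos hp.pos _) hf]
  have h2 : ∑ w ∈ range (p ^ k), ‖∑ i, f i ^ (p * w)‖ ^ 2 =
      ((p ^ k : ℕ) : ℝ) * pairCount (fun i => f i ^ p) := by
    rw [← cyc_sum (fun i => f i ^ p) (p ^ k) (pow_pos hp.pos _)
      (fun i => by rw [← pow_mul, ← pow_succ']; exact hf i)]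
    apply Finset.sum_congr rfl
    intro w _
    congr 2
    apply Finset.sum_congr rfl
    intro i _
    rw [pow_mul]
  rw [h2]
  have h3 := pairCount_pow_le f p hp hpI
  have h4 : ((p - 1 : ℕ) : ℝ) + (pairCount (fun i => f i ^ p) : ℝ) ≤ (p : ℝ) * pairCount f := by
    exact_mod_cast h3
  have h5 : ((p - 1 : ℕ) : ℝ) = (p : ℝ) - 1 := by
    rw [Nat.cast_sub hp.pos]; simp
  rw [h5] at h4
  have hpk : (0 : ℝ) ≤ (p : ℝ) ^ k := by positivity
  push_cast
  have h6 := mul_le_mul_of_nonneg_left h4 hpk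
  have h7 : (p : ℝ) ^ (k + 1) = (p : ℝ) ^ k * p := pow_succ _ _
  rw [h7]
  nlinarith [h6]


/-! ### Sums over a group, constant on cosets -/

theorem sum_eq_card_mul_sum_quotient {Γ : Type*} [Group Γ] [Fintype Γ] (T : Subgroup Γ)
    [Fintype (Γ ⧸ T)] (F : Γ → ℂ) (hF : ∀ g : Γ, ∀ t ∈ T, F (g * t) = F g) :
    ∑ g : Γ, F g = (Nat.card T : ℂ) * ∑ i : Γ ⧸ T, F (Quotient.out i) := by
  classical
  have : Fintype T := Fintype.ofFinite T
  let β : (Γ ⧸ T) × T → Γ := fun x => Quotient.out x.1 * (x.2 : Γ)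
  have hβ : Function.Bijective β := by
    constructor
    · rintro ⟨i, t⟩ ⟨i', t'⟩ h
      simp only [β] at h
      have h1 : (QuotientGroup.mk (Quotient.out i * (t : Γ)) : Γ ⧸ T) =
          QuotientGroup.mk (Quotient.out i' * (t' : Γ)) := by rw [h]
      rw [QuotientGroup.mk_mul_of_mem _ t.2, QuotientGroup.mk_mul_of_mem _ t'.2,
        QuotientGroup.out_eq', QuotientGroup.out_eq'] at h1
      subst h1
      have h2 : (t : Γ) = t' := mul_left_cancel h
      exact Prod.ext rfl (Subtype.ext h2)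
    · intro g
      obtain ⟨h, hh⟩ := QuotientGroup.mk_out_eq_mul T g
      refine ⟨(QuotientGroup.mk g, h⁻¹), ?_⟩
      simp only [β]
      rw [hh]
      simp
  rw [← Function.Bijective.sum_comp hβ F, Fintype.sum_prod_type, Finset.mul_sum]
  apply Finset.sum_congr rfl
  intro i _
  simp only [β]
  rw [Finset.sum_congr rfl (fun (t : T) _ => hF (Quotient.out i) (t : Γ) t.2), Finset.sum_const,
    Finset.card_univ, nsmul_eq_mul, Nat.card_eq_fintype_card]

/-! ### A finite group acting on a finite abelian group and on its characters -/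

section Action

variable {W : Type*} [AddCommGroup W] [Finite W] {Γ : Type*} [Group Γ] [Fintype Γ]
  (ρ : Γ →* Module.End ℤ W)

/-- The stabilizer of a character. -/
def stab (ψ : AddChar W ℂ) : Subgroup Γ where
  carrier := {g | ∀ a, ψ (ρ g a) = ψ a}
  one_mem' := by intro a; simp
  mul_mem' := by
    intro g h hg hh a
    rw [map_mul, Module.End.mul_apply, hg, hh]
  inv_mem' := by
    intro g hg a
    have := hg (ρ g⁻¹ a)
    rw [← Module.End.mul_apply, ← map_mul, mul_inv_cancel, map_one, Module.End.one_apply] at this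
    exact this.symm

omit [Finite W] [Fintype Γ] in
theorem mem_stab (ψ : AddChar W ℂ) (g : Γ) : g ∈ stab ρ ψ ↔ ∀ a, ψ (ρ g a) = ψ a := Iff.rfl

/-- Parseval: the sum over all characters of the squared norm of an orbit sum. -/
theorem parseval (u : W) [DecidableEq W] :
    ∑ ψ : AddChar W ℂ, ‖∑ g : Γ, ψ (ρ g u)‖ ^ 2 =
      (Nat.card W : ℝ) * (Fintype.card Γ : ℝ) * ((univ.filter (fun g : Γ => ρ g u = u)).card : ℝ) := by
  classical
  have : Fintype W := Fintype.ofFinite W
  have hC : ∑ ψ : AddChar W ℂ, (∑ g : Γ, ψ (ρ g u)) * conj (∑ g : Γ, ψ (ρ g u)) =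
      (Nat.card W : ℂ) * (Fintype.card Γ : ℂ) * ((univ.filter (fun g : Γ => ρ g u = u)).card : ℂ) := by
    have h1 : ∀ ψ : AddChar W ℂ, (∑ g : Γ, ψ (ρ g u)) * conj (∑ g : Γ, ψ (ρ g u)) =
        ∑ g : Γ, ∑ h : Γ, ψ (ρ g u - ρ h u) := by
      intro ψ
      rw [map_sum, Finset.sum_mul_sum]
      apply Finset.sum_congr rfl
      intro g _
      apply Finset.sum_congr rfl
      intro h _
      rw [sub_eq_add_neg, AddChar.map_add_eq_mul, AddChar.map_neg_eq_conj]
    rw [Finset.sum_congr rfl (fun ψ _ => h1 ψ), Finset.sum_comm]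
    have h2 : ∀ g : Γ, ∑ ψ : AddChar W ℂ, ∑ h : Γ, ψ (ρ g u - ρ h u) =
        (Nat.card W : ℂ) * ((univ.filter (fun g : Γ => ρ g u = u)).card : ℂ) := by
      intro g
      rw [Finset.sum_comm]
      have h3 : ∀ h : Γ, ∑ ψ : AddChar W ℂ, ψ (ρ g u - ρ h u) =
          if ρ (g⁻¹ * h) u = u then (Nat.card W : ℂ) else 0 := by
        intro h
        rw [AddChar.sum_apply_eq_ite, Nat.card_eq_fintype_card]
        have : (ρ g u - ρ h u = 0) ↔ (ρ (g⁻¹ * h) u = u) := by
          rw [sub_eq_zero, map_mul, Module.End.mul_apply]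
          constructor
          · intro hh
            rw [← hh, ← Module.End.mul_apply, ← map_mul, inv_mul_cancel, map_one,
              Module.End.one_apply]
          · intro hh
            have := congrArg (ρ g) hh
            rw [← Module.End.mul_apply, ← map_mul, mul_inv_cancel, map_one,
              Module.End.one_apply] at this
            exact this.symm
        simp only [this]
      rw [Finset.sum_congr rfl (fun h _ => h3 h)]
      rw [← Equiv.sum_comp (Equiv.mulLeft g) (fun h => if ρ (g⁻¹ * h) u = u then (Nat.card W : ℂ) else 0)]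
      simp only [Equiv.coe_mulLeft, inv_mul_cancel_left]
      rw [Finset.sum_ite, Finset.sum_const, Finset.sum_const_zero, add_zero, nsmul_eq_mul, mul_comm]
    rw [Finset.sum_congr rfl (fun g _ => h2 g), Finset.sum_const, Finset.card_univ, nsmul_eq_mul]
    ring
  have : ((∑ ψ : AddChar W ℂ, ‖∑ g : Γ, ψ (ρ g u)‖ ^ 2 : ℝ) : ℂ) =
      (((Nat.card W : ℝ) * (Fintype.card Γ : ℝ) *
        ((univ.filter (fun g : Γ => ρ g u = u)).card : ℝ) : ℝ) : ℂ) := by
    push_cast
    rw [← hC]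
    apply Finset.sum_congr rfl
    intro ψ _
    rw [Complex.mul_conj, Complex.normSq_eq_norm_sq]
    push_cast; rfl
  exact_mod_cast this

end Action


section Action2

variable {W : Type*} [AddCommGroup W] [Finite W] {Γ : Type*} [Group Γ] [Fintype Γ]
  (ρ : Γ →* Module.End ℤ W)

omit [Finite W] in
/-- The key estimate for one character. -/
theorem stab_sq_le (p k : ℕ) (hp : p.Prime) (hpΓ : ¬ p ∣ Fintype.card Γ) (v : W)
    (hv : p ^ k • v = 0) (ψ : AddChar W ℂ) :
    (((range (p ^ (k + 1))).filter (fun z => ¬ p ∣ z)).card : ℝ) *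
        (Nat.card (stab ρ ψ) : ℝ) ^ 2 ≤
      ∑ z ∈ (range (p ^ (k + 1))).filter (fun z => ¬ p ∣ z), ‖∑ g : Γ, ψ (ρ g (z • v))‖ ^ 2 := by
  classical
  set T := stab ρ ψ with hT
  have : Fintype (Γ ⧸ T) := Fintype.ofFinite _
  let η : Γ → ℂ := fun g => ψ (ρ g⁻¹ v)
  have hη : ∀ g, ∀ t ∈ T, η (g * t) = η g := by
    intro g t ht
    simp only [η]
    rw [mul_inv_rev, map_mul, Module.End.mul_apply]
    exact (mem_stab ρ ψ t⁻¹).1 (T.inv_mem ht) _
  have hsum : ∀ z : ℕ, ∑ g : Γ, ψ (ρ g (z • v)) =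
      (Nat.card T : ℂ) * ∑ i : Γ ⧸ T, η (Quotient.out i) ^ z := by
    intro z
    rw [← Equiv.sum_comp (Equiv.inv Γ)]
    have h1 : ∀ g : Γ, ψ (ρ ((Equiv.inv Γ) g) (z • v)) = η g ^ z := by
      intro g
      simp only [Equiv.inv_apply, η]
      rw [map_nsmul, AddChar.map_nsmul_eq_pow]
    rw [Finset.sum_congr rfl (fun g _ => h1 g)]
    exact sum_eq_card_mul_sum_quotient T (fun g => η g ^ z)
      (fun g t ht => by
        show η (g * t) ^ z = η g ^ z
        rw [hη g t ht])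
  have hroot : ∀ i : Γ ⧸ T, η (Quotient.out i) ^ (p ^ (k + 1)) = 1 := by
    intro i
    simp only [η]
    rw [← AddChar.map_nsmul_eq_pow, ← map_nsmul, pow_succ, mul_comm, mul_smul, hv, smul_zero,
      map_zero, AddChar.map_zero_eq_one]
  have hcard : ¬ p ∣ Fintype.card (Γ ⧸ T) := by
    intro h
    apply hpΓ
    have h1 := Subgroup.card_quotient_dvd_card T
    rw [Nat.card_eq_fintype_card, Nat.card_eq_fintype_card] at h1
    exact dvd_trans h h1
  have key := faithful_sum_ge (fun i : Γ ⧸ T => η (Quotient.out i)) p k hp hcard hroot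
  calc (((range (p ^ (k + 1))).filter (fun z => ¬ p ∣ z)).card : ℝ) * (Nat.card T : ℝ) ^ 2
      = (Nat.card T : ℝ) ^ 2 * (((range (p ^ (k + 1))).filter (fun z => ¬ p ∣ z)).card : ℝ) := by
        ring
    _ ≤ (Nat.card T : ℝ) ^ 2 * ∑ z ∈ (range (p ^ (k + 1))).filter (fun z => ¬ p ∣ z),
          ‖∑ i : Γ ⧸ T, η (Quotient.out i) ^ z‖ ^ 2 :=
        mul_le_mul_of_nonneg_left key (sq_nonneg _)
    _ = ∑ z ∈ (range (p ^ (k + 1))).filter (fun z => ¬ p ∣ z),
          ‖∑ g : Γ, ψ (ρ g (z • v))‖ ^ 2 := by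
        rw [Finset.mul_sum]
        apply Finset.sum_congr rfl
        intro z _
        rw [hsum z, norm_mul, mul_pow]
        simp

/-- The main inequality: the sum of the squares of the orders of the stabilizers of all
characters is bounded by the orbit data of any single vector of `p`-power order. -/
theorem main_ineq [DecidableEq W] (p k : ℕ) (hp : p.Prime) (hpΓ : ¬ p ∣ Fintype.card Γ) (v : W)
    (hv : p ^ k • v = 0) :
    ∑ ψ : AddChar W ℂ, Nat.card (stab ρ ψ) ^ 2 ≤
      Nat.card W * Fintype.card Γ * (univ.filter (fun g : Γ => ρ g v = v)).card := by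
  classical
  set Z := (range (p ^ (k + 1))).filter (fun z => ¬ p ∣ z) with hZ
  have hZpos : (0 : ℝ) < Z.card := by
    have h1 : 1 ∈ Z := by
      rw [hZ, Finset.mem_filter, Finset.mem_range]
      exact ⟨Nat.one_lt_pow (Nat.succ_ne_zero k) hp.one_lt, hp.one_lt.ne' ∘ Nat.dvd_one.1⟩
    exact_mod_cast Finset.card_pos.2 ⟨1, h1⟩
  have h1 : (Z.card : ℝ) * ∑ ψ : AddChar W ℂ, (Nat.card (stab ρ ψ) : ℝ) ^ 2 ≤
      ∑ ψ : AddChar W ℂ, ∑ z ∈ Z, ‖∑ g : Γ, ψ (ρ g (z • v))‖ ^ 2 := by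
    rw [Finset.mul_sum]
    exact Finset.sum_le_sum (fun ψ _ => stab_sq_le ρ p k hp hpΓ v hv ψ)
  rw [Finset.sum_comm] at h1
  have h2 : ∀ z ∈ Z, ∑ ψ : AddChar W ℂ, ‖∑ g : Γ, ψ (ρ g (z • v))‖ ^ 2 ≤
      (Nat.card W : ℝ) * (Fintype.card Γ : ℝ) * ((univ.filter (fun g : Γ => ρ g v = v)).card : ℝ) := by
    intro z hz
    rw [parseval ρ (z • v)]
    apply mul_le_mul_of_nonneg_left _ (by positivity)
    have hzp : ¬ p ∣ z := (Finset.mem_filter.1 hz).2
    have hcop : IsCoprime ((p ^ k : ℕ) : ℤ) (z : ℤ) :=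
      Nat.isCoprime_iff_coprime.2 (Nat.Coprime.pow_left k ((Nat.Prime.coprime_iff_not_dvd hp).2 hzp))
    obtain ⟨a, b, hab⟩ := hcop
    have hvb : v = b • (z • v) := by
      calc v = (a * ((p ^ k : ℕ) : ℤ) + b * (z : ℤ)) • v := by rw [hab, one_smul]
        _ = b • (z • v) := by
            rw [add_smul, mul_smul, mul_smul, natCast_zsmul, natCast_zsmul, hv, smul_zero, zero_add]
    have hsub : univ.filter (fun g : Γ => ρ g (z • v) = z • v) ⊆
        univ.filter (fun g : Γ => ρ g v = v) := by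
      intro g hg
      simp only [Finset.mem_filter, Finset.mem_univ, true_and] at hg ⊢
      conv_lhs => rw [hvb]
      rw [map_zsmul, hg, ← hvb]
    exact_mod_cast Finset.card_le_card hsub
  have h3 : (Z.card : ℝ) * ∑ ψ : AddChar W ℂ, (Nat.card (stab ρ ψ) : ℝ) ^ 2 ≤
      (Z.card : ℝ) * ((Nat.card W : ℝ) * (Fintype.card Γ : ℝ) *
        ((univ.filter (fun g : Γ => ρ g v = v)).card : ℝ)) := by
    refine le_trans h1 ?_
    calc ∑ z ∈ Z, ∑ ψ : AddChar W ℂ, ‖∑ g : Γ, ψ (ρ g (z • v))‖ ^ 2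
        ≤ ∑ _z ∈ Z, ((Nat.card W : ℝ) * (Fintype.card Γ : ℝ) *
            ((univ.filter (fun g : Γ => ρ g v = v)).card : ℝ)) := Finset.sum_le_sum h2
      _ = _ := by rw [Finset.sum_const, nsmul_eq_mul]
  have h4 := le_of_mul_le_mul_left h3 hZpos
  exact_mod_cast h4

/-- Counting solutions of a linear equation by characters. -/
theorem card_pairs_eq (α β : Module.End ℤ W) :
    Nat.card {x : W × W // x.1 + α x.2 = x.2 + β x.1} =
      Nat.card W * Nat.card {ψ : AddChar W ℂ // (∀ a, ψ (α a) = ψ a) ∧ (∀ a, ψ (β a) = ψ a)} := by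
  classical
  have : Fintype W := Fintype.ofFinite W
  have hW : (Fintype.card W : ℂ) ≠ 0 := by exact_mod_cast Fintype.card_ne_zero
  -- sums of a twisted character
  have hsum : ∀ (γ : Module.End ℤ W) (ψ : AddChar W ℂ), ∑ a : W, ψ (a - γ a) =
      if (∀ a, ψ (γ a) = ψ a) then (Fintype.card W : ℂ) else 0 := by
    intro γ ψ
    let μ : AddChar W ℂ := ψ.compAddMonoidHom ((1 - γ : Module.End ℤ W) : W →ₗ[ℤ] W).toAddMonoidHom
    have hμ : ∀ a, μ a = ψ (a - γ a) := fun a => rfl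
    have h1 := AddChar.sum_eq_ite μ
    simp only [hμ] at h1
    rw [h1]
    have h2 : μ = 0 ↔ ∀ a, ψ (γ a) = ψ a := by
      rw [AddChar.eq_zero_iff]
      constructor
      · intro h a
        have := h a
        rw [hμ, AddChar.map_sub_eq_div, div_eq_one_iff_eq (ψ.val_isUnit _).ne_zero] at this
        exact this.symm
      · intro h a
        rw [hμ, AddChar.map_sub_eq_div, h a, div_self (ψ.val_isUnit _).ne_zero]
    simp only [h2]
  have hsum' : ∀ (γ : Module.End ℤ W) (ψ : AddChar W ℂ), ∑ a : W, ψ (γ a - a) =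
      if (∀ a, ψ (γ a) = ψ a) then (Fintype.card W : ℂ) else 0 := by
    intro γ ψ
    rw [← hsum γ ψ, ← Equiv.sum_comp (Equiv.neg W)]
    apply Finset.sum_congr rfl
    intro a _
    simp only [Equiv.neg_apply, map_neg]
    congr 1
    abel
  have key : (Fintype.card W : ℂ) * (Fintype.card {x : W × W // x.1 + α x.2 = x.2 + β x.1} : ℂ) =
      (Fintype.card W : ℂ) * ((Fintype.card W : ℂ) *
        (Fintype.card {ψ : AddChar W ℂ // (∀ a, ψ (α a) = ψ a) ∧ (∀ a, ψ (β a) = ψ a)} : ℂ)) := by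
    rw [Fintype.card_subtype, Fintype.card_subtype, Finset.card_filter, Finset.card_filter]
    push_cast
    rw [Finset.mul_sum]
    have h1 : ∀ x : W × W, (Fintype.card W : ℂ) * (if x.1 + α x.2 = x.2 + β x.1 then 1 else 0) =
        ∑ ψ : AddChar W ℂ, ψ (x.1 - β x.1) * ψ (α x.2 - x.2) := by
      intro x
      have h2 := AddChar.sum_apply_eq_ite (x.1 + α x.2 - (x.2 + β x.1))
      have h3 : ∀ ψ : AddChar W ℂ, ψ (x.1 + α x.2 - (x.2 + β x.1)) =
          ψ (x.1 - β x.1) * ψ (α x.2 - x.2) := by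
        intro ψ
        rw [← AddChar.map_add_eq_mul]
        congr 1
        abel
      rw [← Finset.sum_congr rfl (fun ψ _ => h3 ψ), h2]
      simp only [sub_eq_zero]
      split_ifs <;> simp
    rw [Finset.sum_congr rfl (fun x _ => h1 x), Finset.sum_comm]
    have h4 : ∀ ψ : AddChar W ℂ, ∑ x : W × W, ψ (x.1 - β x.1) * ψ (α x.2 - x.2) =
        (if (∀ a, ψ (β a) = ψ a) then (Fintype.card W : ℂ) else 0) *
          (if (∀ a, ψ (α a) = ψ a) then (Fintype.card W : ℂ) else 0) := by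
      intro ψ
      rw [Fintype.sum_prod_type, ← hsum β ψ, ← hsum' α ψ, Finset.sum_mul_sum]
    rw [Finset.sum_congr rfl (fun ψ _ => h4 ψ), Finset.mul_sum, Finset.mul_sum]
    apply Finset.sum_congr rfl
    intro ψ _
    by_cases h5 : ∀ a, ψ (α a) = ψ a <;> by_cases h6 : ∀ a, ψ (β a) = ψ a <;> simp [h5, h6]
  have key2 := mul_left_cancel₀ hW key
  rw [Nat.card_eq_fintype_card, Nat.card_eq_fintype_card, Nat.card_eq_fintype_card]
  exact_mod_cast key2

end Action2

end Cfsg.Agent.Lib.Helper82.FourierCount
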