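import Mathlib
import Cfsg.Agent.Lib.Helper76.PSolv
import Cfsg.Agent.Lib.Helper63.PFrattini
import Cfsg.Agent.S0001

/-!
Group-theoretic lemmas on `p`-solvable groups around the Frattini subgroup and the
Schur–Zassenhaus theorem.  Namespace `Cfsg.Agent.Lib.Helper82.FratSZ`.

* `le_frattini_of_commutator`: a normal subgroup contained in the derived subgroup of a Sylow
  subgroup lies in the Frattini subgroup.
* `exists_normal_compl`: a normal `p`-subgroup `R ≤ Φ(H)` with `p ∤ |Y : R|`, `Y` normal, has a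
  normal complement in `Y`.
* `main_group`: in a `p`-solvable group with trivial `p'`-core, a normal subgroup `N` meeting a
  Sylow `p`-subgroup inside its derived subgroup is a `p`-group, and no normal subgroup `Y > N`
  has `|Y : N|` prime to `p`.
-/

set_option autoImplicit false

namespace Cfsg.Agent.Lib.Helper82.FratSZ

open Subgroup
open scoped Pointwise

universe u
variable {H : Type u} [Group H]

/-- A normal subgroup all of whose elements lie in the derived subgroup of a fixed Sylow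
`p`-subgroup is contained in the Frattini subgroup. -/
theorem le_frattini_of_commutator [Finite H] {p : ℕ} [Fact p.Prime] (P : Sylow p H)
    (N : Subgroup H) [N.Normal]
    (hN : ∀ x ∈ N, ∃ hx : x ∈ (P : Subgroup H),
      (⟨x, hx⟩ : ↥(P : Subgroup H)) ∈ commutator ↥(P : Subgroup H)) :
    N ≤ frattini H := by
  intro x hx
  rw [Cfsg.Agent.Lib.Helper63.PFrattini.mem_frattini_iff]
  intro M hM
  by_contra hxM
  have hsup : N ⊔ M = ⊤ := by
    apply hM.2
    refine lt_of_le_of_ne le_sup_right ?_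
    intro heq
    apply hxM
    rw [heq]
    exact (le_sup_left : N ≤ N ⊔ M) hx
  have hPM : (P : Subgroup H) ≤ M := by
    have hL : (M.subgroupOf (P : Subgroup H)) ⊔ frattini ↥(P : Subgroup H) = ⊤ := by
      rw [eq_top_iff]
      intro y _
      have hy : (y : H) ∈ N ⊔ M := by rw [hsup]; trivial
      rw [← SetLike.mem_coe, Subgroup.normal_mul] at hy
      obtain ⟨n, hn, m, hm, hnm⟩ := hy
      obtain ⟨hnP, hnc⟩ := hN n hn
      have hmP : m ∈ (P : Subgroup H) := by
        have : m = n⁻¹ * y := by rw [← hnm]; group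
        rw [this]; exact mul_mem (inv_mem hnP) y.2
      have hy' : y = ⟨n, hnP⟩ * ⟨m, hmP⟩ := Subtype.ext hnm.symm
      rw [hy']
      exact mul_mem
        ((le_sup_right : frattini ↥(P : Subgroup H) ≤ _)
          (Cfsg.Agent.Lib.Helper63.PFrattini.commutator_le_frattini P.isPGroup' hnc))
        ((le_sup_left : M.subgroupOf (P : Subgroup H) ≤ _) (by rw [mem_subgroupOf]; exact hm))
    have htop := frattini_nongenerating hL
    intro y hy
    have : (⟨y, hy⟩ : ↥(P : Subgroup H)) ∈ M.subgroupOf (P : Subgroup H) := by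
      rw [htop]; trivial
    exact mem_subgroupOf.mp this
  obtain ⟨hxP, _⟩ := hN x hx
  exact hxM (hPM hxP)

/-- Schur–Zassenhaus plus the Frattini argument: a normal `p`-subgroup `R` inside the Frattini
subgroup, of index prime to `p` in a normal subgroup `Y`, has a complement in `Y` that is normal
in the whole group. -/
theorem exists_normal_compl [Finite H] (p : ℕ) [Fact p.Prime] (R Y : Subgroup H) [R.Normal]
    [hYn : Y.Normal] (hRY : R ≤ Y) (hR : IsPGroup p R) (hcop : (R.relIndex Y).Coprime p)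
    (hfr : R ≤ frattini H) :
    ∃ Y₁ : Subgroup H, Y₁.Normal ∧ (Nat.card Y₁).Coprime p ∧ Y ≤ R ⊔ Y₁ := by
  classical
  have hcardR : Nat.card (R.subgroupOf Y) = Nat.card R :=
    Nat.card_congr (subgroupOfEquivOfLe hRY).toEquiv
  obtain ⟨k, hk⟩ := IsPGroup.iff_card.mp hR
  have hcop' : (Nat.card (R.subgroupOf Y)).Coprime (R.subgroupOf Y).index := by
    rw [hcardR, hk]
    exact Nat.Coprime.pow_left _ hcop.symm
  obtain ⟨K₀, hK₀⟩ := exists_right_complement'_of_coprime hcop'
  have hcardK : Nat.card K₀ = R.relIndex Y := by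
    have h1 := hK₀.card_mul_card
    have h2 := Subgroup.card_mul_index (R.subgroupOf Y)
    have hpos : 0 < Nat.card (R.subgroupOf Y) := Nat.card_pos
    exact Nat.eq_of_mul_eq_mul_left hpos (h1.trans h2.symm)
  set Y₁ : Subgroup H := K₀.map Y.subtype with hY₁
  have hY₁Y : Y₁ ≤ Y := map_subtype_le K₀
  have hcardY₁ : Nat.card Y₁ = R.relIndex Y := by
    rw [hY₁, card_map_of_injective Y.subtype_injective, hcardK]
  have hsolvN : Group.IsSolvable (R.subgroupOf Y) := by
    have h1 : IsPGroup p (R.subgroupOf Y) := hR.comap_subtype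
    have := h1.isNilpotent
    exact IsNilpotent.to_isSolvable
  have hcopNK : (Nat.card (R.subgroupOf Y)).Coprime (Nat.card K₀) := by
    rw [hcardK]; exact hcop'
  have hnorm : R ⊔ normalizer (Y₁ : Set H) = ⊤ := by
    rw [eq_top_iff]
    intro g _
    set Z : Subgroup H := Y₁.map (MulAut.conj g).toMonoidHom with hZ
    have hZY : Z ≤ Y := by
      rintro _ ⟨y, hy, rfl⟩
      exact hYn.conj_mem y (hY₁Y hy) g
    have hcardZ : Nat.card (Z.subgroupOf Y) = Nat.card K₀ := by
      rw [Nat.card_congr (subgroupOfEquivOfLe hZY).toEquiv, hZ,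
        card_map_of_injective (MulAut.conj g).injective, hcardY₁, hcardK]
    have hKg : IsComplement' (R.subgroupOf Y) (Z.subgroupOf Y) := by
      apply isComplement'_of_coprime
      · rw [hcardZ]; exact hK₀.card_mul_card
      · rw [hcardZ]; exact hcopNK
    obtain ⟨n, hn, hconj⟩ := Cfsg.Agent.S0001.sz_conj_mem (R.subgroupOf Y) K₀ (Z.subgroupOf Y)
      hK₀ hKg hcopNK (Or.inl hsolvN)
    have hmem : (n : H)⁻¹ * g ∈ normalizer (Y₁ : Set H) := by
      rw [mem_normalizer_iff]
      intro h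
      constructor
      · intro hh
        -- g h g⁻¹ ∈ Z
        have h1 : g * h * g⁻¹ ∈ Z := ⟨h, hh, rfl⟩
        have h2 : (⟨g * h * g⁻¹, hZY h1⟩ : ↥Y) ∈ Z.subgroupOf Y := mem_subgroupOf.mpr h1
        rw [← hconj, mem_pointwise_smul_iff_inv_smul_mem] at h2
        have h3 : Y.subtype ((MulAut.conj n)⁻¹ • (⟨g * h * g⁻¹, hZY h1⟩ : ↥Y)) ∈ Y₁ :=
          mem_map_of_mem _ h2
        have h4 : Y.subtype ((MulAut.conj n)⁻¹ • (⟨g * h * g⁻¹, hZY h1⟩ : ↥Y))
            = (n : H)⁻¹ * g * h * ((n : H)⁻¹ * g)⁻¹ := by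
          rw [MulAut.smul_def, MulAut.conj_inv_apply]
          simp only [Subgroup.coe_subtype, Subgroup.coe_mul, InvMemClass.coe_inv]
          group
        rw [h4] at h3
        exact h3
      · intro hh
        obtain ⟨k, hk0, hkeq⟩ := hh
        have h1 : MulAut.conj n • k ∈ MulAut.conj n • K₀ := smul_mem_pointwise_smul k _ K₀ hk0
        rw [hconj, mem_subgroupOf] at h1
        obtain ⟨h', hh', heq⟩ := h1
        have h5 : h' = h := by
          have e1 : ((MulAut.conj n • k : ↥Y) : H) = (n : H) * (k : H) * (n : H)⁻¹ := by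
            rw [MulAut.smul_def, MulAut.conj_apply]
            simp only [Subgroup.coe_mul, InvMemClass.coe_inv]
          have e2 : (k : H) = (n : H)⁻¹ * g * h * ((n : H)⁻¹ * g)⁻¹ := hkeq
          have e3 : g * h' * g⁻¹ = (n : H) * (k : H) * (n : H)⁻¹ := by
            rw [← e1]; exact heq
          rw [e2] at e3
          have e4 : g * h' * g⁻¹ = g * h * g⁻¹ := by
            rw [e3]; group
          exact mul_left_cancel (mul_right_cancel e4)
        rw [← h5]; exact hh'
    have hg : g = (n : H) * ((n : H)⁻¹ * g) := by group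
    rw [hg]
    exact mul_mem ((le_sup_left : R ≤ _) (mem_subgroupOf.mp hn))
      ((le_sup_right : normalizer (Y₁ : Set H) ≤ _) hmem)
  have hnt : normalizer (Y₁ : Set H) = ⊤ := by
    apply frattini_nongenerating
    apply le_antisymm le_top
    calc (⊤ : Subgroup H) = R ⊔ normalizer (Y₁ : Set H) := hnorm.symm
      _ ≤ normalizer (Y₁ : Set H) ⊔ frattini H := by
          rw [sup_comm]; exact sup_le_sup_left hfr _
  refine ⟨Y₁, normalizer_eq_top_iff.mp hnt, ?_, ?_⟩
  · rw [hcardY₁]; exact hcop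
  · intro y hy
    have h1 : (⟨y, hy⟩ : ↥Y) ∈ (R.subgroupOf Y) ⊔ K₀ := by rw [hK₀.sup_eq_top]; trivial
    have h2 : Y.subtype ⟨y, hy⟩ ∈ ((R.subgroupOf Y) ⊔ K₀).map Y.subtype := mem_map_of_mem _ h1
    rw [Subgroup.map_sup, map_subgroupOf_eq_of_le hRY] at h2
    exact h2

/-- With trivial `p'`-core, the subgroup `Y` of the previous lemma equals `R`. -/
theorem le_of_coprime [Finite H] (p : ℕ) [Fact p.Prime] (hc : Cfsg.pPrimeCore p H = ⊥)
    (R Y : Subgroup H) [R.Normal] [Y.Normal] (hRY : R ≤ Y) (hR : IsPGroup p R)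
    (hcop : (R.relIndex Y).Coprime p) (hfr : R ≤ frattini H) : Y ≤ R := by
  obtain ⟨Y₁, hn, hcard, hle⟩ := exists_normal_compl p R Y hRY hR hcop hfr
  have h1 : Y₁ ≤ Cfsg.pPrimeCore p H := Cfsg.Agent.Lib.Helper76.PSolv.le_pPrimeCore hn hcard
  rw [hc] at h1
  have h2 : Y₁ = ⊥ := le_bot_iff.mp h1
  rw [h2, sup_bot_eq] at hle
  exact hle

/-- If no normal subgroup `Y ≥ R` has index prime to `p` over `R` (other than `R`), then the
`p'`-core of the quotient by `R` is trivial. -/
theorem pPrimeCore_quot_eq_bot [Finite H] (p : ℕ) (R : Subgroup H) [R.Normal]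
    (hY : ∀ Y : Subgroup H, Y.Normal → R ≤ Y → (R.relIndex Y).Coprime p → Y ≤ R) :
    Cfsg.pPrimeCore p (H ⧸ R) = ⊥ := by
  set f := QuotientGroup.mk' R with hf
  have hfs : Function.Surjective f := QuotientGroup.mk'_surjective R
  have hker : f.ker = R := QuotientGroup.ker_mk' R
  set S := Cfsg.pPrimeCore p (H ⧸ R) with hS
  set Y := S.comap f with hYdef
  have hYn : Y.Normal := inferInstance
  have hRY : R ≤ Y := by
    intro x hx
    show f x ∈ S
    have : f x = 1 := (QuotientGroup.eq_one_iff x).mpr hx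
    rw [this]
    exact one_mem S
  have hrel : R.relIndex Y = Nat.card S := by
    have h1 := relIndex_comap (⊥ : Subgroup (H ⧸ R)) f Y
    rw [MonoidHom.comap_bot, hker] at h1
    rw [h1, hYdef, map_comap_eq_self_of_surjective hfs, relIndex_bot_left]
  have hYR : Y ≤ R := hY Y hYn hRY (by
    rw [hrel]; exact Cfsg.Agent.Lib.Helper76.PSolv.pPrimeCore_coprime p)
  rw [eq_bot_iff]
  intro s hs'
  obtain ⟨x, rfl⟩ := hfs s
  have hx : x ∈ R := hYR hs'
  rw [mem_bot]
  exact (QuotientGroup.eq_one_iff x).mpr hx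

/-- In a `p`-solvable group with trivial `p'`-core, a normal subgroup `N` whose intersection with
`O_p` lies in the Frattini subgroup is contained in `O_p`. -/
theorem le_pCore_of_inf_le_frattini [Finite H] (p : ℕ) [Fact p.Prime]
    (hs : Cfsg.IsPSolvable p H) (hc : Cfsg.pPrimeCore p H = ⊥) (N : Subgroup H) [hNn : N.Normal]
    (hfr : N ⊓ Cfsg.pCore p H ≤ frattini H) : N ≤ Cfsg.pCore p H := by
  set U := Cfsg.pCore p H with hU
  set R := N ⊓ U with hRdef
  have hUn : U.Normal := inferInstance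
  have hRn : R.Normal := inferInstance
  have hRp : IsPGroup p R := (Cfsg.Agent.Lib.Helper76.PSolv.pCore_isPGroup p).to_le inf_le_right
  set f := QuotientGroup.mk' R with hf
  have hfs : Function.Surjective f := QuotientGroup.mk'_surjective R
  have hker : f.ker = R := QuotientGroup.ker_mk' R
  have hcQ : Cfsg.pPrimeCore p (H ⧸ R) = ⊥ :=
    pPrimeCore_quot_eq_bot p R (fun Y hYn hRY hcop =>
      le_of_coprime p hc R Y hRY hRp hcop hfr)
  have hsQ := Cfsg.Agent.Lib.Helper76.PSolv.isPSolvable_quotient p R hs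
  have hcent := Cfsg.Agent.Lib.Helper76.PSolv.centralizer_pCore_le p hsQ hcQ
  have hX : (Cfsg.pCore p (H ⧸ R)).comap f ≤ U := by
    apply Cfsg.Agent.Lib.Helper76.PSolv.le_pCore inferInstance
    apply IsPGroup.comap_of_ker_isPGroup (Cfsg.Agent.Lib.Helper76.PSolv.pCore_isPGroup p) f
    rw [hker]; exact hRp
  intro n hn
  apply hX
  show f n ∈ Cfsg.pCore p (H ⧸ R)
  apply hcent
  rw [mem_centralizer_iff]
  intro s hs'
  obtain ⟨u, rfl⟩ := hfs s
  have huU : u ∈ U := hX hs'
  have hcomm : n * u * n⁻¹ * u⁻¹ ∈ R := by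
    refine Subgroup.mem_inf.mpr ⟨?_, ?_⟩
    · have : n * u * n⁻¹ * u⁻¹ = n * (u * n⁻¹ * u⁻¹) := by group
      rw [this]; exact mul_mem hn (hNn.conj_mem _ (inv_mem hn) u)
    · exact mul_mem (hUn.conj_mem _ huU n) (inv_mem huU)
  have h1 : f (n * u * n⁻¹ * u⁻¹) = 1 := (QuotientGroup.eq_one_iff _).mpr hcomm
  rw [map_mul, map_mul, map_mul, map_inv, map_inv] at h1
  have h2 := mul_inv_eq_one.mp h1
  rw [mul_inv_eq_iff_eq_mul] at h2
  exact h2.symm

/-- In a `p`-solvable group `H` with trivial `p'`-core, let `N` be a normal subgroup whose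
intersection with a Sylow `p`-subgroup `P` lies in the derived subgroup of `P`.  Then `N` is a
`p`-group and every normal subgroup `Y ≥ N` with `|Y : N|` prime to `p` equals `N`. -/
theorem main_group [Finite H] (p : ℕ) [Fact p.Prime] (hs : Cfsg.IsPSolvable p H)
    (hc : Cfsg.pPrimeCore p H = ⊥) (P : Sylow p H) (N : Subgroup H) [N.Normal]
    (hN : ∀ x ∈ N, ∀ hx : x ∈ (P : Subgroup H),
      (⟨x, hx⟩ : ↥(P : Subgroup H)) ∈ commutator ↥(P : Subgroup H)) :
    IsPGroup p N ∧
      ∀ Y : Subgroup H, Y.Normal → N ≤ Y → (N.relIndex Y).Coprime p → Y ≤ N := by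
  have hRle : N ⊓ Cfsg.pCore p H ≤ frattini H := by
    apply le_frattini_of_commutator P
    intro x hx
    have hxP : x ∈ (P : Subgroup H) := Cfsg.Agent.Lib.Helper76.PSolv.pCore_le_sylow P hx.2
    exact ⟨hxP, hN x hx.1 hxP⟩
  have hNU := le_pCore_of_inf_le_frattini p hs hc N hRle
  have hNp : IsPGroup p N := (Cfsg.Agent.Lib.Helper76.PSolv.pCore_isPGroup p).to_le hNU
  have hNf : N ≤ frattini H := le_trans (le_inf le_rfl hNU) hRle
  refine ⟨hNp, fun Y hYn hNY hcop => ?_⟩
  exact le_of_coprime p hc N Y hNY hNp hcop hNf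

end Cfsg.Agent.Lib.Helper82.FratSZ
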