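import Mathlib
import Cfsg.Agent.Lib.Helper44.GAStmt
import Cfsg.Agent.Lib.Helper44.OMat
import Cfsg.Agent.Lib.Helper44.NegPairs
import Cfsg.Agent.Lib.Helper45.OmegaAutKer
import Cfsg.Agent.Lib.Helper45.GFDEL
import Cfsg.Agent.S0790

set_option autoImplicit false

/-! S2718, piece [DR]: outside the exceptional case, a product of two reflections whose values
have a non-square product is class-preserving but does not induce an inner automorphism. -/

namespace Cfsg.Agent.Lib.Helper82.GADR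

open Matrix Module QuadraticMap
open Cfsg.Agent.Lib.Helper43.OPlAut Cfsg.Agent.Lib.Helper45.OmegaAut
open Cfsg.Agent.Lib.Helper44.OFld0 Cfsg.Agent.Lib.Helper44.OFld1
  Cfsg.Agent.Lib.Helper44.OFldStmt Cfsg.Agent.Lib.Helper44.GFStmt
  Cfsg.Agent.Lib.Helper44.GAStmt
open Cfsg.Agent.Lib.Helper44.QSpace Cfsg.Agent.Lib.Helper44.OGroup Cfsg.Agent.Lib.Helper44.OMat
  Cfsg.Agent.Lib.Helper44.NegPairs

universe u

theorem zmod2_mul_one : ∀ a b : Multiplicative (ZMod 2), a ≠ 1 → b ≠ 1 → a * b = 1 := by decide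

/-- a reflection as a similarity -/
theorem exists_refl {F : Type u} [Field F] (m : ℕ) (v : Fin m ⊕ Fin m → F) :
    ∃ ρ : GO m F, ((ρ : GL (Fin m ⊕ Fin m) F) : Matrix (Fin m ⊕ Fin m) (Fin m ⊕ Fin m) F) =
      Cfsg.reflectionMatrix (Cfsg.quadFormPlus m F) v := by
  have hmat : ((glEquiv.symm (reflE (plusQ m F) v) : GL (Fin m ⊕ Fin m) F) :
      Matrix (Fin m ⊕ Fin m) (Fin m ⊕ Fin m) F) =
      Cfsg.reflectionMatrix (Cfsg.quadFormPlus m F) v := by
    apply matrix_ext_mulVec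
    intro x
    rw [glEquiv_symm_mulVec]
    exact (reflection_mulVec (plusQ m F) v x).symm
  refine ⟨⟨glEquiv.symm (reflE (plusQ m F) v), ⟨1, fun x => ?_⟩⟩, hmat⟩
  rw [Units.val_one, one_mul, glEquiv_symm_mulVec]
  exact reflE_mem (plusQ m F) v x

theorem pow_mod_four (q m : ℕ) (hq : q % 2 = 1) (h : ¬ (Odd m ∧ q % 4 = 3)) :
    q ^ m % 4 = 1 := by
  have h4 : q % 4 = 1 ∨ q % 4 = 3 := by omega
  rcases h4 with h4 | h4
  · rw [Nat.pow_mod, h4, one_pow]
    rfl
  · have hm : Even m := by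
      rw [← Nat.not_odd_iff_even]
      intro ho
      exact h ⟨ho, h4⟩
    obtain ⟨r, rfl⟩ := hm
    rw [← two_mul, pow_mul, Nat.pow_mod]
    have : q ^ 2 % 4 = 1 := by
      rw [Nat.pow_mod, h4]
    rw [this, one_pow]
    rfl

/-- piece [DR] -/
theorem main : RotNotInn.{u} := by
  intro F _ _ m hm h2 hex ε hε u u' hu hu' hns
  obtain ⟨ρ, hρ⟩ := exists_refl (F := F) m u
  obtain ⟨ρ', hρ'⟩ := exists_refl (F := F) m u'
  have hdM : (((ρ * ρ' : GO m F) : GL (Fin m ⊕ Fin m) F) :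
      Matrix (Fin m ⊕ Fin m) (Fin m ⊕ Fin m) F) =
      Cfsg.reflectionMatrix (Cfsg.quadFormPlus m F) u *
        Cfsg.reflectionMatrix (Cfsg.quadFormPlus m F) u' := by
    rw [← hρ, ← hρ']
    rfl
  refine ⟨ρ * ρ', hdM, ?_, ?_⟩
  · rw [map_mul]
    exact zmod2_mul_one _ _ (hε.refl u hu ρ hρ) (hε.refl u' hu' ρ' hρ')
  · intro hin
    rw [inn_eq] at hin
    obtain ⟨s₀, hs₀⟩ := hin
    have hcard : 5 ≤ Fintype.card (Fin m ⊕ Fin m) := by
      rw [Fintype.card_sum, Fintype.card_fin]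
      omega
    have hcard2 : 2 ≤ Fintype.card (Fin m ⊕ Fin m) := by omega
    have h1 : Phi (Cfsg.quadFormPlus m F)
        (ρ * ρ' * (inclΩ (Cfsg.quadFormPlus m F) s₀)⁻¹) = 1 := by
      rw [map_mul, map_inv, ← hs₀, MonoidHom.comp_apply, mul_inv_cancel]
    obtain ⟨lam, hlam⟩ := Cfsg.Agent.Lib.Helper45.OmegaAutKer.scalar_of_Phi_eq_one h2
      (plusQ m F) (sep_plusQ m) hcard
      (ρ * ρ' * (inclΩ (Cfsg.quadFormPlus m F) s₀)⁻¹) h1
    obtain ⟨S, hS⟩ : ∃ S : Matrix (Fin m ⊕ Fin m) (Fin m ⊕ Fin m) F,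
        S = (((s₀ : ↥(Cfsg.isometryGroup F (Cfsg.quadFormPlus m F))) : GL (Fin m ⊕ Fin m) F) :
          Matrix (Fin m ⊕ Fin m) (Fin m ⊕ Fin m) F) := ⟨_, rfl⟩
    obtain ⟨D, hD⟩ : ∃ D : Matrix (Fin m ⊕ Fin m) (Fin m ⊕ Fin m) F,
        D = Cfsg.reflectionMatrix (Cfsg.quadFormPlus m F) u *
        Cfsg.reflectionMatrix (Cfsg.quadFormPlus m F) u' := ⟨_, rfl⟩
    rw [← hD] at hdM
    have hDrefl : ∀ x, D *ᵥ x = (([u, u'] : List (Fin m ⊕ Fin m → F)).map
        (reflE (plusQ m F))).prod x := by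
      intro x
      rw [hD, ← prod_reflection_mulVec (plusQ m F) [u, u'] x]
      simp only [List.map_cons, List.map_nil, List.prod_cons, List.prod_nil, mul_one]
      rfl
    have hvs : ∀ v ∈ ([u, u'] : List (Fin m ⊕ Fin m → F)), plusQ m F v ≠ 0 := by
      intro v hv
      rw [List.mem_cons, List.mem_cons] at hv
      rcases hv with rfl | rfl | hv
      · exact hu
      · exact hu'
      · exact absurd hv (List.not_mem_nil)
    have hcrit := exists_mem_omega_iff h2 (plusQ m F) (sep_plusQ m) hcard2 D [u, u'] hvs hDrefl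
    have hno : ¬ ∃ g : ↥(Cfsg.isometryGroup F (Cfsg.quadFormPlus m F)),
        g ∈ Cfsg.Omega F (Cfsg.quadFormPlus m F) ∧
        ((g : GL (Fin m ⊕ Fin m) F) : Matrix (Fin m ⊕ Fin m) (Fin m ⊕ Fin m) F) = D := by
      intro hg
      have h3 := (hcrit.mp hg).2
      simp only [List.map_cons, List.map_nil, List.prod_cons, List.prod_nil, mul_one] at h3
      exact hns h3
    have e1 : ∀ x, D *ᵥ x = lam • (S *ᵥ x) := by
      intro x
      have hgG : D =
          (((ρ * ρ' * (inclΩ (Cfsg.quadFormPlus m F) s₀)⁻¹ : GO m F) : GL (Fin m ⊕ Fin m) F) :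
            Matrix (Fin m ⊕ Fin m) (Fin m ⊕ Fin m) F) * S := by
        have h3 : ρ * ρ' = (ρ * ρ' * (inclΩ (Cfsg.quadFormPlus m F) s₀)⁻¹) *
            inclΩ (Cfsg.quadFormPlus m F) s₀ := (inv_mul_cancel_right (ρ * ρ') _).symm
        rw [← hdM]
        conv_lhs => rw [h3]
        rw [hS]
        rfl
      conv_lhs => rw [hgG]
      rw [← Matrix.mulVec_mulVec]
      exact hlam _
    have hSiso : ∀ x, Cfsg.quadFormPlus m F (S *ᵥ x) = Cfsg.quadFormPlus m F x := by
      intro x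
      rw [hS]
      exact s₀.1.2 x x
    have hDiso : ∀ x, Cfsg.quadFormPlus m F (D *ᵥ x) = Cfsg.quadFormPlus m F x := by
      intro x
      rw [hDrefl]
      simp only [List.map_cons, List.map_nil, List.prod_cons, List.prod_nil, mul_one]
      show plusQ m F (reflE (plusQ m F) u (reflE (plusQ m F) u' x)) = plusQ m F x
      rw [reflE_mem (plusQ m F) u, reflE_mem (plusQ m F) u']
    have hsm : ∀ (a : F) (y : Fin m ⊕ Fin m → F), Cfsg.quadFormPlus m F (a • y) =
        a ^ 2 * Cfsg.quadFormPlus m F y := by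
      intro a y
      have h := QuadraticMap.map_smul (plusQ m F) a y
      rw [smul_eq_mul] at h
      rw [pow_two]
      exact h
    have e2 : (1 : F) = lam ^ 2 := by
      have h := congrArg (Cfsg.quadFormPlus m F)
        (e1 (Pi.single (Sum.inl ⟨0, by omega⟩) 1 + Pi.single (Sum.inr ⟨0, by omega⟩) 1))
      rw [hsm, hDiso, hSiso, Cfsg.Agent.Lib.Helper45.GFDEL.Q_one, mul_one] at h
      exact h
    have e3 : lam = 1 ∨ lam = -1 := by
      have h : (lam - 1) * (lam + 1) = 0 := by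
        have : (lam - 1) * (lam + 1) = lam ^ 2 - 1 := by ring
        rw [this, ← e2, sub_self]
      rcases mul_eq_zero.mp h with h | h
      · left
        exact sub_eq_zero.mp h
      · right
        exact eq_neg_of_add_eq_zero_left h
    rcases e3 with h | h
    · apply hno
      refine ⟨s₀.1, s₀.2, ?_⟩
      rw [← hS]
      apply matrix_ext_mulVec
      intro x
      rw [e1 x, h, one_smul]
    · -- `-1 ∈ Ω`
      have hodd : Fintype.card F % 2 = 1 := by
        apply FiniteField.odd_card_of_char_ne_two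
        intro h'
        apply h2
        have h3 := CharP.cast_eq_zero F (ringChar F)
        rw [h'] at h3
        exact_mod_cast h3
      obtain ⟨g, hgΩ, hgM⟩ : ∃ g : ↥(Cfsg.isometryGroup F (Cfsg.quadFormPlus m F)),
          g ∈ Cfsg.Omega F (Cfsg.quadFormPlus m F) ∧
          ((g : GL (Fin m ⊕ Fin m) F) : Matrix (Fin m ⊕ Fin m) (Fin m ⊕ Fin m) F) = -1 := by
        apply (Cfsg.Agent.S0790.result (F := F) rfl (Nat.odd_iff.2 hodd) m (by omega)).2
        exact pow_mod_four _ m hodd hex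
      apply hno
      refine ⟨g * s₀.1, mul_mem hgΩ s₀.2, ?_⟩
      have hmul : (((g * s₀.1 : ↥(Cfsg.isometryGroup F (Cfsg.quadFormPlus m F))) :
          GL (Fin m ⊕ Fin m) F) : Matrix (Fin m ⊕ Fin m) (Fin m ⊕ Fin m) F) =
          ((g : GL (Fin m ⊕ Fin m) F) : Matrix (Fin m ⊕ Fin m) (Fin m ⊕ Fin m) F) * S := by
        rw [hS]
        rfl
      rw [hmul, hgM]
      apply matrix_ext_mulVec
      intro x
      rw [e1 x, h, neg_smul, one_smul, Matrix.neg_mul, Matrix.one_mul, Matrix.neg_mulVec]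

end Cfsg.Agent.Lib.Helper82.GADR
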