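import Mathlib
import Cfsg.Agent.Lib.Helper44.GFStmt
import Cfsg.Agent.Lib.Helper44.GFHs

set_option autoImplicit false

/-!
# S2717, piece HSa: the splitting matrix `Hs k ω ω'` is invertible for `ω ≠ ω'`
-/

namespace Cfsg.Agent.Lib.Helper82.GFHSa

open Matrix Module
open Cfsg.Agent.Lib.Helper44.GFStmt Cfsg.Agent.Lib.Helper44.MFldStmt Cfsg.Agent.Lib.Helper44.GFHs

universe u

theorem hs_injective {F : Type u} [Field F] (k : ℕ) (ω ω' : F) (h : ω ≠ ω') :
    Function.Injective (fun v : MI k → F => Hs k ω ω' *ᵥ v) := by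
  intro v v' hv
  have hv' : Hs k ω ω' *ᵥ v = Hs k ω ω' *ᵥ v' := hv
  have h1 := congrFun hv' (Sum.inl (Fin.last k))
  have h2 := congrFun hv' (Sum.inr (Fin.last k))
  rw [Hs_inl_last, Hs_inl_last] at h1
  rw [Hs_inr_last, Hs_inr_last] at h2
  have h3 : (ω - ω') * (v (Sum.inr 1) - v' (Sum.inr 1)) = 0 := by
    linear_combination h1 - h2
  have h4 : v (Sum.inr 1) = v' (Sum.inr 1) := by
    rcases mul_eq_zero.1 h3 with h5 | h5
    · exact absurd (sub_eq_zero.1 h5) h
    · exact sub_eq_zero.1 h5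
  have h5 : v (Sum.inr 0) = v' (Sum.inr 0) := by
    rw [h4] at h1
    exact add_right_cancel h1
  funext c
  rcases c with (i | i) | i
  · have h6 := congrFun hv' (Sum.inl (Fin.castSucc i))
    rw [Hs_inl_cast, Hs_inl_cast] at h6
    exact h6
  · have h6 := congrFun hv' (Sum.inr (Fin.castSucc i))
    rw [Hs_inr_cast, Hs_inr_cast] at h6
    exact h6
  · fin_cases i
    · exact h5
    · exact h4

theorem main : Cfsg.Agent.Lib.Helper44.GFStmt.HsInv.{u} := by
  intro F _ k ω ω' h
  have hcard : Fintype.card (PI k) = Fintype.card (MI k) := by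
    simp only [Fintype.card_sum, Fintype.card_fin]
    omega
  let e : PI k ≃ MI k := Fintype.equivOfCardEq hcard
  let M : Matrix (MI k) (MI k) F := (Hs k ω ω').submatrix e.symm (Equiv.refl (MI k))
  have hM : Hs k ω ω' = M.submatrix e (Equiv.refl (MI k)) := by
    ext i c
    simp [M]
  have hinj : Function.Injective M.mulVec := by
    intro v v' hv
    apply hs_injective k ω ω' h
    have h1 : M *ᵥ v = M *ᵥ v' := hv
    have h2 : ∀ w : MI k → F, M *ᵥ w = (Hs k ω ω' *ᵥ w) ∘ e.symm := by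
      intro w
      simp only [M]
      rw [Matrix.submatrix_mulVec_equiv]
      rfl
    rw [h2, h2] at h1
    show Hs k ω ω' *ᵥ v = Hs k ω ω' *ᵥ v'
    funext i
    have h3 := congrFun h1 (e i)
    simpa using h3
  have hunit : IsUnit M.det := (Matrix.isUnit_iff_isUnit_det M).1
    (Matrix.mulVec_injective_iff_isUnit.1 hinj)
  refine ⟨M⁻¹.submatrix (Equiv.refl (MI k)) e, ?_, ?_⟩
  · rw [hM, Matrix.submatrix_mul_equiv, Matrix.mul_nonsing_inv M hunit,
      Matrix.submatrix_one_equiv]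
  · rw [hM, Matrix.submatrix_mul_equiv, Matrix.nonsing_inv_mul M hunit]
    exact Matrix.submatrix_one_equiv (Equiv.refl (MI k))

end Cfsg.Agent.Lib.Helper82.GFHSa
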