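import Mathlib
import Cfsg.Agent.Lib.Helper45.MAutStmt
import Cfsg.Agent.S2728

/-!
# S0818 piece IO: the index of `Inn` in `PGO⁻` in odd characteristic
-/

set_option autoImplicit false

namespace Cfsg.Agent.Lib.Helper82.MAutIO

open Cfsg.Agent.Lib.Helper45.OmegaAut
open Cfsg.Agent.Lib.Helper44.MFld0 Cfsg.Agent.Lib.Helper44.MFldStmt

universe u

theorem card_target : Nat.card (Multiplicative (ZMod 2 × ZMod 2)) = 4 := by
  rw [Nat.card_eq_fintype_card]
  rfl

theorem main : Cfsg.Agent.Lib.Helper45.MAutStmt.IndexOdd.{u} := by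
  intro F _ _ m hm a b hab hodd
  have h := Cfsg.Agent.S2728.result hodd hm a b hab
  rw [← Cfsg.Agent.Lib.Helper45.OmegaAut.pgo_eq]
  show ((Cfsg.Inn (Cfsg.POmega F (Cfsg.quadFormMinus m F a b))).subgroupOf
    (Cfsg.pgoAut F (Cfsg.quadFormMinus m F a b))).index = _
  by_cases hc : Even m ∧ Fintype.card F % 4 = 3
  · rw [if_pos hc]
    obtain ⟨φ, hφs, hφk⟩ := h.1 hc
    rw [← hφk, Subgroup.index_ker, MonoidHom.range_eq_top.mpr hφs, Subgroup.card_top,
      DihedralGroup.nat_card]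
  · rw [if_neg hc]
    obtain ⟨φ, hφs, hφk⟩ := h.2 hc
    rw [← hφk, Subgroup.index_ker, MonoidHom.range_eq_top.mpr hφs, Subgroup.card_top,
      card_target]

end Cfsg.Agent.Lib.Helper82.MAutIO
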