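import Mathlib
import Cfsg.Agent.Lib.Helper89.NCStmt

/-!
# S3921 / CUNI: centralizer in `SL(2,q)` of a non-central element with an eigenvalue `± 1`

Such an element is `l + N` with `N = [[p, b], [c', -p]]`, `N ≠ 0`, `N^2 = 0`; its centralizer is
`{e + β N : e = ± 1, β ∈ F}`, of order `2 q`.
-/

set_option autoImplicit false

namespace Cfsg.Agent.Lib.Helper82.NCCUNI

open Cfsg.Agent.Lib.Helper89

/-- the element `e + β N` of `SL(2,F)`, where `N = [[p, b], [c', -p]]`, `p² + b c' = 0`, `e² = 1` -/
def elt {F : Type} [Field F] (p b c' : F) (h : p ^ 2 + b * c' = 0) (e β : F) (he : e ^ 2 = 1) :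
    Matrix.SpecialLinearGroup (Fin 2) F :=
  ⟨!![e + β * p, β * b; β * c', e - β * p], by
    rw [Matrix.det_fin_two_of]
    linear_combination he - β ^ 2 * h⟩

theorem elt_00 {F : Type} [Field F] (p b c' : F) (h : p ^ 2 + b * c' = 0) (e β : F) (he : e ^ 2 = 1) :
    (elt p b c' h e β he).1 0 0 = e + β * p := rfl

theorem elt_01 {F : Type} [Field F] (p b c' : F) (h : p ^ 2 + b * c' = 0) (e β : F) (he : e ^ 2 = 1) :
    (elt p b c' h e β he).1 0 1 = β * b := rfl

theorem elt_10 {F : Type} [Field F] (p b c' : F) (h : p ^ 2 + b * c' = 0) (e β : F) (he : e ^ 2 = 1) :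
    (elt p b c' h e β he).1 1 0 = β * c' := rfl

theorem elt_11 {F : Type} [Field F] (p b c' : F) (h : p ^ 2 + b * c' = 0) (e β : F) (he : e ^ 2 = 1) :
    (elt p b c' h e β he).1 1 1 = e - β * p := rfl

theorem sl_ext {F : Type} [Field F] (g h : Matrix.SpecialLinearGroup (Fin 2) F)
    (h00 : g.1 0 0 = h.1 0 0) (h01 : g.1 0 1 = h.1 0 1) (h10 : g.1 1 0 = h.1 1 0)
    (h11 : g.1 1 1 = h.1 1 1) : g = h := by
  apply Subtype.ext
  ext i j
  fin_cases i <;> fin_cases j
  · exact h00
  · exact h01
  · exact h10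
  · exact h11

theorem comm_iff {F : Type} [Field F] (g c : Matrix.SpecialLinearGroup (Fin 2) F) :
    g * c = c * g ↔
      (g.1 0 0 * c.1 0 0 + g.1 0 1 * c.1 1 0 = c.1 0 0 * g.1 0 0 + c.1 0 1 * g.1 1 0 ∧
       g.1 0 0 * c.1 0 1 + g.1 0 1 * c.1 1 1 = c.1 0 0 * g.1 0 1 + c.1 0 1 * g.1 1 1 ∧
       g.1 1 0 * c.1 0 0 + g.1 1 1 * c.1 1 0 = c.1 1 0 * g.1 0 0 + c.1 1 1 * g.1 1 0 ∧
       g.1 1 0 * c.1 0 1 + g.1 1 1 * c.1 1 1 = c.1 1 0 * g.1 0 1 + c.1 1 1 * g.1 1 1) := by
  constructor
  · intro h
    have e : ∀ i j, (g * c).1 i j = (c * g).1 i j := fun i j => by rw [h]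
    have e00 := e 0 0
    have e01 := e 0 1
    have e10 := e 1 0
    have e11 := e 1 1
    simp only [Matrix.SpecialLinearGroup.coe_mul, Matrix.mul_apply, Fin.sum_univ_two] at e00 e01 e10 e11
    exact ⟨e00, e01, e10, e11⟩
  · rintro ⟨e00, e01, e10, e11⟩
    apply sl_ext <;>
      simp only [Matrix.SpecialLinearGroup.coe_mul, Matrix.mul_apply, Fin.sum_univ_two]
    · exact e00
    · exact e01
    · exact e10
    · exact e11

theorem card_centralizer_aux {F : Type} [Field F] [Fintype F] (h2 : (2 : F) ≠ 0)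
    (c : Matrix.SpecialLinearGroup (Fin 2) F) (l p : F)
    (ha : c.1 0 0 = l + p) (hd : c.1 1 1 = l - p)
    (hpp : p ^ 2 + c.1 0 1 * c.1 1 0 = 0) (hbc : c.1 0 1 ≠ 0 ∨ c.1 1 0 ≠ 0) :
    Nat.card ↥(Subgroup.centralizer ({c} : Set (Matrix.SpecialLinearGroup (Fin 2) F))) =
      2 * Fintype.card F := by
  classical
  let sg : Bool → F := fun s => if s then 1 else -1
  have hsg : ∀ s, sg s ^ 2 = 1 := by
    intro s
    cases s <;> simp [sg]
  have hmem : ∀ x : Bool × F, elt p (c.1 0 1) (c.1 1 0) hpp (sg x.1) x.2 (hsg x.1) ∈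
      Subgroup.centralizer ({c} : Set (Matrix.SpecialLinearGroup (Fin 2) F)) := by
    intro x
    rw [Subgroup.mem_centralizer_singleton_iff, comm_iff]
    simp only [elt_00, elt_01, elt_10, elt_11, ha, hd]
    refine ⟨by ring, by ring, by ring, by ring⟩
  let f : Bool × F → ↥(Subgroup.centralizer ({c} : Set (Matrix.SpecialLinearGroup (Fin 2) F))) :=
    fun x => ⟨_, hmem x⟩
  have hinj : Function.Injective f := by
    rintro ⟨s, β⟩ ⟨s', β'⟩ h
    have h' : elt p (c.1 0 1) (c.1 1 0) hpp (sg s) β (hsg s) =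
        elt p (c.1 0 1) (c.1 1 0) hpp (sg s') β' (hsg s') := congrArg Subtype.val h
    have e00 := congrArg (fun m : Matrix.SpecialLinearGroup (Fin 2) F => m.1 0 0) h'
    have e01 := congrArg (fun m : Matrix.SpecialLinearGroup (Fin 2) F => m.1 0 1) h'
    have e10 := congrArg (fun m : Matrix.SpecialLinearGroup (Fin 2) F => m.1 1 0) h'
    simp only [elt_00, elt_01, elt_10] at e00 e01 e10
    have hβ : β = β' := by
      rcases hbc with hb | hc
      · exact mul_right_cancel₀ hb e01
      · exact mul_right_cancel₀ hc e10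
    subst hβ
    have hs : sg s = sg s' := by linear_combination e00
    have hss : s = s' := by
      cases s <;> cases s'
      · rfl
      · exfalso
        have h1 : (-1 : F) = 1 := by simpa [sg] using hs
        exact h2 (by linear_combination (-1 : F) * h1)
      · exfalso
        have h1 : (1 : F) = -1 := by simpa [sg] using hs
        exact h2 (by linear_combination h1)
      · rfl
    rw [hss]
  have hsurj : Function.Surjective f := by
    rintro ⟨g, hg⟩
    rw [Subgroup.mem_centralizer_singleton_iff, comm_iff] at hg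
    obtain ⟨e00, e01, e10, e11⟩ := hg
    simp only [ha, hd] at e00 e01 e10 e11
    have hdet : g.1 0 0 * g.1 1 1 - g.1 0 1 * g.1 1 0 = 1 := by
      have := g.2
      rwa [Matrix.det_fin_two] at this
    -- the coefficient β
    have hβ : ∃ β : F, g.1 0 1 = β * c.1 0 1 ∧ g.1 1 0 = β * c.1 1 0 ∧
        g.1 0 0 - g.1 1 1 = 2 * β * p := by
      rcases hbc with hb | hc
      · refine ⟨g.1 0 1 / c.1 0 1, ?_, ?_, ?_⟩
        · field_simp
        · field_simp
          linear_combination (-1 : F) * e00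
        · field_simp
          linear_combination e01
      · refine ⟨g.1 1 0 / c.1 1 0, ?_, ?_, ?_⟩
        · field_simp
          linear_combination e00
        · field_simp
        · field_simp
          linear_combination (-1 : F) * e10
    obtain ⟨β, h01, h10, hdiff⟩ := hβ
    have he : (g.1 0 0 - β * p) ^ 2 = 1 := by
      have h11 : g.1 1 1 = g.1 0 0 - 2 * β * p := by linear_combination (-1 : F) * hdiff
      rw [h11, h01, h10] at hdet
      linear_combination hdet + β ^ 2 * hpp
    have he' : g.1 0 0 - β * p = 1 ∨ g.1 0 0 - β * p = -1 := by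
      have : (g.1 0 0 - β * p - 1) * (g.1 0 0 - β * p + 1) = 0 := by linear_combination he
      rcases mul_eq_zero.mp this with h | h
      · left
        linear_combination h
      · right
        linear_combination h
    obtain ⟨s, hs⟩ : ∃ s : Bool, sg s = g.1 0 0 - β * p := by
      rcases he' with h | h
      · exact ⟨true, by simp [sg, h]⟩
      · exact ⟨false, by simp [sg, h]⟩
    refine ⟨(s, β), ?_⟩
    apply Subtype.ext
    apply sl_ext
    · change (elt p (c.1 0 1) (c.1 1 0) hpp (sg s) β (hsg s)).1 0 0 = g.1 0 0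
      rw [elt_00, hs]
      ring
    · change (elt p (c.1 0 1) (c.1 1 0) hpp (sg s) β (hsg s)).1 0 1 = g.1 0 1
      rw [elt_01, h01]
    · change (elt p (c.1 0 1) (c.1 1 0) hpp (sg s) β (hsg s)).1 1 0 = g.1 1 0
      rw [elt_10, h10]
    · change (elt p (c.1 0 1) (c.1 1 0) hpp (sg s) β (hsg s)).1 1 1 = g.1 1 1
      rw [elt_11, hs]
      linear_combination hdiff
  rw [Nat.card_congr (Equiv.ofBijective f ⟨hinj, hsurj⟩).symm, Nat.card_prod,
    Nat.card_eq_fintype_card, Nat.card_eq_fintype_card, Fintype.card_bool]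

theorem main : NCStmt.CUni := by
  intro F _ _ hodd c hc1 hcm1 ⟨l, v, hv, hl, hcv⟩
  have h2 : (2 : F) ≠ 0 := by
    apply Ring.two_ne_zero
    intro hch
    have := FiniteField.even_card_of_char_two hch
    rcases hodd with ⟨k, hk⟩
    omega
  have hdet : c.1 0 0 * c.1 1 1 - c.1 0 1 * c.1 1 0 = 1 := by
    have := c.2
    rwa [Matrix.det_fin_two] at this
  have h0 : c.1 0 0 * v 0 + c.1 0 1 * v 1 = l * v 0 := by
    have := congrFun hcv 0
    simpa [Matrix.mulVec, dotProduct, Fin.sum_univ_two] using this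
  have h1 : c.1 1 0 * v 0 + c.1 1 1 * v 1 = l * v 1 := by
    have := congrFun hcv 1
    simpa [Matrix.mulVec, dotProduct, Fin.sum_univ_two] using this
  have hN : (c.1 0 0 - l) * (c.1 1 1 - l) - c.1 0 1 * c.1 1 0 = 0 := by
    have hv' : v 0 ≠ 0 ∨ v 1 ≠ 0 := by
      by_contra hcon
      obtain ⟨hv0, hv1⟩ := not_or.mp hcon
      rw [not_not] at hv0 hv1
      apply hv
      funext i
      fin_cases i
      · exact hv0
      · exact hv1
    rcases hv' with h | h
    · have : ((c.1 0 0 - l) * (c.1 1 1 - l) - c.1 0 1 * c.1 1 0) * v 0 = 0 := by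
        linear_combination (c.1 1 1 - l) * h0 - c.1 0 1 * h1
      exact (mul_eq_zero.mp this).resolve_right h
    · have : ((c.1 0 0 - l) * (c.1 1 1 - l) - c.1 0 1 * c.1 1 0) * v 1 = 0 := by
        linear_combination (c.1 0 0 - l) * h1 - c.1 1 0 * h0
      exact (mul_eq_zero.mp this).resolve_right h
  have htr : c.1 0 0 + c.1 1 1 = 2 * l := by
    have h3 : l * (c.1 0 0 + c.1 1 1) = 2 := by linear_combination hdet + hl - hN
    linear_combination l * h3 - (c.1 0 0 + c.1 1 1) * hl
  have hpp : (c.1 0 0 - l) ^ 2 + c.1 0 1 * c.1 1 0 = 0 := by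
    linear_combination (-1 : F) * hN + (c.1 0 0 - l) * htr
  have hbc : c.1 0 1 ≠ 0 ∨ c.1 1 0 ≠ 0 := by
    by_contra hcon
    obtain ⟨hb0, hc0⟩ := not_or.mp hcon
    rw [not_not] at hb0 hc0
    have hp0 : c.1 0 0 - l = 0 := by
      have : (c.1 0 0 - l) ^ 2 = 0 := by
        rw [hb0] at hpp
        simpa using hpp
      exact pow_eq_zero_iff (two_ne_zero) |>.mp this
    have ha' : c.1 0 0 = l := by linear_combination hp0
    have hd' : c.1 1 1 = l := by linear_combination htr - hp0
    have hl' : l = 1 ∨ l = -1 := by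
      have : (l - 1) * (l + 1) = 0 := by linear_combination hl
      rcases mul_eq_zero.mp this with h | h
      · left
        linear_combination h
      · right
        linear_combination h
    rcases hl' with h | h
    · apply hc1
      ext i j
      fin_cases i <;> fin_cases j
      · simpa [h] using ha'
      · simpa using hb0
      · simpa using hc0
      · simpa [h] using hd'
    · apply hcm1
      ext i j
      fin_cases i <;> fin_cases j
      · simpa [h] using ha'
      · simpa using hb0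
      · simpa using hc0
      · simpa [h] using hd'
  exact card_centralizer_aux h2 c l (c.1 0 0 - l) (by ring) (by linear_combination htr) hpp hbc

end Cfsg.Agent.Lib.Helper82.NCCUNI
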