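import Mathlib
import Cfsg.Agent.Lib.Helper17.CentFix
import Cfsg.Agent.Lib.Helper17.FixedPoints
import Cfsg.Agent.Lib.Helper17.FixCount
import Cfsg.Agent.Lib.Helper17.EvenEq
import Cfsg.Agent.Lib.Helper17.EvenInv
import Cfsg.Agent.Lib.Helper17.ExcSimple
import Cfsg.Agent.Lib.Helper68.ExcFive
import Cfsg.Agent.Lib.Helper69.O4680

/-!
# Piece O3960 of S0983: no simple group of order `3960 = 2^3 * 3^2 * 5 * 11`
-/

set_option autoImplicit false

namespace Cfsg.Agent.Lib.Helper82.O3960

open Cfsg Subgroup MulAction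
open Cfsg.Agent.Lib.CT.Wedderburn
open Cfsg.Agent.Lib.Helper17.Sylow Cfsg.Agent.Lib.Helper17.Sylow2
open Cfsg.Agent.Lib.Helper17.CentFix Cfsg.Agent.Lib.Helper17.Commuting
open Cfsg.Agent.Lib.Helper17.FixCount Cfsg.Agent.Lib.Helper17.FixedPoints
open Cfsg.Agent.Lib.Helper17.ExcSimple
open Cfsg.Agent.Lib.Helper69.O4680

theorem key11 : ∀ n ∈ Nat.divisors 360, n % 11 = 1 → n ≠ 1 → n = 12 ∨ n = 45 := by
  decide +kernel

theorem key5 : ∀ n ∈ Nat.divisors 792, n % 5 = 1 → n ≠ 1 →
    n = 6 ∨ n = 11 ∨ n = 36 ∨ n = 66 ∨ n = 396 := by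
  decide +kernel

theorem keyr10 : ∀ r ∈ Nat.divisors 10, r = 1 ∨ r = 2 ∨ r = 5 ∨ r = 10 := by
  decide

theorem keyr4 : ∀ r ∈ Nat.divisors 4, r = 1 ∨ r = 2 ∨ r = 4 := by
  decide

theorem keyF : ∀ F < 66, F % 5 = 1 → F % 3 = 0 →
    (60 * F ∣ 3960 → F = 6) ∧ (30 * F ∣ 3960 → F = 6) := by
  decide +kernel

theorem keydeg : ∀ D ∈ Nat.divisors 3960, D ≠ 1 →
    (D % 5 = 1 → D + 1 ∣ 3960 → D = 11) ∧ (D % 5 = 4 → D - 1 ∣ 3960 → D = 4 ∨ D = 9) := by
  decide +kernel

/-- A fixed-point count: an element of prime order `q` commuting with an element of order `11`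
acts without fixed points on the cosets of a subgroup of order `360`, so `q` divides `11`. -/
theorem no_sub360_aux {G : Type*} [Group G] [Finite G] [IsSimpleGroup G] (h : Nat.card G = 3960)
    (q : ℕ) [Fact q.Prime] (u x : G) (hu : orderOf u = q) (hx : orderOf x = 11)
    (hc : Commute u x) (H : Subgroup G) (hH : Nat.card H = 360) : 11 % q = 0 := by
  have : Fact (Nat.Prime 11) := ⟨by norm_num⟩
  have hq : q.Prime := Fact.out
  have hidx : H.index = 11 := by
    have := H.card_mul_index
    rw [hH, h] at this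
    omega
  have hHtop : H ≠ ⊤ := by
    rintro rfl
    rw [Subgroup.index_top] at hidx
    omega
  have hu1 : u ≠ 1 := by
    rintro rfl
    rw [orderOf_one] at hu
    exact hq.one_lt.ne hu
  have huq : u ^ (q ^ 1) = 1 := by rw [pow_one, ← hu]; exact pow_orderOf_eq_one u
  have hx11 : x ^ (11 ^ 1) = 1 := by rw [pow_one, ← hx]; exact pow_orderOf_eq_one x
  have h2 := card_modEq_card_fixedBy (X := G ⧸ H) u huq
  have h1 := card_fixedBy_modEq_of_commute (X := G ⧸ H) u x hc hx11
  have h3 := card_fixedBy_lt_index H hHtop u hu1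
  have hX : Nat.card (G ⧸ H) = 11 := hidx
  have hempty : Nat.card {z : G ⧸ H // u • z = z ∧ x • z = z} = 0 := by
    rw [Nat.card_eq_zero]
    left
    constructor
    rintro ⟨z, -, hz⟩
    induction z using QuotientGroup.induction_on with
    | H g =>
      rw [coset_fixed_iff] at hz
      have hd := orderOf_dvd_card_of_mem hz
      rw [orderOf_conj_inv, hx, hH] at hd
      omega
  rw [hempty] at h1
  rw [hX] at h2
  rw [hidx] at h3
  unfold Nat.ModEq at h1 h2
  have h0 : Nat.card (fixedBy (G ⧸ H) u) = 0 := by omega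
  rw [h0] at h2
  simpa using h2

/-- Elements of `N(Q)` with trivial cube lie in the cyclic group generated by `x * v`. -/
theorem cube_mem {G : Type*} [Group G] [Finite G] (Q : Subgroup G) (hQ : Nat.card Q = 5)
    (hC : Nat.card (centralizer (Q : Set G)) = 15 ∨ Nat.card (centralizer (Q : Set G)) = 30)
    (hN : Nat.card (normalizer (Q : Set G)) = 60) (x v : G) (hx : orderOf x = 5)
    (hxQ : x ∈ Q) (hv : orderOf v = 3) (hvC : v ∈ centralizer (Q : Set G)) (s : G)
    (hsN : s ∈ normalizer (Q : Set G)) (hs : s ^ 3 = 1) : s ∈ zpowers (x * v) := by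
  have : Fact (Nat.Prime 5) := ⟨by norm_num⟩
  have hle : Q ≤ centralizer (Q : Set G) := le_centralizer_of_card_prime Q hQ
  have hCN : centralizer (Q : Set G) ≤ normalizer (Q : Set G) :=
    Subgroup.centralizer_le_normalizer (s := (Q : Set G))
  have hcomm : Commute x v := ((mem_centralizer_iff.mp hvC) x hxQ)
  have hw : orderOf (x * v) = 15 := by
    have := hcomm.orderOf_mul_eq_mul_orderOf_of_coprime (by rw [hx, hv]; norm_num)
    rw [this, hx, hv]
  have hA : Nat.card (zpowers (x * v)) = 15 := by rw [Nat.card_zpowers, hw]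
  have hAC : zpowers (x * v) ≤ centralizer (Q : Set G) := by
    rw [zpowers_le]
    exact mul_mem (hle hxQ) hvC
  have hs4 : s ^ 4 = s := by rw [pow_succ, hs, one_mul]
  have hsC : s ∈ centralizer (Q : Set G) := by
    have hnorm : ((centralizer (Q : Set G)).subgroupOf (normalizer (Q : Set G))).Normal := by
      rw [← normalizerMonoidHom_ker]
      infer_instance
    have hrel := card_mul_relIndex hCN
    rw [hN] at hrel
    have h1 := Subgroup.pow_index_mem
      ((centralizer (Q : Set G)).subgroupOf (normalizer (Q : Set G))) ⟨s, hsN⟩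
    have h4 : (⟨s, hsN⟩ : normalizer (Q : Set G)) ^ 4
        ∈ (centralizer (Q : Set G)).subgroupOf (normalizer (Q : Set G)) := by
      rcases hC with hC | hC
      · have h4' : (centralizer (Q : Set G)).relIndex (normalizer (Q : Set G)) = 4 := by
          rw [hC] at hrel
          omega
        have h4'' : ((centralizer (Q : Set G)).subgroupOf (normalizer (Q : Set G))).index = 4 :=
          h4'
        rw [h4''] at h1
        exact h1
      · have h2' : (centralizer (Q : Set G)).relIndex (normalizer (Q : Set G)) = 2 := by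
          rw [hC] at hrel
          omega
        have h2'' : ((centralizer (Q : Set G)).subgroupOf (normalizer (Q : Set G))).index = 2 :=
          h2'
        rw [h2''] at h1
        have e : (⟨s, hsN⟩ : normalizer (Q : Set G)) ^ 4
            = ((⟨s, hsN⟩ : normalizer (Q : Set G)) ^ 2) ^ 2 := by
          rw [← pow_mul]
        rw [e]
        exact pow_mem h1 2
    rw [Subgroup.mem_subgroupOf] at h4
    have e : (((⟨s, hsN⟩ : normalizer (Q : Set G)) ^ 4 : normalizer (Q : Set G)) : G) = s := by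
      rw [Subgroup.coe_pow]
      exact hs4
    rw [e] at h4
    exact h4
  rcases hC with hC | hC
  · have e : zpowers (x * v) = centralizer (Q : Set G) :=
      Subgroup.eq_of_le_of_card_ge hAC (by rw [hA, hC])
    rw [e]
    exact hsC
  · have hrel := card_mul_relIndex hAC
    rw [hA, hC] at hrel
    have h2 : (zpowers (x * v)).relIndex (centralizer (Q : Set G)) = 2 := by omega
    have hsq := Subgroup.sq_mem_of_index_two
      (H := (zpowers (x * v)).subgroupOf (centralizer (Q : Set G))) h2 ⟨s, hsC⟩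
    rw [Subgroup.mem_subgroupOf] at hsq
    have e : s = (s ^ 2) ^ 2 := by
      rw [← pow_mul]
      exact hs4.symm
    rw [e]
    exact pow_mem hsq 2

/-- A cyclic group has at most three elements of trivial cube. -/
theorem card_cube_zpowers_le {G : Type*} [Group G] [Finite G] (w : G) :
    {s : G | s ∈ zpowers w ∧ s ^ 3 = 1}.ncard ≤ 3 := by
  classical
  have : Fintype (zpowers w) := Fintype.ofFinite _
  have h := IsCyclic.card_pow_eq_one_le (α := zpowers w) (n := 3) (by norm_num)
  have e : {s : G | s ∈ zpowers w ∧ s ^ 3 = 1}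
      = Subtype.val '' ((Finset.univ.filter (fun a : zpowers w => a ^ 3 = 1) :
          Finset (zpowers w)) : Set (zpowers w)) := by
    ext s
    constructor
    · rintro ⟨hs, hs3⟩
      refine ⟨⟨s, hs⟩, ?_, rfl⟩
      simp only [Finset.coe_filter, Finset.mem_univ, true_and, Set.mem_ofPred_eq]
      exact Subtype.ext (by simpa using hs3)
    · rintro ⟨a, ha, rfl⟩
      simp only [Finset.coe_filter, Finset.mem_univ, true_and, Set.mem_ofPred_eq] at ha
      refine ⟨a.2, ?_⟩
      have := congrArg Subtype.val ha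
      simpa using this
  rw [e, Set.ncard_image_of_injective _ Subtype.val_injective, Set.ncard_coe_finset]
  exact h

/-- Conjugates of `v` in `N(Q)`: at most two, and if two then `v⁻¹` is one. -/
theorem conj_count60 {G : Type*} [Group G] [Finite G] (Q : Subgroup G) (hQ : Nat.card Q = 5)
    (hC : Nat.card (centralizer (Q : Set G)) = 15 ∨ Nat.card (centralizer (Q : Set G)) = 30)
    (hN : Nat.card (normalizer (Q : Set G)) = 60) (v : G) (hv : orderOf v = 3)
    (hvC : v ∈ centralizer (Q : Set G)) :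
    {s : G | s ∈ normalizer (Q : Set G) ∧ ∃ g : G, g * v * g⁻¹ = s}.ncard ≤ 2 ∧
    ({s : G | s ∈ normalizer (Q : Set G) ∧ ∃ g : G, g * v * g⁻¹ = s}.ncard = 2 →
      ∃ g : G, g * v * g⁻¹ = v⁻¹) := by
  have : Fact (Nat.Prime 5) := ⟨by norm_num⟩
  obtain ⟨x, hxQ, hx⟩ := exists_mem_orderOf_eq_prime Q 5 (by rw [hQ])
  have hT := card_cube_zpowers_le (x * v)
  set T : Set G := {s : G | s ∈ zpowers (x * v) ∧ s ^ 3 = 1} with hTdef
  set S : Set G := {s : G | s ∈ normalizer (Q : Set G) ∧ ∃ g : G, g * v * g⁻¹ = s} with hSdef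
  have hv3 : v ^ 3 = 1 := by rw [← hv]; exact pow_orderOf_eq_one v
  have hv1 : v ≠ 1 := by
    rintro rfl
    rw [orderOf_one] at hv
    omega
  have hCN : centralizer (Q : Set G) ≤ normalizer (Q : Set G) :=
    Subgroup.centralizer_le_normalizer (s := (Q : Set G))
  have hmem : ∀ s ∈ normalizer (Q : Set G), s ^ 3 = 1 → s ∈ T := fun s hsN hs3 =>
    ⟨cube_mem Q hQ hC hN x v hx hxQ hv hvC s hsN hs3, hs3⟩
  have hST : ∀ s ∈ S, s ∈ T ∧ s ≠ 1 := by
    rintro s ⟨hsN, g, rfl⟩
    have h3 : (g * v * g⁻¹) ^ 3 = 1 := by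
      rw [conj_pow, hv3]
      group
    refine ⟨hmem _ hsN h3, ?_⟩
    intro h1
    apply hv1
    have e : v = g⁻¹ * (g * v * g⁻¹) * g := by group
    rw [e, h1]
    group
  have hTfin : T.Finite := Set.toFinite T
  have h1T : (1 : G) ∈ T := ⟨one_mem _, one_pow 3⟩
  have h1S : (1 : G) ∉ S := fun h => (hST 1 h).2 rfl
  have hins : insert (1 : G) S ⊆ T := by
    intro s hs
    rcases Set.mem_insert_iff.mp hs with rfl | hs
    · exact h1T
    · exact (hST s hs).1
  have hcard1 : (insert (1 : G) S).ncard = S.ncard + 1 :=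
    Set.ncard_insert_of_notMem h1S (Set.toFinite S)
  have hle1 := Set.ncard_le_ncard hins hTfin
  refine ⟨by omega, ?_⟩
  intro hS2
  by_contra hno
  have hvinv : v⁻¹ ∉ insert (1 : G) S := by
    intro h
    rcases Set.mem_insert_iff.mp h with h | h
    · exact hv1 (inv_eq_one.mp h)
    · exact hno h.2
  have hvinvT : v⁻¹ ∈ T := by
    apply hmem _ (hCN (inv_mem hvC))
    rw [inv_pow, hv3, inv_one]
  have hins2 : insert v⁻¹ (insert (1 : G) S) ⊆ T := by
    intro s hs
    rcases Set.mem_insert_iff.mp hs with rfl | hs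
    · exact hvinvT
    · exact hins hs
  have hcard2 : (insert v⁻¹ (insert (1 : G) S)).ncard = (insert (1 : G) S).ncard + 1 :=
    Set.ncard_insert_of_notMem hvinv (Set.toFinite _)
  have hle2 := Set.ncard_le_ncard hins2 hTfin
  omega

/-- If `a c² = q K m²` with `q` prime not dividing `K`, then `q ∣ a`. -/
theorem dvd_of_sq_eq (q : ℕ) [Fact q.Prime] (K a c m : ℕ) (hK : ¬ q ∣ K) (hK0 : K ≠ 0)
    (ha : a ≠ 0) (hc : c ≠ 0) (hm : m ≠ 0) (h : a * c ^ 2 = q * K * m ^ 2) : q ∣ a := by
  have hq : q.Prime := Fact.out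
  have e := congrArg (padicValNat q) h
  rw [padicValNat.mul ha (pow_ne_zero 2 hc), padicValNat.pow c 2,
    padicValNat.mul (mul_ne_zero hq.ne_zero hK0) (pow_ne_zero 2 hm), padicValNat.pow m 2,
    padicValNat.mul hq.ne_zero hK0, padicValNat_self,
    padicValNat.eq_zero_of_not_dvd hK] at e
  apply dvd_of_one_le_padicValNat
  omega

/-- `a c² = K w²` with `a < 10`, `c > 0` and `K ∈ {330, 55, 30}` forces `w = 0`. -/
theorem sq_lemma (K a c : ℕ) (w : ℤ) (hK : K = 330 ∨ K = 55 ∨ K = 30) (ha : a < 10)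
    (hc : 0 < c) (h : ((a * c ^ 2 : ℕ) : ℤ) = K * w ^ 2) : w = 0 := by
  by_contra hw0
  have hw : w ^ 2 = ((w.natAbs ^ 2 : ℕ) : ℤ) := by
    push_cast
    exact (sq_abs w).symm
  rw [hw] at h
  have h' : a * c ^ 2 = K * w.natAbs ^ 2 := by exact_mod_cast h
  obtain ⟨m, hm⟩ : ∃ m : ℕ, m = w.natAbs := ⟨_, rfl⟩
  rw [← hm] at h'
  have hm0 : m ≠ 0 := by
    rw [hm]
    exact Int.natAbs_ne_zero.mpr hw0
  have hc0 : c ≠ 0 := by omega
  have ha0 : a ≠ 0 := by
    rintro rfl
    have h1 : 0 < K * m ^ 2 := by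
      have : 0 < K := by rcases hK with rfl | rfl | rfl <;> norm_num
      positivity
    omega
  have : Fact (Nat.Prime 5) := ⟨by norm_num⟩
  have : Fact (Nat.Prime 3) := ⟨by norm_num⟩
  have : Fact (Nat.Prime 11) := ⟨by norm_num⟩
  rcases hK with rfl | rfl | rfl
  · have h5 := dvd_of_sq_eq 5 66 a c m (by norm_num) (by norm_num) ha0 hc0 hm0 (by omega)
    have h3 := dvd_of_sq_eq 3 110 a c m (by norm_num) (by norm_num) ha0 hc0 hm0 (by omega)
    omega
  · have h11 := dvd_of_sq_eq 11 5 a c m (by norm_num) (by norm_num) ha0 hc0 hm0 (by omega)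
    omega
  · have h5 := dvd_of_sq_eq 5 6 a c m (by norm_num) (by norm_num) ha0 hc0 hm0 (by omega)
    have h3 := dvd_of_sq_eq 3 10 a c m (by norm_num) (by norm_num) ha0 hc0 hm0 (by omega)
    omega

/-- No simple group of order 3960 has a self-centralizing Sylow 5-subgroup with normalizer of
order 10. -/
theorem case396 {G : Type*} [Group G] [Finite G] [IsSimpleGroup G]
    (hG : ¬ IsMulCommutative G) (h : Nat.card G = 3960) (P : Sylow 5 G)
    (hP : Nat.card (P : Subgroup G) = 5)
    (hC : Nat.card (centralizer ((P : Subgroup G) : Set G)) = 5)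
    (hN : Nat.card (normalizer ((P : Subgroup G) : Set G)) = 5 * 2) : False := by
  classical
  have : Fintype G := Fintype.ofFinite G
  have : Finite (IrrCharacter G) := finite_irrCharacter G
  have : Fintype (IrrCharacter G) := Fintype.ofFinite _
  have hp5 : Nat.Prime 5 := by norm_num
  have hCle := centralizer_le_of_card (P : Subgroup G) hp5 hP hC
  obtain ⟨n, ε, δ, θ, χ, i₀, hε, hδ, hχT, hθχ, hθT, ⟨a, ha⟩, heq, hθvan, hθone, hform⟩ :=
    Cfsg.Agent.Lib.Helper68.ExcFive.exceptional_five (P : Subgroup G) hP hCle hN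
  have hD1 := charDegree_ne_one hG χ hχT
  have hDdvd := Cfsg.Agent.Lib.Helper80.Integrality.charDegree_dvd_card χ
  have hddvd := Cfsg.Agent.Lib.Helper80.Integrality.charDegree_dvd_card (θ i₀)
  rw [h] at hDdvd hddvd
  have hDpos := irr_charDegree_pos χ.2
  have hdpos := irr_charDegree_pos (θ i₀).2
  obtain ⟨z, hz⟩ := exists_prime_orderOf_dvd_card' (G := G) 2 (by rw [h]; norm_num)
  obtain ⟨y, hyP, hy1⟩ :=
    Cfsg.Agent.Lib.Helper17.ExcCor.exists_mem_ne_one (P : Subgroup G) hp5 hP
  obtain ⟨u, a', hχz, hθz, ha2, -, hmain⟩ :=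
    Cfsg.Agent.Lib.Helper17.EvenEq.involution_equation' (P : Subgroup G) hp5 hP (by norm_num)
      ε δ θ χ i₀ hε hθvan hθone hform z hz y hyP hy1
  obtain ⟨D, hDdef⟩ : ∃ D, D = charDegree (χ : G → ℂ) := ⟨_, rfl⟩
  obtain ⟨d, hddef⟩ : ∃ d, d = charDegree ((θ i₀ : IrrCharacter G) : G → ℂ) := ⟨_, rfl⟩
  obtain ⟨c, hcdef⟩ : ∃ c, c = Nat.card (centralizer ({z} : Set G)) := ⟨_, rfl⟩
  have hcpos : 0 < c := hcdef ▸ Nat.card_pos
  rw [← hDdef] at hD1 hDdvd hDpos ha heq hmain
  rw [← hddef] at hddvd hdpos heq hmain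
  rw [← hcdef, h] at hmain
  rw [hN] at ha2
  have hk := keydeg D (Nat.mem_divisors.mpr ⟨hDdvd, by norm_num⟩) hD1
  have hfaith : u ≠ (D : ℤ) := by
    intro hu
    have h1 : (χ : G → ℂ) z = (χ : G → ℂ) 1 := by
      rw [hχz, Cfsg.Agent.Lib.Helper17.ExcCor.deg_eq χ, ← hDdef, hu, Int.cast_natCast]
    have h2 := Cfsg.Agent.Lib.Helper17.EvenInv.faithful_of_simple hG χ hχT z h1
    rw [h2, orderOf_one] at hz
    omega
  have hvals : (δ = 1 ∧ ε = 1 ∧ D = 11 ∧ d = 12) ∨
      (δ = -1 ∧ ε = -1 ∧ ((D = 4 ∧ d = 3) ∨ (D = 9 ∧ d = 8))) := by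
    rcases hδ with rfl | rfl <;> rcases hε with rfl | rfl
    · left
      have h1 : D % 5 = 1 := by omega
      have h2 : d = D + 1 := by omega
      have h3 := hk.1 h1 (h2 ▸ hddvd)
      exact ⟨rfl, rfl, h3, by omega⟩
    · exfalso; omega
    · exfalso; omega
    · right
      have h1 : D % 5 = 4 := by omega
      have h2 : D - 1 = d := by omega
      have h3 := hk.2 h1 (h2 ▸ hddvd)
      refine ⟨rfl, rfl, ?_⟩
      rcases h3 with h3 | h3
      · left; exact ⟨h3, by omega⟩
      · right; exact ⟨h3, by omega⟩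
  rcases hvals with ⟨rfl, rfl, rfl, rfl⟩ | ⟨rfl, rfl, ⟨rfl, rfl⟩ | ⟨rfl, rfl⟩⟩
  · -- degrees (11, 12)
    have hw := sq_lemma 30 a' c (u - 11) (by norm_num) (by omega) hcpos (by
      push_cast at hmain ⊢
      linarith)
    exact hfaith (by push_cast; linarith)
  · -- degrees (4, 3)
    have hw := sq_lemma 330 a' c (u - 4) (by norm_num) (by omega) hcpos (by
      push_cast at hmain ⊢
      linarith)
    exact hfaith (by push_cast; linarith)
  · -- degrees (9, 8)
    have hw := sq_lemma 55 a' c (u - 9) (by norm_num) (by omega) hcpos (by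
      push_cast at hmain ⊢
      linarith)
    exact hfaith (by push_cast; linarith)

/-- No finite simple group has order 3960 = 2^3 * 3^2 * 5 * 11. -/
theorem no_simple {G : Type*} [Group G] [Finite G] [IsSimpleGroup G] : Nat.card G ≠ 3960 := by
  intro h
  have hG : ¬ IsMulCommutative G := not_comm_of_not_prime (by rw [h]; norm_num)
  have : Fact (Nat.Prime 11) := ⟨by norm_num⟩
  have : Fact (Nat.Prime 5) := ⟨by norm_num⟩
  have : Fact (Nat.Prime 3) := ⟨by norm_num⟩
  have h11 : 11 ∣ Nat.card G := by rw [h]; norm_num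
  have h5 : 5 ∣ Nat.card G := by rw [h]; norm_num
  -- Sylow 11
  have hd : Nat.card (Sylow 11 G) ∣ 360 :=
    card_sylow_dvd (k := 1) (h.trans (by norm_num)) (by norm_num)
  have hm := card_sylow_mod (G := G) 11
  have hne := card_sylow_ne_one hG h11
  obtain ⟨P⟩ : Nonempty (Sylow 11 G) := inferInstance
  have hP : Nat.card (P : Subgroup G) = 11 := by
    simpa using card_sylow_subgroup (k := 1) (m := 360) (h.trans (by norm_num)) (by norm_num) P
  have hNn := card_normalizer_mul_card_sylow P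
  rw [h] at hNn
  obtain ⟨r, hr1, hr10, hCr, hC11⟩ := sylow_prime_centralizer hG P hP
  have hr := keyr10 r (Nat.mem_divisors.mpr ⟨hr10, by norm_num⟩)
  obtain ⟨x, hxP, hx⟩ := exists_mem_orderOf_eq_prime (P : Subgroup G) 11 (by rw [hP])
  have key : ∀ H : Subgroup G, Nat.card H = 360 → False := by
    intro H hH
    rcases key11 _ (Nat.mem_divisors.mpr ⟨hd, by norm_num⟩) hm hne with hn | hn
    · rw [hn] at hNn
      have hC3 : 3 ∣ Nat.card (centralizer ((P : Subgroup G) : Set G)) := by
        rcases hr with rfl | rfl | rfl | rfl <;> omega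
      obtain ⟨u, huC, hu⟩ :=
        exists_mem_orderOf_eq_prime (centralizer ((P : Subgroup G) : Set G)) 3 hC3
      have hcux : Commute u x := ((mem_centralizer_iff.mp huC) x hxP).symm
      have := no_sub360_aux h 3 u x hu hx hcux H hH
      omega
    · rw [hn] at hNn
      have hC2 : 2 ∣ Nat.card (centralizer ((P : Subgroup G) : Set G)) := by
        rcases hr with rfl | rfl | rfl | rfl <;> omega
      obtain ⟨u, huC, hu⟩ :=
        exists_mem_orderOf_eq_prime (centralizer ((P : Subgroup G) : Set G)) 2 hC2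
      have hcux : Commute u x := ((mem_centralizer_iff.mp huC) x hxP).symm
      have := no_sub360_aux h 2 u x hu hx hcux H hH
      omega
  -- Sylow 5
  have hd5 : Nat.card (Sylow 5 G) ∣ 792 :=
    card_sylow_dvd (k := 1) (h.trans (by norm_num)) (by norm_num)
  have hm5 := card_sylow_mod (G := G) 5
  have hne5 := card_sylow_ne_one hG h5
  have hf5 := two_mul_card_dvd_factorial_card_sylow hG h5
  rw [h] at hf5
  obtain ⟨Q⟩ : Nonempty (Sylow 5 G) := inferInstance
  have hQ : Nat.card (Q : Subgroup G) = 5 := by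
    simpa using card_sylow_subgroup (k := 1) (m := 792) (h.trans (by norm_num)) (by norm_num) Q
  have hNn5 := card_normalizer_mul_card_sylow Q
  rw [h] at hNn5
  have hidx5 : (normalizer ((Q : Subgroup G) : Set G)).index = Nat.card (Sylow 5 G) :=
    (Q.card_eq_index_normalizer).symm
  obtain ⟨r5, hr51, hr54, hCr5, hC55⟩ := sylow_prime_centralizer hG Q hQ
  have hr5 := keyr4 r5 (Nat.mem_divisors.mpr ⟨hr54, by norm_num⟩)
  rcases key5 _ (Nat.mem_divisors.mpr ⟨hd5, by norm_num⟩) hm5 hne5 with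
    hn5 | hn5 | hn5 | hn5 | hn5
  · -- 6
    rw [hn5] at hf5
    exact absurd hf5 (by decide)
  · -- 11
    rw [hn5] at hNn5
    exact key (normalizer ((Q : Subgroup G) : Set G)) (by omega)
  · -- 36
    rw [hn5] at hNn5
    have hC11' : 11 ∣ Nat.card (centralizer ((Q : Subgroup G) : Set G)) := by
      rcases hr5 with rfl | rfl | rfl <;> omega
    obtain ⟨w, hwC, hw⟩ :=
      exists_mem_orderOf_eq_prime (centralizer ((Q : Subgroup G) : Set G)) 11 hC11'
    have h1 := card_fixedBy_mod_of_mem_centralizer Q hQ w hwC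
    have hw11 : w ^ (11 ^ 1) = 1 := by rw [pow_one, ← hw]; exact pow_orderOf_eq_one w
    have h2 := card_modEq_card_fixedBy
      (X := G ⧸ normalizer ((Q : Subgroup G) : Set G)) w hw11
    have hw1 : w ≠ 1 := by
      rintro rfl
      rw [orderOf_one] at hw
      omega
    have h3 := card_fixedBy_lt_index _ (normalizer_sylow_ne_top hG h5 Q) w hw1
    have hX : Nat.card (G ⧸ normalizer ((Q : Subgroup G) : Set G)) = 36 := hidx5.trans hn5
    rw [hidx5, hn5] at h3
    rw [hX, Nat.ModEq] at h2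
    omega
  · -- 66
    rw [hn5] at hNn5
    have hN60 : Nat.card (normalizer ((Q : Subgroup G) : Set G)) = 60 := by omega
    have hC1530 : Nat.card (centralizer ((Q : Subgroup G) : Set G)) = 15 ∨
        Nat.card (centralizer ((Q : Subgroup G) : Set G)) = 30 := by
      rcases hr5 with rfl | rfl | rfl
      · exact absurd rfl hr51
      · right; omega
      · left; omega
    obtain ⟨v, hvC, hv⟩ := exists_mem_orderOf_eq_prime
      (centralizer ((Q : Subgroup G) : Set G)) 3
      (by rcases hC1530 with e | e <;> rw [e] <;> norm_num)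
    have h1 := card_fixedBy_mod_of_mem_centralizer Q hQ v hvC
    have hv3 : v ^ (3 ^ 1) = 1 := by rw [pow_one, ← hv]; exact pow_orderOf_eq_one v
    have h2 := card_modEq_card_fixedBy
      (X := G ⧸ normalizer ((Q : Subgroup G) : Set G)) v hv3
    have hv1 : v ≠ 1 := by
      rintro rfl
      rw [orderOf_one] at hv
      omega
    have h3 := card_fixedBy_lt_index _ (normalizer_sylow_ne_top hG h5 Q) v hv1
    have hX : Nat.card (G ⧸ normalizer ((Q : Subgroup G) : Set G)) = 66 := hidx5.trans hn5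
    rw [hidx5, hn5] at h3
    rw [hX, Nat.ModEq] at h2
    have h4 := card_mul_card_fixedBy (normalizer ((Q : Subgroup G) : Set G)) v
    rw [hN60] at h4
    obtain ⟨hk2, hkinv⟩ := conj_count60 (Q : Subgroup G) hQ hC1530 hN60 v hv hvC
    have hcvd : Nat.card (centralizer ({v} : Set G)) ∣ 3960 :=
      h ▸ (centralizer ({v} : Set G)).card_subgroup_dvd_card
    have hFk := keyF _ h3 h1 (by omega)
    generalize hF : Nat.card (fixedBy (G ⧸ normalizer ((Q : Subgroup G) : Set G)) v) = F
      at h1 h2 h3 h4 hFk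
    generalize hk : {s : G | s ∈ normalizer ((Q : Subgroup G) : Set G) ∧
      ∃ g : G, g * v * g⁻¹ = s}.ncard = k at h4 hk2 hkinv
    have hk0 : k ≠ 0 := by
      rintro rfl
      omega
    rcases (by omega : k = 1 ∨ k = 2) with hk1 | hk2'
    · rw [hk1, mul_one] at h4
      have hF6 : F = 6 := hFk.1 (by rw [h4]; exact hcvd)
      exact key (centralizer ({v} : Set G)) (by omega)
    · rw [hk2'] at h4
      have hF6 : F = 6 := hFk.2 (by
        have e : 30 * F = Nat.card (centralizer ({v} : Set G)) := by omega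
        rw [e]
        exact hcvd)
      obtain ⟨g, hg⟩ := hkinv hk2'
      have hN := card_normalizer_zpowers v g hv hg
      exact key (normalizer ((zpowers v : Subgroup G) : Set G)) (by omega)
  · -- 396
    rw [hn5] at hNn5
    have hN10 : Nat.card (normalizer ((Q : Subgroup G) : Set G)) = 5 * 2 := by omega
    have hC5 : Nat.card (centralizer ((Q : Subgroup G) : Set G)) = 5 := by
      rcases hr5 with rfl | rfl | rfl <;> omega
    exact case396 hG h Q hQ hC5 hN10

end Cfsg.Agent.Lib.Helper82.O3960
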