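import Mathlib
import Cfsg.Agent.Lib.Helper17.CentFix
import Cfsg.Agent.Lib.Helper17.FixedPoints
import Cfsg.Agent.Lib.Helper17.ExcSimple
import Cfsg.Agent.Lib.Helper17.ExcTwo

/-!
# Piece O4620 of S0983: no simple group of order `4620 = 2^2 * 3 * 5 * 7 * 11`
-/

set_option autoImplicit false

namespace Cfsg.Agent.Lib.Helper82.O4620

open Cfsg Subgroup MulAction
open Cfsg.Agent.Lib.CT.Wedderburn
open Cfsg.Agent.Lib.Helper17.Sylow Cfsg.Agent.Lib.Helper17.Sylow2
open Cfsg.Agent.Lib.Helper17.CentFix Cfsg.Agent.Lib.Helper17.Commuting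
open Cfsg.Agent.Lib.Helper17.ExcSimple
open Nat

theorem key11 : ∀ n ∈ Nat.divisors 420, n % 11 = 1 → n ≠ 1 → n = 12 ∨ n = 210 := by
  decide +kernel

theorem key7 : ∀ n ∈ Nat.divisors 660, n % 7 = 1 → n ≠ 1 → n = 15 ∨ n = 22 ∨ n = 330 := by
  decide +kernel

theorem keyr10 : ∀ r ∈ Nat.divisors 10, r = 1 ∨ r = 2 ∨ r = 5 ∨ r = 10 := by
  decide

theorem keyr6 : ∀ r ∈ Nat.divisors 6, r = 1 ∨ r = 2 ∨ r = 3 ∨ r = 6 := by
  decide

theorem keydeg7 : ∀ D ∈ Nat.divisors 4620, D ≠ 1 →
    ((D % 7 = 1 ∧ (D + 1) ∣ 4620) ∨ (D % 7 = 6 ∧ (D - 1) ∣ 4620)) → D = 6 := by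
  decide +kernel

theorem keydeg11 : ∀ D ∈ Nat.divisors 4620, D ≠ 1 →
    ((D % 11 = 1 ∧ (D + 1) ∣ 4620) ∨ (D % 11 = 10 ∧ (D - 1) ∣ 4620)) → D = 21 := by
  decide +kernel

/-- No finite simple group has order 4620 = 2^2 * 3 * 5 * 7 * 11. -/
theorem no_simple {G : Type*} [Group G] [Finite G] [IsSimpleGroup G] : Nat.card G ≠ 4620 := by
  intro h
  classical
  have hG : ¬ IsMulCommutative G := not_comm_of_not_prime (by rw [h]; norm_num)
  have : Fact (Nat.Prime 11) := ⟨by norm_num⟩
  have : Fact (Nat.Prime 7) := ⟨by norm_num⟩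
  have : Fact (Nat.Prime 5) := ⟨by norm_num⟩
  have h11 : 11 ∣ Nat.card G := by rw [h]; norm_num
  have h7 : 7 ∣ Nat.card G := by rw [h]; norm_num
  -- the Sylow 11-subgroup
  have hd11 : Nat.card (Sylow 11 G) ∣ 420 :=
    card_sylow_dvd (k := 1) (h.trans (by norm_num)) (by norm_num)
  have hm11 := card_sylow_mod (G := G) 11
  have hne11 := card_sylow_ne_one hG h11
  obtain ⟨P⟩ : Nonempty (Sylow 11 G) := inferInstance
  have hP : Nat.card (P : Subgroup G) = 11 := by
    simpa using card_sylow_subgroup (k := 1) (m := 420) (h.trans (by norm_num)) (by norm_num) P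
  have hNn := card_normalizer_mul_card_sylow P
  rw [h] at hNn
  have hidx : (normalizer ((P : Subgroup G) : Set G)).index = Nat.card (Sylow 11 G) :=
    (P.card_eq_index_normalizer).symm
  obtain ⟨r, hr1, hr10, hCr, hC11⟩ := sylow_prime_centralizer hG P hP
  have hr := keyr10 r (Nat.mem_divisors.mpr ⟨hr10, by norm_num⟩)
  have hPdata : Nat.card (centralizer ((P : Subgroup G) : Set G)) = 11 ∧
      Nat.card (normalizer ((P : Subgroup G) : Set G)) = 11 * 2 := by
    rcases key11 _ (Nat.mem_divisors.mpr ⟨hd11, by norm_num⟩) hm11 hne11 with hn | hn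
    · -- n = 12, |N| = 385, |C| = 77
      exfalso
      rw [hn] at hNn
      have hC7 : 7 ∣ Nat.card (centralizer ((P : Subgroup G) : Set G)) := by
        rcases hr with rfl | rfl | rfl | rfl <;> omega
      obtain ⟨u, huC, hu⟩ :=
        exists_mem_orderOf_eq_prime (centralizer ((P : Subgroup G) : Set G)) 7 hC7
      have h1 := card_fixedBy_mod_of_mem_centralizer P hP u huC
      have hu7 : u ^ (7 ^ 1) = 1 := by rw [pow_one, ← hu]; exact pow_orderOf_eq_one u
      have h2 := card_modEq_card_fixedBy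
        (X := G ⧸ normalizer ((P : Subgroup G) : Set G)) u hu7
      have hu1 : u ≠ 1 := by
        rintro rfl
        rw [orderOf_one] at hu
        omega
      have h3 := card_fixedBy_lt_index _ (normalizer_sylow_ne_top hG h11 P) u hu1
      have hX : Nat.card (G ⧸ normalizer ((P : Subgroup G) : Set G)) = 12 := hidx.trans hn
      rw [hidx, hn] at h3
      rw [hX, Nat.ModEq] at h2
      omega
    · -- n = 210, |N| = 22
      rw [hn] at hNn
      rcases hr with rfl | rfl | rfl | rfl <;> constructor <;> omega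
  -- the Sylow 7-subgroup
  have hd7 : Nat.card (Sylow 7 G) ∣ 660 :=
    card_sylow_dvd (k := 1) (h.trans (by norm_num)) (by norm_num)
  have hm7 := card_sylow_mod (G := G) 7
  have hne7 := card_sylow_ne_one hG h7
  obtain ⟨Q⟩ : Nonempty (Sylow 7 G) := inferInstance
  have hQ : Nat.card (Q : Subgroup G) = 7 := by
    simpa using card_sylow_subgroup (k := 1) (m := 660) (h.trans (by norm_num)) (by norm_num) Q
  have hNnQ := card_normalizer_mul_card_sylow Q
  rw [h] at hNnQ
  have hidxQ : (normalizer ((Q : Subgroup G) : Set G)).index = Nat.card (Sylow 7 G) :=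
    (Q.card_eq_index_normalizer).symm
  obtain ⟨s, hs1, hs6, hCs, hC7⟩ := sylow_prime_centralizer hG Q hQ
  have hs := keyr6 s (Nat.mem_divisors.mpr ⟨hs6, by norm_num⟩)
  have hQdata : Nat.card (centralizer ((Q : Subgroup G) : Set G)) = 7 ∧
      Nat.card (normalizer ((Q : Subgroup G) : Set G)) = 7 * 2 := by
    rcases key7 _ (Nat.mem_divisors.mpr ⟨hd7, by norm_num⟩) hm7 hne7 with hn | hn | hn
    · -- n = 15, |N| = 308, |C| = 154
      exfalso
      rw [hn] at hNnQ
      have hC11' : 11 ∣ Nat.card (centralizer ((Q : Subgroup G) : Set G)) := by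
        rcases hs with rfl | rfl | rfl | rfl <;> omega
      obtain ⟨u, huC, hu⟩ :=
        exists_mem_orderOf_eq_prime (centralizer ((Q : Subgroup G) : Set G)) 11 hC11'
      have h1 := card_fixedBy_mod_of_mem_centralizer Q hQ u huC
      have hu11 : u ^ (11 ^ 1) = 1 := by rw [pow_one, ← hu]; exact pow_orderOf_eq_one u
      have h2 := card_modEq_card_fixedBy
        (X := G ⧸ normalizer ((Q : Subgroup G) : Set G)) u hu11
      have hu1 : u ≠ 1 := by
        rintro rfl
        rw [orderOf_one] at hu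
        omega
      have h3 := card_fixedBy_lt_index _ (normalizer_sylow_ne_top hG h7 Q) u hu1
      have hX : Nat.card (G ⧸ normalizer ((Q : Subgroup G) : Set G)) = 15 := hidxQ.trans hn
      rw [hidxQ, hn] at h3
      rw [hX, Nat.ModEq] at h2
      omega
    · -- n = 22, |N| = 210, 5 ∣ |C|
      exfalso
      rw [hn] at hNnQ
      have hC5 : 5 ∣ Nat.card (centralizer ((Q : Subgroup G) : Set G)) := by
        rcases hs with rfl | rfl | rfl | rfl <;> omega
      obtain ⟨u, huC, hu⟩ :=
        exists_mem_orderOf_eq_prime (centralizer ((Q : Subgroup G) : Set G)) 5 hC5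
      have h1 := card_fixedBy_mod_of_mem_centralizer Q hQ u huC
      have hu5 : u ^ (5 ^ 1) = 1 := by rw [pow_one, ← hu]; exact pow_orderOf_eq_one u
      have h2 := card_modEq_card_fixedBy
        (X := G ⧸ normalizer ((Q : Subgroup G) : Set G)) u hu5
      have hu1 : u ≠ 1 := by
        rintro rfl
        rw [orderOf_one] at hu
        omega
      have h3 := card_fixedBy_lt_index _ (normalizer_sylow_ne_top hG h7 Q) u hu1
      have hX : Nat.card (G ⧸ normalizer ((Q : Subgroup G) : Set G)) = 22 := hidxQ.trans hn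
      rw [hidxQ, hn] at h3
      rw [hX, Nat.ModEq] at h2
      omega
    · -- n = 330, |N| = 14
      rw [hn] at hNnQ
      rcases hs with rfl | rfl | rfl | rfl <;> constructor <;> omega
  -- exceptional characters
  have hGfin : Fintype G := Fintype.ofFinite G
  have hIrr : Finite (IrrCharacter G) := finite_irrCharacter G
  have hIrrF : Fintype (IrrCharacter G) := Fintype.ofFinite _
  have hp7 : Nat.Prime 7 := by norm_num
  have hp11 : Nat.Prime 11 := by norm_num
  obtain ⟨n, ε, δ, θ, χ, i₀, -, -, -, hε, hδ, hχT, -, -, ⟨a, ha⟩, heq, -, -, -⟩ :=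
    Cfsg.Agent.Lib.Helper17.ExcTwo.exceptional_two' (Q : Subgroup G) hp7 hQ
      (centralizer_le_of_card (Q : Subgroup G) hp7 hQ hQdata.1) hQdata.2 (by norm_num)
  have hD1 := charDegree_ne_one hG χ hχT
  have hDdvd : charDegree (χ : G → ℂ) ∣ 4620 :=
    h ▸ Cfsg.Agent.Lib.Helper80.Integrality.charDegree_dvd_card χ
  have hddvd : charDegree ((θ i₀ : IrrCharacter G) : G → ℂ) ∣ 4620 :=
    h ▸ Cfsg.Agent.Lib.Helper80.Integrality.charDegree_dvd_card (θ i₀)
  have hDpos : 0 < charDegree (χ : G → ℂ) := irr_charDegree_pos χ.2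
  have hdpos : 0 < charDegree ((θ i₀ : IrrCharacter G) : G → ℂ) := irr_charDegree_pos (θ i₀).2
  have hD6 : charDegree (χ : G → ℂ) = 6 := by
    apply keydeg7 _ (Nat.mem_divisors.mpr ⟨hDdvd, by norm_num⟩) hD1
    rcases hδ with rfl | rfl <;> rcases hε with rfl | rfl
    · left
      refine ⟨by omega, ?_⟩
      have h0 : charDegree (χ : G → ℂ) + 1 = charDegree ((θ i₀ : IrrCharacter G) : G → ℂ) := by
        omega
      rw [h0]
      exact hddvd
    · exfalso; omega
    · exfalso; omega
    · right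
      refine ⟨by omega, ?_⟩
      have h0 : charDegree (χ : G → ℂ) - 1 = charDegree ((θ i₀ : IrrCharacter G) : G → ℂ) := by
        omega
      rw [h0]
      exact hddvd
  obtain ⟨n', ε', δ', θ', χ', i₀', -, -, hdiv, hε', hδ', hχT', -, -, ⟨a', ha'⟩, heq', -, hone,
    -⟩ :=
    Cfsg.Agent.Lib.Helper17.ExcTwo.exceptional_two' (P : Subgroup G) hp11 hP
      (centralizer_le_of_card (P : Subgroup G) hp11 hP hPdata.1) hPdata.2 (by norm_num)
  have hD1' := charDegree_ne_one hG χ' hχT'
  have hDdvd' : charDegree (χ' : G → ℂ) ∣ 4620 :=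
    h ▸ Cfsg.Agent.Lib.Helper80.Integrality.charDegree_dvd_card χ'
  have hddvd' : charDegree ((θ' i₀' : IrrCharacter G) : G → ℂ) ∣ 4620 :=
    h ▸ Cfsg.Agent.Lib.Helper80.Integrality.charDegree_dvd_card (θ' i₀')
  have hDpos' : 0 < charDegree (χ' : G → ℂ) := irr_charDegree_pos χ'.2
  have hdpos' : 0 < charDegree ((θ' i₀' : IrrCharacter G) : G → ℂ) :=
    irr_charDegree_pos (θ' i₀').2
  have hD21 : charDegree (χ' : G → ℂ) = 21 := by
    apply keydeg11 _ (Nat.mem_divisors.mpr ⟨hDdvd', by norm_num⟩) hD1'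
    rcases hδ' with rfl | rfl <;> rcases hε' with rfl | rfl
    · left
      refine ⟨by omega, ?_⟩
      have h0 : charDegree (χ' : G → ℂ) + 1 =
          charDegree ((θ' i₀' : IrrCharacter G) : G → ℂ) := by omega
      rw [h0]
      exact hddvd'
    · exfalso; omega
    · exfalso; omega
    · right
      refine ⟨by omega, ?_⟩
      have h0 : charDegree (χ' : G → ℂ) - 1 =
          charDegree ((θ' i₀' : IrrCharacter G) : G → ℂ) := by omega
      rw [h0]
      exact hddvd'
  have hd20 : charDegree ((θ' i₀' : IrrCharacter G) : G → ℂ) = 20 := by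
    rcases hδ' with rfl | rfl <;> rcases hε' with rfl | rfl <;> omega
  -- the character of degree 6 against the 11-block data
  by_cases hχχ' : χ = χ'
  · rw [hχχ'] at hD6
    omega
  · by_cases hθ : ∀ i, θ' i ≠ χ
    · obtain ⟨b, hb⟩ := hdiv χ hχT hχχ' hθ
      rw [hD6] at hb
      omega
    · push Not at hθ
      obtain ⟨i, hi⟩ := hθ
      have h1 : charDegree ((θ' i : IrrCharacter G) : G → ℂ) =
          charDegree ((θ' i₀' : IrrCharacter G) : G → ℂ) := by
        unfold charDegree
        rw [hone i i₀']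
      rw [hi, hD6, hd20] at h1
      omega

end Cfsg.Agent.Lib.Helper82.O4620
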