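import Mathlib
import Cfsg.Prelude.Def_Local
import Cfsg.Prelude.Def_Transfer
import Cfsg.Agent.Lib.Helper2.PComp

/-!
# `p`-subgroups all of whose nonidentity elements are conjugate

* `pow_eq_one_of_conj`: such a subgroup has exponent dividing `p`;
* `comm_of_pSolvable`: in a `p`-soluble group such a subgroup is commutative;
* `commute_of_pnil_of_mem`: in a subgroup `H` with a normal `p`-complement, a `p`-regular
  element of `H` normalising a `p`-subgroup `T` commutes with the elements of `T ∩ H`;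
* `comm_of_pnil_centralizers`: for `p` odd, a Sylow `p`-subgroup `P` all of whose nonidentity
  elements are conjugate in `G` and have centralisers with a normal `p`-complement is
  commutative (an element of `N_G(P)` inverting a central element of `P` acts on `P` without
  fixed points and its square centralises `P`).
-/

set_option autoImplicit false

namespace Cfsg.Agent.Lib.Helper82.OneClass

open Cfsg

variable {G : Type*} [Group G]

theorem orderOf_eq_of_isConj {x y : G} (h : IsConj x y) : orderOf x = orderOf y := by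
  obtain ⟨g, rfl⟩ := isConj_iff.mp h
  exact (orderOf_injective (MulAut.conj g).toMonoidHom (MulAut.conj g).injective x).symm

/-- A `p`-subgroup all of whose nonidentity elements are conjugate has exponent dividing `p`. -/
theorem pow_eq_one_of_conj {p : ℕ} [Fact p.Prime] (D : Subgroup G) (hD : IsPGroup p D)
    (hconj : ∀ u ∈ D, u ≠ 1 → ∀ u' ∈ D, u' ≠ 1 → IsConj u u') : ∀ a ∈ D, a ^ p = 1 := by
  have hp : p.Prime := Fact.out
  intro a ha
  by_cases ha1 : a = 1
  · rw [ha1, one_pow]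
  obtain ⟨k, hk⟩ := (IsPGroup.iff_orderOf.mp hD) ⟨a, ha⟩
  rw [Subgroup.orderOf_mk] at hk
  have hk0 : k ≠ 0 := by
    rintro rfl
    rw [pow_zero, orderOf_eq_one_iff] at hk
    exact ha1 hk
  have hy : orderOf (a ^ (p ^ (k - 1))) = p := by
    have h1 : p ^ (k - 1) * p = p ^ k := by
      rw [← pow_succ]
      congr 1
      omega
    have h3 := orderOf_pow_orderOf_div (x := a) (n := p)
      (by rw [hk]; exact (pow_pos hp.pos k).ne') (by rw [hk]; exact dvd_pow_self p hk0)
    rw [hk] at h3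
    have h2 : p ^ k / p = p ^ (k - 1) := by
      rw [← h1]
      exact Nat.mul_div_cancel _ hp.pos
    rwa [h2] at h3
  have hyD : a ^ (p ^ (k - 1)) ∈ D := D.pow_mem ha _
  have hy1 : a ^ (p ^ (k - 1)) ≠ 1 := by
    intro h
    rw [h, orderOf_one] at hy
    exact hp.one_lt.ne hy
  have h4 := orderOf_eq_of_isConj (hconj a ha ha1 _ hyD hy1)
  rw [hy] at h4
  rw [← h4]
  exact pow_orderOf_eq_one a

/-- In a `p`-soluble group, a `p`-subgroup all of whose nonidentity elements are conjugate is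
commutative. -/
theorem comm_of_pSolvable [Finite G] {p : ℕ} [Fact p.Prime] (hps : IsPSolvable p G)
    (D : Subgroup G) (hD : IsPGroup p D)
    (hconj : ∀ u ∈ D, u ≠ 1 → ∀ u' ∈ D, u' ≠ 1 → IsConj u u') :
    ∀ a ∈ D, ∀ b ∈ D, a * b = b * a := by
  classical
  have hp : p.Prime := Fact.out
  by_contra hcon
  push Not at hcon
  obtain ⟨a, ha, b, hb, hab⟩ := hcon
  have hwD : a * b * a⁻¹ * b⁻¹ ∈ D :=
    D.mul_mem (D.mul_mem (D.mul_mem ha hb) (D.inv_mem ha)) (D.inv_mem hb)
  have hw1 : a * b * a⁻¹ * b⁻¹ ≠ 1 := by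
    intro h
    apply hab
    have h2 : a * b = (a * b * a⁻¹ * b⁻¹) * (b * a) := by group
    rw [h2, h, one_mul]
  obtain ⟨M, hM⟩ := exists_minimal_of_wellFoundedLT
    (fun M : Subgroup G => M.Normal ∧ ∃ u ∈ D, u ≠ 1 ∧ u ∈ M)
    ⟨⊤, inferInstance, _, hwD, hw1, Subgroup.mem_top _⟩
  obtain ⟨⟨hMn, u₀, hu₀D, hu₀1, hu₀M⟩, hMmin⟩ := hM
  have hDM : D ≤ M := by
    intro d hd
    by_cases hd1 : d = 1
    · rw [hd1]
      exact M.one_mem
    · obtain ⟨g, hg⟩ := isConj_iff.mp (hconj u₀ hu₀D hu₀1 d hd hd1)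
      rw [← hg]
      exact hMn.conj_mem _ hu₀M g
  have hmin' : ∀ M' : Subgroup G, M'.Normal → M' ≤ M → (∃ u ∈ D, u ≠ 1 ∧ u ∈ M') → M ≤ M' :=
    fun M' h1 h2 h3 => hMmin ⟨h1, h3⟩ h2
  obtain ⟨n, H, h0, hlast, hmono, hnormal, hidx⟩ := hps
  have hex : ∃ i : ℕ, ∃ hi : i < n + 1, M ≤ H ⟨i, hi⟩ := by
    refine ⟨n, Nat.lt_succ_self n, ?_⟩
    have h1 : (⟨n, Nat.lt_succ_self n⟩ : Fin (n + 1)) = Fin.last n := rfl
    rw [h1, hlast]
    exact le_top
  obtain ⟨hi, hMi⟩ := Nat.find_spec hex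
  have hi0 : Nat.find hex ≠ 0 := by
    intro h0'
    have h1 : (⟨Nat.find hex, hi⟩ : Fin (n + 1)) = 0 := Fin.ext h0'
    rw [h1, h0] at hMi
    exact hu₀1 (Subgroup.mem_bot.mp (hMi hu₀M))
  obtain ⟨j, hj⟩ := Nat.exists_eq_succ_of_ne_zero hi0
  have hjn : j < n := by omega
  have hnot : ¬ M ≤ H (Fin.castSucc ⟨j, hjn⟩) := by
    intro h
    have h1 := Nat.find_min hex (m := j) (by omega)
    exact h1 ⟨by omega, h⟩
  have hML : M ≤ H (Fin.succ ⟨j, hjn⟩) := by
    have h1 : (⟨Nat.find hex, hi⟩ : Fin (n + 1)) = Fin.succ ⟨j, hjn⟩ := Fin.ext hj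
    rwa [h1] at hMi
  obtain ⟨K, hKdef⟩ : ∃ K : Subgroup G, K = H (Fin.castSucc ⟨j, hjn⟩) := ⟨_, rfl⟩
  obtain ⟨L, hLdef⟩ : ∃ L : Subgroup G, L = H (Fin.succ ⟨j, hjn⟩) := ⟨_, rfl⟩
  rw [← hKdef] at hnot
  rw [← hLdef] at hML
  have hKn : K.Normal := by
    rw [hKdef]
    exact hnormal _
  have hDK : ∀ u ∈ D, u ∈ K → u = 1 := by
    intro u huD huK
    by_contra hu1
    have h1 := hmin' (M ⊓ K) inferInstance inf_le_left ⟨u, huD, hu1, ⟨hDM huD, huK⟩⟩
    exact hnot (h1.trans inf_le_right)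
  have hidxj := hidx ⟨j, hjn⟩
  rw [← hKdef, ← hLdef] at hidxj
  have hpowmem : ∀ x ∈ L, x ^ K.relIndex L ∈ K := by
    intro x hx
    have h1 := Subgroup.pow_index_mem (K.subgroupOf L) (⟨x, hx⟩ : L)
    exact Subgroup.mem_subgroupOf.mp h1
  rcases hidxj with ⟨m, hm⟩ | hcop
  · -- the factor is a `p`-group
    have hM2 : M ≤ ⁅M, M⁆ ⊔ (M ⊓ K) := by
      apply hmin' _ inferInstance (sup_le (Subgroup.commutator_le_left M M) inf_le_left)
      refine ⟨a * b * a⁻¹ * b⁻¹, hwD, hw1, Subgroup.mem_sup_left ?_⟩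
      exact Subgroup.commutator_mem_commutator (hDM ha) (hDM hb)
    have hQp : IsPGroup p (↥M ⧸ (K.subgroupOf M)) := by
      intro q
      obtain ⟨x, rfl⟩ := QuotientGroup.mk_surjective q
      refine ⟨m, ?_⟩
      rw [← QuotientGroup.mk_pow, QuotientGroup.eq_one_iff, Subgroup.mem_subgroupOf]
      have h1 := hpowmem (x : G) (hML x.2)
      rw [hm] at h1
      exact_mod_cast h1
    have hQnt : Nontrivial (↥M ⧸ (K.subgroupOf M)) := by
      by_contra hnt
      rw [not_nontrivial_iff_subsingleton] at hnt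
      apply hnot
      intro x hx
      have h1 : (QuotientGroup.mk (⟨x, hx⟩ : M) : ↥M ⧸ (K.subgroupOf M)) = 1 :=
        Subsingleton.elim _ _
      rw [QuotientGroup.eq_one_iff, Subgroup.mem_subgroupOf] at h1
      exact h1
    have hQnil : Group.IsNilpotent (↥M ⧸ (K.subgroupOf M)) := hQp.isNilpotent
    have hlt := Group.IsSolvable.commutator_lt_top_of_nontrivial (↥M ⧸ (K.subgroupOf M))
    apply hlt.ne
    rw [eq_top_iff]
    have h1 : ⁅M, M⁆ ⊔ (M ⊓ K) ≤ ((commutator (↥M ⧸ (K.subgroupOf M))).comap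
        (QuotientGroup.mk' (K.subgroupOf M))).map M.subtype := by
      apply sup_le
      · rw [← Subgroup.map_subtype_commutator]
        apply Subgroup.map_mono
        rw [← Subgroup.map_le_iff_le_comap, commutator_def, commutator_def, Subgroup.map_commutator]
        exact Subgroup.commutator_mono le_top le_top
      · intro z hz
        refine ⟨⟨z, hz.1⟩, ?_, rfl⟩
        have h2 : (QuotientGroup.mk' (K.subgroupOf M)) ⟨z, hz.1⟩ = 1 := by
          rw [QuotientGroup.mk'_apply, QuotientGroup.eq_one_iff, Subgroup.mem_subgroupOf]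
          exact hz.2
        rw [SetLike.mem_coe, Subgroup.mem_comap, h2]
        exact one_mem _
    intro q _
    obtain ⟨x, rfl⟩ := QuotientGroup.mk_surjective q
    obtain ⟨y, hy, hyx⟩ := h1 (hM2 x.2)
    have h3 : y = x := Subtype.ext hyx
    rw [← h3]
    exact hy
  · -- the factor is a `p'`-group
    have hu₀L : u₀ ∈ L := hML hu₀M
    have h1 := hDK _ (D.pow_mem hu₀D _) (hpowmem u₀ hu₀L)
    have hdvd : orderOf u₀ ∣ K.relIndex L := orderOf_dvd_of_pow_eq_one h1
    obtain ⟨k, hk⟩ := (IsPGroup.iff_orderOf.mp hD) ⟨u₀, hu₀D⟩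
    rw [Subgroup.orderOf_mk] at hk
    have hk0 : k ≠ 0 := by
      rintro rfl
      rw [pow_zero, orderOf_eq_one_iff] at hk
      exact hu₀1 hk
    have hpd : p ∣ K.relIndex L := by
      rw [hk] at hdvd
      exact (dvd_pow_self p hk0).trans hdvd
    have h2 : p ∣ 1 := by
      have h3 := Nat.Coprime.gcd_eq_one hcop
      rw [Nat.gcd_eq_right hpd] at h3
      rw [h3]
    exact hp.one_lt.ne' (Nat.dvd_one.mp h2)

/-- In a subgroup `H` with a normal `p`-complement, a `p`-regular element `a` of `H` normalising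
a `p`-subgroup `T` commutes with every element of `T ∩ H`. -/
theorem commute_of_pnil_of_mem [Finite G] {p : ℕ} [Fact p.Prime] (H : Subgroup G)
    (h : HasNormalPComplement p ↥H) (T : Subgroup G) (hT : IsPGroup p T) (a : G) (haH : a ∈ H)
    (ha : (orderOf a).Coprime p) (haT : ∀ t ∈ T, a⁻¹ * t * a ∈ T) (c : G) (hcH : c ∈ H)
    (hcT : c ∈ T) : a * c = c * a := by
  have hp : p.Prime := Fact.out
  obtain ⟨P, N, hN, hc⟩ := h
  have haN : (⟨a, haH⟩ : H) ∈ N :=
    Cfsg.Agent.Lib.Helper2.PComp.mem_of_coprime_orderOf P N hc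
      (by rw [Subgroup.orderOf_mk]; exact ha)
  have hwN : (⟨a, haH⟩ : H)⁻¹ * ((⟨c, hcH⟩ : H)⁻¹ * ⟨a, haH⟩ * ⟨c, hcH⟩) ∈ N := by
    apply N.mul_mem (N.inv_mem haN)
    have h1 := hN.conj_mem _ haN (⟨c, hcH⟩ : H)⁻¹
    rwa [inv_inv] at h1
  have h3 := Cfsg.Agent.Lib.Helper2.PComp.coprime_orderOf_of_mem P N hc hwN
  rw [← Subgroup.orderOf_coe] at h3
  have hwT : a⁻¹ * (c⁻¹ * a * c) ∈ T := by
    have h1 : a⁻¹ * (c⁻¹ * a * c) = (a⁻¹ * c⁻¹ * a) * c := by group
    rw [h1]
    exact T.mul_mem (haT _ (T.inv_mem hcT)) hcT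
  obtain ⟨i, hi⟩ := (IsPGroup.iff_orderOf.mp hT) ⟨_, hwT⟩
  rw [Subgroup.orderOf_mk] at hi
  have h4 : orderOf (a⁻¹ * (c⁻¹ * a * c)) = 1 := by
    have h5 : (orderOf (a⁻¹ * (c⁻¹ * a * c))).Coprime p := h3
    rw [hi] at h5 ⊢
    by_cases hi0 : i = 0
    · rw [hi0, pow_zero]
    · exfalso
      have h6 : p ∣ 1 := by
        have h7 := Nat.Coprime.gcd_eq_one h5
        rw [Nat.gcd_eq_right (dvd_pow_self p hi0)] at h7
        rw [h7]
      exact hp.one_lt.ne' (Nat.dvd_one.mp h6)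
  rw [orderOf_eq_one_iff] at h4
  have h8 : a * c = c * (a * (a⁻¹ * (c⁻¹ * a * c))) := by group
  rw [h8, h4, mul_one]

/-- For `p` odd: a Sylow `p`-subgroup all of whose nonidentity elements are conjugate in `G` and
have centralisers with a normal `p`-complement is commutative. -/
theorem comm_of_pnil_centralizers [Finite G] {p : ℕ} [Fact p.Prime] (hp2 : p ≠ 2) (P : Sylow p G)
    (hconj : ∀ u ∈ (P : Subgroup G), u ≠ 1 → ∀ u' ∈ (P : Subgroup G), u' ≠ 1 → IsConj u u')
    (hnil : ∀ v ∈ (P : Subgroup G), v ≠ 1 →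
      HasNormalPComplement p ↥(Subgroup.centralizer ({v} : Set G))) :
    ∀ a ∈ (P : Subgroup G), ∀ b ∈ (P : Subgroup G), a * b = b * a := by
  classical
  have hp : p.Prime := Fact.out
  have hPp : IsPGroup p (P : Subgroup G) := P.isPGroup'
  by_cases hbot : ∀ x ∈ (P : Subgroup G), x = 1
  · intro a ha b hb
    rw [hbot a ha, hbot b hb]
  push Not at hbot
  obtain ⟨x₀, hx₀P, hx₀1⟩ := hbot
  have hPnt : Nontrivial (P : Subgroup G) :=
    ⟨⟨⟨x₀, hx₀P⟩, 1, fun h => hx₀1 (congrArg Subtype.val h)⟩⟩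
  have hZnt := hPp.center_nontrivial
  obtain ⟨z', hz'1⟩ := exists_ne (1 : Subgroup.center (P : Subgroup G))
  obtain ⟨z, hzdef⟩ : ∃ z : G, z = ((z' : (P : Subgroup G)) : G) := ⟨_, rfl⟩
  have hzP : z ∈ (P : Subgroup G) := by
    rw [hzdef]
    exact (z' : (P : Subgroup G)).2
  have hz1 : z ≠ 1 := by
    intro h
    apply hz'1
    apply Subtype.ext
    apply Subtype.ext
    rw [← hzdef, h]
    rfl
  have hzc : ∀ c ∈ (P : Subgroup G), c * z = z * c := by
    intro c hc
    have h1 := Subgroup.mem_center_iff.mp z'.2 ⟨c, hc⟩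
    have h2 := congrArg Subtype.val h1
    rw [hzdef]
    exact h2
  have hzinv : z⁻¹ ≠ z := by
    intro h
    have h2 : z ^ 2 = 1 := by
      rw [pow_two]
      nth_rewrite 1 [← h]
      exact inv_mul_cancel z
    obtain ⟨k, hk⟩ := (IsPGroup.iff_orderOf.mp hPp) ⟨z, hzP⟩
    rw [Subgroup.orderOf_mk] at hk
    have hd : orderOf z ∣ 2 := orderOf_dvd_of_pow_eq_one h2
    rw [hk] at hd
    have hk0 : k = 0 := by
      by_contra hk0
      have h3 : p ∣ 2 := (dvd_pow_self p hk0).trans hd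
      exact hp2 ((Nat.prime_dvd_prime_iff_eq hp Nat.prime_two).mp h3)
    rw [hk0, pow_zero, orderOf_eq_one_iff] at hk
    exact hz1 hk
  -- an element of the normaliser inverting `z`
  obtain ⟨g, hg⟩ := isConj_iff.mp (hconj z hzP hz1 z⁻¹ ((P : Subgroup G).inv_mem hzP)
    (inv_ne_one.mpr hz1))
  have hzcent : z ∈ Subgroup.centralizer ((P : Subgroup G) : Set G) := by
    rw [Subgroup.mem_centralizer_iff]
    intro c hc
    exact hzc c hc
  have hzicent : g⁻¹⁻¹ * z * g⁻¹ ∈ Subgroup.centralizer ((P : Subgroup G) : Set G) := by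
    rw [inv_inv, hg]
    exact inv_mem hzcent
  obtain ⟨n, hnN, hn⟩ := P.conj_eq_normalizer_conj_of_mem_centralizer z g⁻¹ hzcent hzicent
  rw [inv_inv, hg] at hn
  -- `hn : z⁻¹ = n⁻¹ * z * n`
  have hpow : ∀ k : ℕ, (n ^ k)⁻¹ * z * n ^ k = if Even k then z else z⁻¹ := by
    intro k
    induction k with
    | zero => simp
    | succ k ih =>
      have h1 : (n ^ (k + 1))⁻¹ * z * n ^ (k + 1) = n⁻¹ * ((n ^ k)⁻¹ * z * n ^ k) * n := by
        rw [pow_succ]
        group
      rw [h1, ih]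
      by_cases hk : Even k
      · have hk' : ¬ Even (k + 1) := by
          rw [Nat.even_add_one]
          exact not_not.mpr hk
        rw [if_pos hk, if_neg hk', ← hn]
      · have hk' : Even (k + 1) := by
          rw [Nat.even_add_one]
          exact hk
        rw [if_neg hk, if_pos hk']
        have h2 : n⁻¹ * z⁻¹ * n = (n⁻¹ * z * n)⁻¹ := by group
        rw [h2, ← hn, inv_inv]
  have hcardG : Nat.card G ≠ 0 := Nat.card_pos.ne'
  obtain ⟨q, hqdef⟩ : ∃ q : ℕ, q = p ^ (Nat.card G).factorization p := ⟨_, rfl⟩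
  have hqodd : ¬ Even q := by
    rw [hqdef, Nat.not_even_iff_odd]
    exact Odd.pow (hp.eq_two_or_odd'.resolve_left hp2)
  obtain ⟨n', hn'def⟩ : ∃ n' : G, n' = n ^ q := ⟨_, rfl⟩
  have hn'N : n' ∈ Subgroup.normalizer ((P : Subgroup G) : Set G) := by
    rw [hn'def]
    exact Subgroup.pow_mem _ hnN q
  have hn'z : n'⁻¹ * z * n' = z⁻¹ := by
    rw [hn'def, hpow q, if_neg hqodd]
  have hn'ord : (orderOf n').Coprime p := by
    have h1 : n' ^ (Nat.card G / q) = 1 := by
      rw [hn'def, ← pow_mul, hqdef, Nat.ordProj_mul_ordCompl_eq_self]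
      exact pow_card_eq_one'
    have h2 : orderOf n' ∣ Nat.card G / q := orderOf_dvd_of_pow_eq_one h1
    rw [hqdef] at h2
    exact Nat.Coprime.coprime_dvd_left h2 (Nat.coprime_ordCompl hp hcardG).symm
  have hnormP : ∀ x ∈ Subgroup.normalizer ((P : Subgroup G) : Set G),
      ∀ t ∈ (P : Subgroup G), x⁻¹ * t * x ∈ (P : Subgroup G) := by
    intro x hx t ht
    exact (Subgroup.mem_normalizer_iff''.mp hx t).mp ht
  -- the square of `n'` centralises `P`
  have hn'zi : n'⁻¹ * z⁻¹ * n' = z := by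
    have h1 : n'⁻¹ * z⁻¹ * n' = (n'⁻¹ * z * n')⁻¹ := by group
    rw [h1, hn'z, inv_inv]
  have hsz : z * (n' * n') = (n' * n') * z := by
    calc z * (n' * n') = n' * (n'⁻¹ * z * n') * n' := by group
      _ = n' * z⁻¹ * n' := by rw [hn'z]
      _ = n' * n' * (n'⁻¹ * z⁻¹ * n') := by group
      _ = n' * n' * z := by rw [hn'zi]
  have hsqord : (orderOf (n' * n')).Coprime p := by
    have h1 : n' * n' = n' ^ 2 := (pow_two n').symm
    rw [h1]
    exact Nat.Coprime.coprime_dvd_left (orderOf_pow_dvd 2) hn'ord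
  have hsq : ∀ c ∈ (P : Subgroup G), (n' * n') * c = c * (n' * n') := by
    intro c hc
    refine commute_of_pnil_of_mem (Subgroup.centralizer ({z} : Set G)) (hnil z hzP hz1)
      (P : Subgroup G) hPp (n' * n') ?_ hsqord
      (hnormP (n' * n') (Subgroup.mul_mem _ hn'N hn'N)) c ?_ hc
    · rw [Subgroup.mem_centralizer_iff]
      intro y hy
      rw [Set.mem_singleton_iff] at hy
      rw [hy]
      exact hsz
    · rw [Subgroup.mem_centralizer_iff]
      intro y hy
      rw [Set.mem_singleton_iff] at hy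
      rw [hy]
      exact (hzc c hc).symm
  let φ : (P : Subgroup G) →* (P : Subgroup G) :=
    { toFun := fun c => ⟨n'⁻¹ * (c : G) * n', hnormP n' hn'N c c.2⟩
      map_one' := by
        apply Subtype.ext
        simp
      map_mul' := fun c d => by
        apply Subtype.ext
        simp only [Subgroup.coe_mul]
        group }
  have hφ : ∀ c : (P : Subgroup G), ((φ c : (P : Subgroup G)) : G) = n'⁻¹ * (c : G) * n' :=
    fun c => rfl
  have hinv : Function.Involutive φ := by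
    intro c
    apply Subtype.ext
    rw [hφ, hφ]
    have h1 := hsq c c.2
    calc n'⁻¹ * (n'⁻¹ * (c : G) * n') * n' = (n' * n')⁻¹ * ((c : G) * (n' * n')) := by group
      _ = (n' * n')⁻¹ * ((n' * n') * (c : G)) := by rw [h1]
      _ = c := by group
  have hfpf : MonoidHom.FixedPointFree φ := by
    intro c hc
    by_contra hc1
    have hcG : (c : G) ≠ 1 := fun h => hc1 (Subtype.ext h)
    have h1 : n'⁻¹ * (c : G) * n' = c := by
      rw [← hφ, hc]
    have hcomm : (c : G) * n' = n' * c := by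
      calc (c : G) * n' = n' * (n'⁻¹ * (c : G) * n') := by group
        _ = n' * c := by rw [h1]
    have h2 := commute_of_pnil_of_mem (Subgroup.centralizer ({(c : G)} : Set G))
      (hnil c c.2 hcG) (P : Subgroup G) hPp n'
      (by
        rw [Subgroup.mem_centralizer_iff]
        intro y hy
        rw [Set.mem_singleton_iff] at hy
        rw [hy]
        exact hcomm)
      hn'ord (hnormP n' hn'N) z
      (by
        rw [Subgroup.mem_centralizer_iff]
        intro y hy
        rw [Set.mem_singleton_iff] at hy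
        rw [hy]
        exact hzc c c.2) hzP
    apply hzinv
    rw [← hn'z]
    calc n'⁻¹ * z * n' = n'⁻¹ * (z * n') := by group
      _ = n'⁻¹ * (n' * z) := by rw [h2]
      _ = z := by group
  intro a ha b hb
  have h9 := hfpf.commute_all_of_involutive hinv (⟨a, ha⟩ : (P : Subgroup G)) ⟨b, hb⟩
  exact congrArg Subtype.val h9.eq

end Cfsg.Agent.Lib.Helper82.OneClass
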