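import Mathlib
import Cfsg.Agent.Lib.Helper16.SNStmt

set_option autoImplicit false

/-!
# S3641, piece SYLDVD: Sylow numbers of a quotient divide those of the group
-/

namespace Cfsg.Agent.Lib.Helper82.SNSYLDVD

open Cfsg.Agent.Lib.Helper16.SNStmt

universe u

/-- the index chain behind both SYLDVD and KERNORM -/
theorem chain {G : Type u} [Group G] [Finite G] {H : Type u} [Group H] (f : G →* H)
    (hf : Function.Surjective f) (r : ℕ) [Fact r.Prime] (R : Sylow r G) :
    Nat.card (Sylow r H) ∣
        ((Subgroup.normalizer ((R : Subgroup G) : Set G)).map f).index ∧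
      ((Subgroup.normalizer ((R : Subgroup G) : Set G)).map f).index =
        (Subgroup.normalizer ((R : Subgroup G) : Set G) ⊔ f.ker).index ∧
      (Subgroup.normalizer ((R : Subgroup G) : Set G) ⊔ f.ker).index ∣ Nat.card (Sylow r G) := by
  have : Finite H := Finite.of_surjective f hf
  refine ⟨?_, ?_, ?_⟩
  · rw [Sylow.card_eq_index_normalizer (R.mapSurjective hf)]
    have h1 : Subgroup.normalizer (((R.mapSurjective hf : Sylow r H) : Subgroup H) : Set H) =
        Subgroup.normalizer (((R : Subgroup G).map f : Subgroup H) : Set H) := by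
      rw [Sylow.coe_mapSurjective]
    have h2 : (Subgroup.normalizer (((R.mapSurjective hf : Sylow r H) : Subgroup H) : Set H)).index ∣
        ((Subgroup.normalizer ((R : Subgroup G) : Set G)).map f).index := by
      rw [h1]
      exact Subgroup.index_dvd_of_le (Subgroup.le_normalizer_map f)
    exact h2
  · rw [Subgroup.index_map, f.range_eq_top_of_surjective hf, Subgroup.index_top, mul_one]
  · rw [Sylow.card_eq_index_normalizer R]
    exact Subgroup.index_dvd_of_le le_sup_left

theorem main : Cfsg.Agent.Lib.Helper16.SNStmt.SylDvd.{u} := by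
  intro G _ _ H _ f hf r _
  obtain ⟨R⟩ : Nonempty (Sylow r G) := inferInstance
  obtain ⟨h1, h2, h3⟩ := chain f hf r R
  rw [h2] at h1
  exact dvd_trans h1 h3

end Cfsg.Agent.Lib.Helper82.SNSYLDVD
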