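import Mathlib
import Cfsg.Agent.Lib.Helper16.SNStmt
import Cfsg.Agent.Lib.Helper82.SNSYLDVD

set_option autoImplicit false

/-!
# S3641, piece KERNORM: if a quotient has as many Sylow `r`-subgroups as the group, the kernel
normalizes every Sylow `r`-subgroup
-/

namespace Cfsg.Agent.Lib.Helper82.SNKERNORM

open Cfsg.Agent.Lib.Helper16.SNStmt

universe u

theorem main : Cfsg.Agent.Lib.Helper16.SNStmt.KerNorm.{u} := by
  intro G _ _ H _ f hf r _ hcard R
  obtain ⟨h1, h2, h3⟩ := Cfsg.Agent.Lib.Helper82.SNSYLDVD.chain f hf r R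
  rw [h2, hcard] at h1
  have h4 : (Subgroup.normalizer ((R : Subgroup G) : Set G) ⊔ f.ker).index =
      Nat.card (Sylow r G) := Nat.dvd_antisymm h3 h1
  rw [Sylow.card_eq_index_normalizer R] at h4
  have h4' : (Subgroup.normalizer ((R : Subgroup G) : Set G) ⊔ f.ker).index =
      (Subgroup.normalizer ((R : Subgroup G) : Set G)).index := h4
  clear h4
  have h5 := Subgroup.relIndex_mul_index
    (le_sup_left : Subgroup.normalizer ((R : Subgroup G) : Set G) ≤
      Subgroup.normalizer ((R : Subgroup G) : Set G) ⊔ f.ker)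
  rw [h4'] at h5
  have hne : (Subgroup.normalizer ((R : Subgroup G) : Set G)).index ≠ 0 :=
    Subgroup.index_ne_zero_of_finite
  have h6 : (Subgroup.normalizer ((R : Subgroup G) : Set G)).relIndex
      (Subgroup.normalizer ((R : Subgroup G) : Set G) ⊔ f.ker) = 1 := by
    have h7 : (Subgroup.normalizer ((R : Subgroup G) : Set G)).relIndex
        (Subgroup.normalizer ((R : Subgroup G) : Set G) ⊔ f.ker) *
        (Subgroup.normalizer ((R : Subgroup G) : Set G)).index =
        1 * (Subgroup.normalizer ((R : Subgroup G) : Set G)).index := by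
      rw [h5, one_mul]
    exact Nat.eq_of_mul_eq_mul_right (Nat.pos_of_ne_zero hne) h7
  exact le_trans le_sup_right (Subgroup.relIndex_eq_one.1 h6)

end Cfsg.Agent.Lib.Helper82.SNKERNORM
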