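import Mathlib

/-!
# Sums over the odd residues modulo a power of two

Pure lemmas used for the bounds on the number of height-zero characters of a `2`-block in terms
of a subsection:

* `sum_units_pow`: the sum of `μ ^ t` over the units `t` modulo `2 ^ k`, for a `2 ^ k`-th root
  of unity `μ`;
* `units_sum_two`: for a symmetric integer combination of powers of `2 ^ k`-th roots of unity,
  the sum over the units is the totient times an integer congruent modulo `2` to the sum of the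
  coefficients;
* `abstract_bound`: the counting argument;
* `arith_final`: the final arithmetic.
-/

set_option autoImplicit false

namespace Cfsg.Agent.Lib.Helper82.TwoUnits

open scoped ComplexConjugate
open Finset

/-- Splitting a sum over `range (2 * n)` into even and odd indices. -/
theorem sum_range_two_mul {α : Type*} [AddCommMonoid α] (f : ℕ → α) (n : ℕ) :
    ∑ t ∈ range (2 * n), f t = ∑ i ∈ range n, (f (2 * i) + f (2 * i + 1)) := by
  induction n with
  | zero => simp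
  | succ n ih =>
    rw [show 2 * (n + 1) = 2 * n + 1 + 1 by ring, sum_range_succ, sum_range_succ, ih,
      sum_range_succ, add_assoc]

/-- The sum of the powers `μ ^ t`, `t` a unit modulo `2 ^ k`, of a `2 ^ k`-th root of unity. -/
theorem sum_units_pow (k : ℕ) (μ : ℂ) (hμ : μ ^ (2 ^ k) = 1) :
    ∑ t ∈ (range (2 ^ k)).filter (fun t => Nat.Coprime t (2 ^ k)), μ ^ t
      = ((2 ^ k).totient : ℂ) * (if μ = 1 then 1 else if μ = -1 then -1 else 0) := by
  cases k with
  | zero =>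
    have h1 : μ = 1 := by simpa using hμ
    subst h1
    simp
  | succ k =>
    rw [sum_filter, pow_succ, mul_comm (2 ^ k) 2, sum_range_two_mul]
    have hco : ∀ i : ℕ, ¬ Nat.Coprime (2 * i) (2 * 2 ^ k) := by
      intro i h
      have h2 : (2 : ℕ) ∣ Nat.gcd (2 * i) (2 * 2 ^ k) :=
        Nat.dvd_gcd (dvd_mul_right 2 i) (dvd_mul_right 2 _)
      rw [h] at h2
      exact absurd h2 (by norm_num)
    have hco' : ∀ i : ℕ, Nat.Coprime (2 * i + 1) (2 * 2 ^ k) := by
      intro i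
      rw [← pow_succ']
      apply Nat.Coprime.pow_right
      rw [Nat.coprime_comm, Nat.coprime_two_left]
      exact odd_two_mul_add_one i
    have h3 : ∀ x : ℕ, ((if Nat.Coprime (2 * x) (2 * 2 ^ k) then μ ^ (2 * x) else 0)
        + if Nat.Coprime (2 * x + 1) (2 * 2 ^ k) then μ ^ (2 * x + 1) else 0)
        = μ ^ (2 * x + 1) := by
      intro x
      rw [if_neg (hco x), if_pos (hco' x), zero_add]
    simp only [h3]
    have htot : (2 * 2 ^ k).totient = 2 ^ k := by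
      rw [← pow_succ', Nat.totient_prime_pow_succ Nat.prime_two]
      simp
    rw [htot]
    have h2 : ∀ i : ℕ, μ ^ (2 * i + 1) = μ * (μ ^ 2) ^ i := by
      intro i
      rw [pow_succ, pow_mul]
      ring
    simp only [h2]
    rw [← mul_sum]
    by_cases h1 : μ = 1
    · subst h1
      simp
    · by_cases hm : μ = -1
      · subst hm
        rw [if_neg h1, if_pos rfl]
        simp
      · rw [if_neg h1, if_neg hm, mul_zero]
        have hsq : μ ^ 2 ≠ 1 := by
          intro h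
          have h' : (μ - 1) * (μ + 1) = 0 := by linear_combination h
          rcases mul_eq_zero.1 h' with h | h
          · exact h1 (by linear_combination h)
          · exact hm (by linear_combination h)
        rw [geom_sum_eq hsq, ← pow_mul, ← pow_succ', hμ, sub_self, zero_div, mul_zero]

/-- For an integer combination of powers of `2 ^ k`-th roots of unity that is symmetric under an
involution `σ` (conjugating the roots and fixing the coefficients, the fixed points having root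
`1`), the sum over the units `t` modulo `2 ^ k` is the totient times an integer congruent modulo
`2` to the sum of the coefficients. -/
theorem units_sum_two (k : ℕ) {ι : Type*} (s : Finset ι) (K : ι → ℤ) (μ : ι → ℂ)
    (hμ : ∀ i ∈ s, μ i ^ (2 ^ k) = 1) (σ : ι → ι) (hσ : ∀ i ∈ s, σ i ∈ s)
    (hσσ : ∀ i ∈ s, σ (σ i) = i) (hK : ∀ i ∈ s, K (σ i) = K i)
    (hμσ : ∀ i ∈ s, μ (σ i) = conj (μ i)) (hfix : ∀ i ∈ s, σ i = i → μ i = 1) :
    ∃ a : ℤ, (∑ t ∈ (range (2 ^ k)).filter (fun t => Nat.Coprime t (2 ^ k)),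
        ∑ i ∈ s, (K i : ℂ) * μ i ^ t = ((2 ^ k).totient : ℂ) * a) ∧
      (2 : ℤ) ∣ a - ∑ i ∈ s, K i := by
  classical
  obtain ⟨ε, hε⟩ : ∃ ε : ι → ℤ, ∀ i, ε i = if μ i = 1 then 1 else if μ i = -1 then -1 else 0 :=
    ⟨_, fun _ => rfl⟩
  refine ⟨∑ i ∈ s, K i * ε i, ?_, ?_⟩
  · rw [sum_comm]
    push_cast
    rw [mul_sum]
    refine sum_congr rfl fun i hi => ?_
    rw [← mul_sum, sum_units_pow k (μ i) (hμ i hi), hε]
    split_ifs <;> push_cast <;> ring
  · rw [← sum_sub_distrib]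
    have h0 : ∑ i ∈ s, ((K i * ε i - K i : ℤ) : ZMod 2) = 0 := by
      refine sum_involution (fun i _ => σ i) ?_ ?_ ?_ ?_
      · intro i hi
        have h1 : ε (σ i) = ε i := by
          rw [hε, hε, hμσ i hi]
          have e1 : conj (μ i) = 1 ↔ μ i = 1 := by
            constructor
            · intro h
              have h' := congrArg (starRingEnd ℂ) h
              rwa [Complex.conj_conj, map_one] at h'
            · intro h
              rw [h, map_one]
          have e2 : conj (μ i) = -1 ↔ μ i = -1 := by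
            constructor
            · intro h
              have h' := congrArg (starRingEnd ℂ) h
              rwa [Complex.conj_conj, map_neg, map_one] at h'
            · intro h
              rw [h, map_neg, map_one]
          simp only [e1, e2]
        rw [hK i hi, h1]
        exact CharTwo.add_self_eq_zero _
      · intro i hi hne hfixed
        apply hne
        have := hfix i hi hfixed
        rw [hε, if_pos this]
        simp
      · intro i hi
        exact hσ i hi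
      · intro i hi
        exact hσσ i hi
    rw [← Int.cast_sum] at h0
    exact (ZMod.intCast_zmod_eq_zero_iff_dvd _ 2).1 h0

/-- The counting argument: `N t χ ψ` are the scaled squared contributions, `m t χ` the scaled
diagonal contributions. -/
theorem abstract_bound {ι τ : Type*} [DecidableEq ι] (B B₀ : Finset ι) (hB₀ : B₀ ⊆ B)
    (U : Finset τ) (φ : ℕ) (hU : U.card = φ) (hφ : 0 < φ)
    (N : τ → ι → ι → ℝ) (hN : ∀ t χ ψ, 0 ≤ N t χ ψ)
    (m : τ → ι → ℝ) (Q l : ℝ) (hQ : 0 < Q)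
    (hrow : ∀ t ∈ U, ∀ χ ∈ B, ∑ ψ ∈ B, N t χ ψ = Q * m t χ)
    (hdiag : ∀ t ∈ U, ∀ χ ∈ B, N t χ χ = (m t χ) ^ 2)
    (htr : ∀ t ∈ U, ∑ χ ∈ B, m t χ = Q * l)
    (hP : ∀ χ ∈ B₀, ∀ ψ ∈ B₀, (φ : ℝ) ≤ ∑ t ∈ U, N t χ ψ)
    (a : ι → ℝ) (ha : ∀ χ ∈ B₀, ∑ t ∈ U, m t χ = φ * a χ) :
    (∀ χ ∈ B₀, 0 ≤ a χ) ∧ (∑ χ ∈ B₀, a χ ≤ Q * l) ∧
      ∀ χ ∈ B₀, (B₀.card : ℝ) - 1 + (a χ) ^ 2 ≤ Q * a χ := by
  have hφ' : (0 : ℝ) < φ := by exact_mod_cast hφ
  have hm0 : ∀ t ∈ U, ∀ χ ∈ B, 0 ≤ m t χ := by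
    intro t ht χ hχ
    have h1 := hrow t ht χ hχ
    have h2 : 0 ≤ ∑ ψ ∈ B, N t χ ψ := sum_nonneg fun ψ _ => hN t χ ψ
    rw [h1] at h2
    exact nonneg_of_mul_nonneg_right h2 hQ
  have hS0 : ∀ χ ∈ B, 0 ≤ ∑ t ∈ U, m t χ := fun χ hχ => sum_nonneg fun t ht => hm0 t ht χ hχ
  refine ⟨?_, ?_, ?_⟩
  · intro χ hχ
    have h1 := hS0 χ (hB₀ hχ)
    rw [ha χ hχ] at h1
    exact nonneg_of_mul_nonneg_right h1 hφ'
  · have h1 : ∑ χ ∈ B₀, (φ : ℝ) * a χ ≤ ∑ χ ∈ B, ∑ t ∈ U, m t χ := by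
      rw [← sum_congr rfl ha]
      exact sum_le_sum_of_subset_of_nonneg hB₀ fun χ hχ _ => hS0 χ hχ
    rw [sum_comm, sum_congr rfl htr, sum_const, hU, nsmul_eq_mul, ← mul_sum] at h1
    exact le_of_mul_le_mul_left h1 hφ'
  · intro χ hχ
    have hχB := hB₀ hχ
    -- the row sum
    have h1 : (φ : ℝ) * (Q * a χ) = ∑ t ∈ U, ∑ ψ ∈ B, N t χ ψ := by
      rw [sum_congr rfl (fun t ht => hrow t ht χ hχB), ← mul_sum, ha χ hχ]
      ring
    have h2 : ∑ t ∈ U, ∑ ψ ∈ B₀, N t χ ψ ≤ ∑ t ∈ U, ∑ ψ ∈ B, N t χ ψ :=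
      sum_le_sum fun t _ => sum_le_sum_of_subset_of_nonneg hB₀ fun ψ _ _ => hN t χ ψ
    have h3 : ∑ t ∈ U, ∑ ψ ∈ B₀, N t χ ψ
        = ∑ ψ ∈ B₀.erase χ, ∑ t ∈ U, N t χ ψ + ∑ t ∈ U, N t χ χ := by
      rw [sum_comm, ← sum_erase_add _ _ hχ]
    have h4 : ((B₀.card : ℝ) - 1) * φ ≤ ∑ ψ ∈ B₀.erase χ, ∑ t ∈ U, N t χ ψ := by
      have h5 : ∑ ψ ∈ B₀.erase χ, (φ : ℝ) ≤ ∑ ψ ∈ B₀.erase χ, ∑ t ∈ U, N t χ ψ :=
        sum_le_sum fun ψ hψ => hP χ hχ ψ (mem_of_mem_erase hψ)
      rw [sum_const, card_erase_of_mem hχ, nsmul_eq_mul] at h5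
      have h6 : ((B₀.card - 1 : ℕ) : ℝ) = (B₀.card : ℝ) - 1 := by
        have : 1 ≤ B₀.card := card_pos.2 ⟨χ, hχ⟩
        push_cast [Nat.cast_sub this]
        ring
      rw [h6] at h5
      exact h5
    have h7 : (φ : ℝ) * (a χ) ^ 2 ≤ ∑ t ∈ U, N t χ χ := by
      rw [sum_congr rfl (fun t ht => hdiag t ht χ hχB)]
      have h8 := sq_sum_le_card_mul_sum_sq (s := U) (f := fun t => m t χ)
      rw [ha χ hχ, hU] at h8
      have h9 : (φ : ℝ) * ((φ : ℝ) * (a χ) ^ 2) ≤ (φ : ℝ) * ∑ t ∈ U, (m t χ) ^ 2 := by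
        calc (φ : ℝ) * ((φ : ℝ) * (a χ) ^ 2) = ((φ : ℝ) * a χ) ^ 2 := by ring
          _ ≤ _ := h8
      exact le_of_mul_le_mul_left h9 hφ'
    have h10 : (φ : ℝ) * ((B₀.card : ℝ) - 1 + (a χ) ^ 2) ≤ (φ : ℝ) * (Q * a χ) := by
      rw [h1]
      refine le_trans ?_ h2
      rw [h3]
      linarith
    exact le_of_mul_le_mul_left h10 hφ'

/-- The final arithmetic. -/
theorem arith_final (k₀ l Qn : ℕ) (a : ℤ) (ha1 : 1 ≤ a) (hodd : Odd a)
    (h1 : (k₀ : ℤ) * a ≤ Qn * l) (h2 : (k₀ : ℤ) - 1 + a ^ 2 ≤ Qn * a) :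
    (Odd (Nat.sqrt l) → k₀ ≤ Nat.sqrt l * Qn) ∧
      (¬ Odd (Nat.sqrt l) → (Nat.sqrt l + 1) * k₀ ≤ l * Qn) ∧ (l ≤ 3 → k₀ ≤ Qn) := by
  have hs1 : Nat.sqrt l * Nat.sqrt l ≤ l := Nat.sqrt_le l
  have hs2 : l < (Nat.sqrt l + 1) * (Nat.sqrt l + 1) := Nat.lt_succ_sqrt l
  obtain ⟨s, hs⟩ : ∃ s : ℕ, s = Nat.sqrt l := ⟨_, rfl⟩
  rw [← hs] at hs1 hs2 ⊢
  have hs1' : (s : ℤ) * s ≤ l := by exact_mod_cast hs1
  have hs2' : (l : ℤ) + 1 ≤ (s + 1) * (s + 1) := by exact_mod_cast hs2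
  have hQ0 : (0 : ℤ) ≤ Qn := Int.natCast_nonneg _
  have hk0 : (0 : ℤ) ≤ k₀ := Int.natCast_nonneg _
  have g1 : Odd s → k₀ ≤ s * Qn := by
    intro hso
    have hso' : Odd (s : ℤ) := by exact_mod_cast hso
    by_cases has : a ≤ s
    · have : (k₀ : ℤ) ≤ s * Qn := by nlinarith
      exact_mod_cast this
    · have has2 : (s : ℤ) + 2 ≤ a := by
        obtain ⟨x, hx⟩ := hodd
        obtain ⟨y, hy⟩ := hso'
        omega
      have h4 : (l : ℤ) ≤ s * (s + 2) := by nlinarith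
      have h5 : (Qn : ℤ) * l ≤ Qn * (s * (s + 2)) := mul_le_mul_of_nonneg_left h4 hQ0
      have h6 : (Qn : ℤ) * (s * (s + 2)) ≤ Qn * (s * a) :=
        mul_le_mul_of_nonneg_left (mul_le_mul_of_nonneg_left has2 (Int.natCast_nonneg s)) hQ0
      have h3 : (k₀ : ℤ) * a ≤ (s * Qn) * a := by
        calc (k₀ : ℤ) * a ≤ Qn * l := h1
          _ ≤ Qn * (s * (s + 2)) := h5
          _ ≤ Qn * (s * a) := h6
          _ = (s * Qn) * a := by ring
      have : (k₀ : ℤ) ≤ s * Qn := le_of_mul_le_mul_right h3 (by linarith)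
      exact_mod_cast this
  refine ⟨g1, ?_, ?_⟩
  · intro hso
    have hse : Even (s : ℤ) := by
      have : Even s := Nat.not_odd_iff_even.1 hso
      exact_mod_cast this
    by_cases has : (s : ℤ) + 1 ≤ a
    · have : ((s : ℤ) + 1) * k₀ ≤ l * Qn := by nlinarith
      exact_mod_cast this
    · have has2 : a ≤ (s : ℤ) - 1 := by
        obtain ⟨x, hx⟩ := hodd
        obtain ⟨y, hy⟩ := hse
        omega
      have h3 : (k₀ : ℤ) ≤ Qn * a := by nlinarith
      have h4 : (k₀ : ℤ) ≤ Qn * (s - 1) := by nlinarith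
      have : ((s : ℤ) + 1) * k₀ ≤ l * Qn := by nlinarith
      exact_mod_cast this
  · intro hl
    have hs01 : s = 0 ∨ s = 1 := by
      have : s < 2 := by
        by_contra h
        have : 2 ≤ s := by omega
        nlinarith
      omega
    rcases hs01 with h | h
    · rw [h] at hs2
      have hl0 : l = 0 := by omega
      have h1' : (k₀ : ℤ) * a ≤ 0 := by
        rw [hl0] at h1
        simpa using h1
      have : (k₀ : ℤ) ≤ 0 := by nlinarith
      have : k₀ = 0 := by omega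
      omega
    · have := g1 (by rw [h]; exact odd_one)
      rw [h, one_mul] at this
      exact this

end Cfsg.Agent.Lib.Helper82.TwoUnits
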