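import Mathlib
import Cfsg.Agent.Lib.Helper82.SecCong
import Cfsg.Agent.Lib.Helper82.SecLocal
import Cfsg.Agent.Lib.Helper82.TwoUnits

/-!
# Rows of the contribution matrix of a subsection, and the diagonal for `p = 2`

* `row_sq`: the contribution matrix of a subsection `(x, b)` is idempotent: for `χ` any
  irreducible character, `∑_{ψ ∈ B} |mm χ ψ|² = mm χ χ`.
* `local_diag`: for `p = 2`, a central `2`-element `z` of `H` and a character `X` of `H` whose
  normalized truncated coefficients in the block `b` are local units, the sum over the units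
  `t` modulo `2 ^ k` of `2 ^ d * mm (X (z ^ t ·)) (X (z ^ t ·))` is the totient times an odd
  integer.
-/

set_option autoImplicit false

namespace Cfsg.Agent.Lib.Helper82.SecRow

open Cfsg Cfsg.Agent.Lib.Helper77.LocalRing
  Cfsg.Agent.Lib.Helper75.Section Cfsg.Agent.Lib.Helper75.Section2
  Cfsg.Agent.Lib.Helper75.Section3 Cfsg.Agent.Lib.Helper75.BlockRank
  Cfsg.Agent.Lib.Helper82.SecSq Cfsg.Agent.Lib.Helper82.SecLocal
  Cfsg.Agent.Lib.Helper82.SecCong Cfsg.Agent.Lib.Helper80.Contrib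
  Cfsg.Agent.Lib.Helper82.TwoUnits
open scoped ComplexConjugate
open Finset

universe u

section row

variable {G : Type u} [Group G] [Fintype G] [Fintype (IrrCharacter G)] (p : ℕ) [Fact p.Prime]
  (M : Ideal AlgInt) (hM : IsPModular p M)

omit [Fintype G] [Fintype (IrrCharacter G)] [Fact p.Prime] in
/-- Truncation is idempotent. -/
theorem pRegularPart_idem (f : G → ℂ) : pRegularPart p (pRegularPart p f) = pRegularPart p f := by
  funext c
  by_cases hc : p ∣ orderOf c
  · rw [pRegularPart_of_singular p _ hc, pRegularPart_of_singular p _ hc]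
  · rw [pRegularPart_of_regular p _ hc]

include hM in
/-- The contribution matrix of the subsection `(x, b)` is idempotent (row form). -/
theorem row_sq (B : Set (IrrCharacter G)) [DecidablePred (· ∈ B)] (x : G)
    (hx : ∃ k : ℕ, orderOf x = p ^ k) (C : Subgroup G)
    (hC : C = Subgroup.centralizer ({x} : Set G)) [Fintype C] [Fintype (IrrCharacter C)]
    (b : Set (IrrCharacter C)) [DecidablePred (· ∈ b)] (hind : IsInducedBlock M C b B)
    (χ : IrrCharacter G) :
    ∑ ψ ∈ univ.filter (· ∈ B),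
        mm p b (fun c : C => (χ : G → ℂ) (x * c)) (fun c : C => (ψ : G → ℂ) (x * c))
          * conj (mm p b (fun c : C => (χ : G → ℂ) (x * c)) (fun c : C => (ψ : G → ℂ) (x * c)))
      = mm p b (fun c : C => (χ : G → ℂ) (x * c)) (fun c : C => (χ : G → ℂ) (x * c)) := by
  have hb : IsPBlock M b := hind.1
  have hcf : ∀ ψ : IrrCharacter G, IsClassFunction C (fun c : C => (ψ : G → ℂ) (x * c)) := by
    intro ψ
    subst hC
    exact isClassFunction_shift x (Cfsg.Agent.Lib.CT.Orth.irr_isClassFunction ψ)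
  have hmm : ∀ χ' ψ : IrrCharacter G,
      mm p b (fun c : C => (χ' : G → ℂ) (x * c)) (fun c : C => (ψ : G → ℂ) (x * c))
        = ∑ ξ ∈ univ.filter (· ∈ b),
            classInner (pRegularPart p (fun c : C => (χ' : G → ℂ) (x * c))) (ξ : C → ℂ)
              * conj (classInner (pRegularPart p (fun c : C => (ψ : G → ℂ) (x * c)))
                (ξ : C → ℂ)) := by
    intro χ' ψ
    rw [← sum_trunc_eq_mm p M hM b hb _ _ (hcf χ') (hcf ψ)]
  have h1 : ∀ ψ : IrrCharacter G,
      mm p b (fun c : C => (χ : G → ℂ) (x * c)) (fun c : C => (ψ : G → ℂ) (x * c))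
          * conj (mm p b (fun c : C => (χ : G → ℂ) (x * c)) (fun c : C => (ψ : G → ℂ) (x * c)))
      = (∑ ξ ∈ univ.filter (· ∈ b),
          conj (classInner (pRegularPart p (fun c : C => (χ : G → ℂ) (x * c))) (ξ : C → ℂ))
            * classInner (pRegularPart p (fun y : C => (ψ : G → ℂ) (x * y))) (ξ : C → ℂ))
        * conj (∑ ξ ∈ univ.filter (· ∈ b),
          conj (classInner (pRegularPart p (fun c : C => (χ : G → ℂ) (x * c))) (ξ : C → ℂ))
            * classInner (pRegularPart p (fun y : C => (ψ : G → ℂ) (x * y))) (ξ : C → ℂ)) := by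
    intro ψ
    rw [hmm, mul_comm]
    congr 1
    · rw [map_sum]
      refine sum_congr rfl fun ξ _ => ?_
      rw [map_mul, Complex.conj_conj]
    · rw [map_sum]
      refine sum_congr rfl fun ξ _ => ?_
      rw [map_mul, Complex.conj_conj]
  rw [sum_congr rfl (fun ψ _ => h1 ψ),
    sum_lin p M hM B x hx C hC b hind
      (fun ξ => conj (classInner (pRegularPart p (fun c : C => (χ : G → ℂ) (x * c)))
        (ξ : C → ℂ)))
      (fun ξ => conj (classInner (pRegularPart p (fun c : C => (χ : G → ℂ) (x * c)))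
        (ξ : C → ℂ)))]
  -- the right-hand side through the truncated function
  have h2 : mm p b (fun c : C => (χ : G → ℂ) (x * c)) (fun c : C => (χ : G → ℂ) (x * c))
      = mm p b (pRegularPart p (fun c : C => (χ : G → ℂ) (x * c)))
          (pRegularPart p (fun c : C => (χ : G → ℂ) (x * c))) := by
    rw [← sum_trunc_eq_mm p M hM b hb _ _ (hcf χ) (hcf χ),
      ← sum_trunc_eq_mm p M hM b hb _ _ (isClassFunction_pRegularPart p (hcf χ))
        (isClassFunction_pRegularPart p (hcf χ)), pRegularPart_idem]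
  rw [h2]
  unfold mm
  rw [sum_comm]
  refine sum_congr rfl fun ξ _ => sum_congr rfl fun ξ' _ => ?_
  rw [Complex.conj_conj]
  ring

end row

section diag

variable {H : Type u} [Group H] [Fintype H] [Fintype (IrrCharacter H)]

/-- For `p = 2`: the sum over the units `t` modulo `2 ^ k` of the scaled diagonal contributions
of the shifted character `h ↦ X (z ^ t h)` is the totient times an odd integer. -/
theorem local_diag (M : Ideal AlgInt) (hM : IsPModular 2 M)
    (b : Set (IrrCharacter H)) (hb : IsPBlock M b) [DecidablePred (· ∈ b)] (z : H)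
    (hz : ∀ h : H, z * h = h * z) (k : ℕ) (hzk : z ^ (2 ^ k) = 1) (X : H → ℂ)
    (hX : IsCharacter H X)
    (hX0 : ∀ ψ ∈ b, ¬ MemLocalIdeal M (classInner (fun h : H => if 2 ∣ orderOf h then (0 : ℂ)
      else ((2 ^ (Nat.card H).factorization 2 : ℕ) : ℂ) * X h) (ψ : H → ℂ) / (ψ : H → ℂ) 1)) :
    ∃ a : ℤ, Odd a ∧ ∑ t ∈ (range (2 ^ k)).filter (fun t => Nat.Coprime t (2 ^ k)),
      (2 : ℂ) ^ blockDefect 2 b
        * mm 2 b (fun h : H => X (z ^ t * h)) (fun h : H => X (z ^ t * h))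
      = ((2 ^ k).totient : ℂ) * a := by
  classical
  have hMp : M.IsPrime := isPrime_of_isPModular hM
  obtain ⟨nX, -, hnX⟩ := Cfsg.Agent.Lib.CT.NormOne.exists_mult_sum hX
  obtain ⟨lam, hlam⟩ : ∃ lam : IrrCharacter H → ℂ,
      ∀ η, lam η = (η : H → ℂ) z / (η : H → ℂ) 1 := ⟨_, fun _ => rfl⟩
  have hlamk : ∀ η, lam η ^ (2 ^ k) = 1 := fun η => by
    rw [hlam]
    exact lam_pow (η : H → ℂ) η.2 z hz _ hzk
  have hlamc : ∀ η, lam η * conj (lam η) = 1 := by
    intro η
    have h1 : ‖lam η‖ = 1 := Complex.norm_eq_one_of_pow_eq_one (hlamk η) (by positivity)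
    rw [Complex.mul_conj, Complex.normSq_eq_norm_sq, h1]
    simp
  obtain ⟨a, ha, hdvd⟩ := units_sum_two k ((univ.filter (· ∈ b)) ×ˢ (univ.filter (· ∈ b)))
    (fun i : IrrCharacter H × IrrCharacter H => (nX i.1 : ℤ) * (nX i.2 : ℤ) * mz 2 b i.1 i.2)
    (fun i : IrrCharacter H × IrrCharacter H => lam i.1 * conj (lam i.2))
    (fun i _ => by
      show (lam i.1 * conj (lam i.2)) ^ (2 ^ k) = 1
      rw [mul_pow, hlamk, ← map_pow, hlamk, map_one, one_mul])
    Prod.swap
    (fun i hi => by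
      rw [mem_product] at hi ⊢
      exact ⟨hi.2, hi.1⟩)
    (fun i _ => Prod.swap_swap i)
    (fun i hi => by
      rw [mem_product] at hi
      show (nX i.2 : ℤ) * (nX i.1 : ℤ) * mz 2 b i.2 i.1 = (nX i.1 : ℤ) * (nX i.2 : ℤ) * mz 2 b i.1 i.2
      rw [mz_symm 2 M hM b i.2 i.1 (mem_filter.1 hi.2).2 (mem_filter.1 hi.1).2]
      ring)
    (fun i _ => by
      show lam i.2 * conj (lam i.1) = conj (lam i.1 * conj (lam i.2))
      rw [map_mul, Complex.conj_conj, mul_comm])
    (fun i _ hfix => by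
      have h1 : i.2 = i.1 := congrArg Prod.fst hfix
      show lam i.1 * conj (lam i.2) = 1
      rw [h1, hlamc])
  have hsum : ∀ t : ℕ, ∑ i ∈ (univ.filter (· ∈ b)) ×ˢ (univ.filter (· ∈ b)),
      (((nX i.1 : ℤ) * (nX i.2 : ℤ) * mz 2 b i.1 i.2 : ℤ) : ℂ) * (lam i.1 * conj (lam i.2)) ^ t
      = ∑ η ∈ univ.filter (· ∈ b), ∑ η' ∈ univ.filter (· ∈ b),
        (((nX η : ℤ) * (nX η' : ℤ) * mz 2 b η η' : ℤ) : ℂ) * (lam η * conj (lam η')) ^ t :=
    fun t => sum_product _ _ _
  refine ⟨a, ?_, ?_⟩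
  · -- parity
    have h0 := alpha_not_mem 2 M hM b hb z hz k hzk X X nX nX hnX hnX hX0 hX0 0
    have h1 : ∑ η ∈ univ.filter (· ∈ b), ∑ η' ∈ univ.filter (· ∈ b),
        (((nX η : ℤ) * (nX η' : ℤ) * mz 2 b η η' : ℤ) : ℂ)
          * (((η : H → ℂ) z / (η : H → ℂ) 1) * conj ((η' : H → ℂ) z / (η' : H → ℂ) 1)) ^ 0
        = ((∑ i ∈ (univ.filter (· ∈ b)) ×ˢ (univ.filter (· ∈ b)),
            (nX i.1 : ℤ) * (nX i.2 : ℤ) * mz 2 b i.1 i.2 : ℤ) : ℂ) := by
      rw [sum_product, Int.cast_sum]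
      refine sum_congr rfl fun η _ => ?_
      rw [Int.cast_sum]
      refine sum_congr rfl fun η' _ => ?_
      rw [pow_zero, mul_one]
    rw [h1, memLocalIdeal_intCast_iff hM] at h0
    rw [Int.odd_iff]
    have h2 : ¬ (2 : ℤ) ∣ ∑ i ∈ (univ.filter (· ∈ b)) ×ˢ (univ.filter (· ∈ b)),
        (nX i.1 : ℤ) * (nX i.2 : ℤ) * mz 2 b i.1 i.2 := by exact_mod_cast h0
    omega
  · rw [← ha]
    refine sum_congr rfl fun t _ => ?_
    rw [hsum t, mm_shift 2 b X X nX nX hnX hnX z hz t, mul_sum]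
    refine sum_congr rfl fun η hη => ?_
    rw [mul_sum]
    refine sum_congr rfl fun η' _ => ?_
    have h3 := mz_cast 2 M hM b η η' (mem_filter.1 hη).2
    push_cast at h3 ⊢
    rw [h3, hlam, hlam]
    ring

end diag

end Cfsg.Agent.Lib.Helper82.SecRow
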