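import Mathlib
import Cfsg.Agent.Lib.Helper82.SecCong
import Cfsg.Agent.Lib.Helper82.SecRow
import Cfsg.Agent.Lib.Helper82.Contrib

/-!
# Section coefficients and heights

For a `p`-element `x` of `G`, `C = C_G(x)`, a block `B` of `G` and `χ ∈ B` of height `h`:

* `secCoeff_mem`: `⟨secRes χ, ξ⟩ |G| / χ(1)` lies in the local ring;
* `sec_height`: `p ^ d ⟨secRes χ, ξ⟩ = p ^ h * (unit * ⟨secRes χ, ξ⟩ |G| / χ(1))`, `d` the defect
  of `B`;
* `lin_height`: integer combinations of the `p ^ d ⟨secRes χ, ξ⟩` lie in `p ^ h R_M`;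
* `mm_strict`: for a block `b` of `C` inducing `B` and of the same defect, and `h ≥ 1`, the
  scaled diagonal contribution `p ^ d mm χ χ` lies in `p ^ h` times the local ideal.
-/

set_option autoImplicit false

namespace Cfsg.Agent.Lib.Helper82.SecHeight

open Cfsg Cfsg.Agent.Lib.Helper77.LocalRing
  Cfsg.Agent.Lib.Helper75.Section Cfsg.Agent.Lib.Helper75.Section2
  Cfsg.Agent.Lib.Helper75.Section3 Cfsg.Agent.Lib.Helper75.BlockRank
  Cfsg.Agent.Lib.Helper82.SecSq Cfsg.Agent.Lib.Helper82.SecLocal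
  Cfsg.Agent.Lib.Helper82.SecCong Cfsg.Agent.Lib.Helper80.Contrib
open scoped ComplexConjugate
open Finset

universe u

section Hside

variable {H : Type u} [Group H] [Fintype H] [Fintype (IrrCharacter H)]

/-- The contribution of a block through the truncated left argument. -/
theorem mm_eq_sum_trunc_left (p : ℕ) [Fact p.Prime] (M : Ideal AlgInt) (hM : IsPModular p M)
    (b : Set (IrrCharacter H)) (hb : IsPBlock M b) [DecidablePred (· ∈ b)] (γ γ' : H → ℂ)
    (hγ : IsClassFunction H γ) :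
    mm p b γ γ' = ∑ η' ∈ univ.filter (· ∈ b),
      classInner (pRegularPart p γ) (η' : H → ℂ) * conj (classInner γ' (η' : H → ℂ)) := by
  unfold mm
  rw [sum_comm]
  refine sum_congr rfl fun η' hη' => ?_
  have hη'b := (mem_filter.1 hη').2
  rw [classInner_trunc_expand p γ hγ, sum_mul, sum_filter]
  refine sum_congr rfl fun η _ => ?_
  by_cases hη : η ∈ b
  · rw [if_pos hη]
    ring
  · rw [if_neg hη, classInner_trunc_symm p (η : H → ℂ),
      classInner_pRegularPart_eq_zero p M hM b hb η' η hη'b hη, map_zero, mul_zero, zero_mul]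

/-- The scaled contribution of `b` to the pairing of two shifted characters as a double sum
over the block. -/
theorem mm_pairs (p : ℕ) [Fact p.Prime] (M : Ideal AlgInt) (hM : IsPModular p M)
    (b : Set (IrrCharacter H)) [DecidablePred (· ∈ b)] (X Y : H → ℂ)
    (nX nY : IrrCharacter H → ℕ)
    (hnX : X = ∑ η : IrrCharacter H, (nX η : ℂ) • (η : H → ℂ))
    (hnY : Y = ∑ η : IrrCharacter H, (nY η : ℂ) • (η : H → ℂ)) (z : H)
    (hz : ∀ h : H, z * h = h * z) (t : ℕ) :
    (p : ℂ) ^ blockDefect p b * mm p b (fun h : H => X (z ^ t * h)) (fun h : H => Y (z ^ t * h))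
      = ∑ η ∈ univ.filter (· ∈ b), ∑ η' ∈ univ.filter (· ∈ b),
        (((nX η : ℤ) * (nY η' : ℤ) * mz p b η η' : ℤ) : ℂ)
          * (((η : H → ℂ) z / (η : H → ℂ) 1) * conj ((η' : H → ℂ) z / (η' : H → ℂ) 1)) ^ t := by
  rw [mm_shift p b X Y nX nY hnX hnY z hz t, mul_sum]
  refine sum_congr rfl fun η hη => ?_
  rw [mul_sum]
  refine sum_congr rfl fun η' _ => ?_
  push_cast
  rw [mz_cast p M hM b η η' (mem_filter.1 hη).2]
  ring

end Hside

section Gside

variable {G : Type u} [Group G]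

/-- The scaled section coefficient lies in the local ring. -/
theorem secCoeff_mem [Fintype G] (p : ℕ) [Fact p.Prime] (M : Ideal AlgInt)
    (hM : IsPModular p M) (x : G) (hx : ∃ k : ℕ, orderOf x = p ^ k)
    [Fintype (Subgroup.centralizer ({x} : Set G))]
    (ξ : IrrCharacter (Subgroup.centralizer ({x} : Set G))) (χ : IrrCharacter G) :
    MemLocalRing M (classInner (secRes p x (χ : G → ℂ))
          (ξ : Subgroup.centralizer ({x} : Set G) → ℂ) * (Nat.card G : ℂ) / (χ : G → ℂ) 1) := by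
  have hpp : p.Prime := Fact.out
  have hMp := isPrime_of_isPModular hM
  rw [classInner_secRes_irr p x _ (Cfsg.Agent.Lib.CT.Orth.irr_isClassFunction χ),
    conj_classInner_mul _ (secInd_isClassFunction p x _)]
  apply memLocalRing_sum hMp
  intro c _
  apply memLocalRing_mul hMp
  · rcases secInd_values hpp hx (ξ : Subgroup.centralizer ({x} : Set G) → ℂ)
      (Cfsg.Agent.Lib.CT.Orth.irr_isClassFunction ξ) c.out with h0 | ⟨y, hy⟩
    · rw [h0, map_zero]
      exact memLocalRing_zero hMp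
    · rw [hy, ← Cfsg.Agent.Lib.CT.Wedderburn.char_apply_inv
        (Cfsg.Agent.Lib.CT.Wedderburn.isCharacter_of_irr ξ.2)]
      exact memLocalRing_of_isIntegral hMp
        (Cfsg.Agent.Lib.Helper80.Integrality.isIntegral_irrCharacter ξ _)
  · exact memLocalRing_of_isIntegral hMp
      (Cfsg.Agent.Lib.Helper80.Integrality.isIntegral_centralChar χ _)

/-- The section coefficients of a character of height `h` in a block of defect `d`:
`p ^ d ⟨secRes χ, ξ⟩ = p ^ h * (unit * scaled coefficient)`. -/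
theorem sec_height [Fintype G] (p : ℕ) [Fact p.Prime] (B : Set (IrrCharacter G)) (x : G)
    [Fintype (Subgroup.centralizer ({x} : Set G))]
    (ξ : IrrCharacter (Subgroup.centralizer ({x} : Set G))) (χ : IrrCharacter G) (hχ : χ ∈ B) :
    (p : ℂ) ^ blockDefect p B * classInner (secRes p x (χ : G → ℂ))
        (ξ : Subgroup.centralizer ({x} : Set G) → ℂ)
      = (p : ℂ) ^ blockHeight p B (χ : G → ℂ)
        * (Cfsg.Agent.Lib.Helper82.Contrib.uu p (χ : G → ℂ)
          * (classInner (secRes p x (χ : G → ℂ)) (ξ : Subgroup.centralizer ({x} : Set G) → ℂ)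
            * (Nat.card G : ℂ) / (χ : G → ℂ) 1)) := by
  have hpp : p.Prime := Fact.out
  have hp0 : (p : ℂ) ≠ 0 := Nat.cast_ne_zero.2 hpp.ne_zero
  obtain ⟨hle, hfac⟩ := factorization_charDegree p B χ hχ
  have hχ1 : (χ : G → ℂ) 1 ≠ 0 := Cfsg.Agent.Lib.CT.Wedderburn.irr_apply_one_ne_zero χ.2
  have hG0 : (Nat.card G : ℂ) ≠ 0 := Nat.cast_ne_zero.2 Nat.card_pos.ne'
  have e1 : (p : ℂ) ^ (Nat.card G).factorization p
      = (p : ℂ) ^ ((Nat.card G).factorization p - blockDefect p B)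
        * (p : ℂ) ^ blockDefect p B := by
    rw [← pow_add, Nat.sub_add_cancel hle]
  have h1 : (p : ℂ) ^ (Nat.card G).factorization p * (χ : G → ℂ) 1 / (Nat.card G : ℂ)
      = (p : ℂ) ^ ((Nat.card G).factorization p - blockDefect p B)
        * (p : ℂ) ^ blockHeight p B (χ : G → ℂ)
        * Cfsg.Agent.Lib.Helper82.Contrib.uu p (χ : G → ℂ) := by
    have h2 := Cfsg.Agent.Lib.Helper82.Contrib.scal_eq p χ
    rw [hfac, pow_add] at h2
    push_cast at h2
    exact h2
  apply mul_left_cancel₀ (pow_ne_zero ((Nat.card G).factorization p - blockDefect p B) hp0)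
  calc (p : ℂ) ^ ((Nat.card G).factorization p - blockDefect p B)
        * ((p : ℂ) ^ blockDefect p B * classInner (secRes p x (χ : G → ℂ))
          (ξ : Subgroup.centralizer ({x} : Set G) → ℂ))
      = (p : ℂ) ^ (Nat.card G).factorization p * classInner (secRes p x (χ : G → ℂ))
          (ξ : Subgroup.centralizer ({x} : Set G) → ℂ) := by
        rw [← mul_assoc, ← e1]
    _ = ((p : ℂ) ^ (Nat.card G).factorization p * (χ : G → ℂ) 1 / (Nat.card G : ℂ))
        * (classInner (secRes p x (χ : G → ℂ)) (ξ : Subgroup.centralizer ({x} : Set G) → ℂ)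
          * (Nat.card G : ℂ) / (χ : G → ℂ) 1) := by
        field_simp
    _ = _ := by
        rw [h1]
        ring

/-- Integer combinations of the scaled section coefficients of a character of height `h` lie
in `p ^ h R_M`. -/
theorem lin_height [Fintype G] (p : ℕ) [Fact p.Prime] (M : Ideal AlgInt) (hM : IsPModular p M)
    (B : Set (IrrCharacter G)) (x : G) (hx : ∃ k : ℕ, orderOf x = p ^ k)
    [Fintype (Subgroup.centralizer ({x} : Set G))]
    [Fintype (IrrCharacter (Subgroup.centralizer ({x} : Set G)))]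
    (b : Set (IrrCharacter (Subgroup.centralizer ({x} : Set G)))) [DecidablePred (· ∈ b)]
    (c : IrrCharacter (Subgroup.centralizer ({x} : Set G)) → ℤ) (χ : IrrCharacter G)
    (hχ : χ ∈ B) :
    ∃ r : ℂ, MemLocalRing M r ∧
      (p : ℂ) ^ blockDefect p B * ∑ ξ ∈ univ.filter (· ∈ b), (c ξ : ℂ)
          * classInner (secRes p x (χ : G → ℂ)) (ξ : Subgroup.centralizer ({x} : Set G) → ℂ)
        = (p : ℂ) ^ blockHeight p B (χ : G → ℂ) * r := by
  have hMp := isPrime_of_isPModular hM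
  refine ⟨∑ ξ ∈ univ.filter (· ∈ b), (c ξ : ℂ)
    * (Cfsg.Agent.Lib.Helper82.Contrib.uu p (χ : G → ℂ)
      * (classInner (secRes p x (χ : G → ℂ)) (ξ : Subgroup.centralizer ({x} : Set G) → ℂ)
        * (Nat.card G : ℂ) / (χ : G → ℂ) 1)), ?_, ?_⟩
  · refine memLocalRing_sum hMp _ _ fun ξ _ => ?_
    exact memLocalRing_mul hMp (memLocalRing_intCast hMp _)
      (memLocalRing_mul hMp (Cfsg.Agent.Lib.Helper82.Contrib.memLocalRing_uu p hM χ)
        (secCoeff_mem p M hM x hx ξ χ))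
  · rw [mul_sum, mul_sum]
    refine sum_congr rfl fun ξ _ => ?_
    rw [mul_left_comm, sec_height p B x ξ χ hχ]
    ring

/-- **Strict divisibility of the diagonal contributions.**  Let `b` be a block of `C_G(x)`, `x` a
`p`-element, inducing the block `B` of `G` and of the same defect `d`.  For `χ ∈ B` of positive
height `h`, the scaled diagonal contribution `p ^ d mm χ χ` of the subsection `(x, b)` lies in
`p ^ h` times the local ideal. -/
theorem mm_strict [Fintype G] (p : ℕ) [Fact p.Prime] (M : Ideal AlgInt) (hM : IsPModular p M)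
    (B : Set (IrrCharacter G)) (x : G) (hx : ∃ k : ℕ, orderOf x = p ^ k)
    [Fintype (Subgroup.centralizer ({x} : Set G))]
    [Fintype (IrrCharacter (Subgroup.centralizer ({x} : Set G)))]
    (b : Set (IrrCharacter (Subgroup.centralizer ({x} : Set G)))) [DecidablePred (· ∈ b)]
    (hind : IsInducedBlock M (Subgroup.centralizer ({x} : Set G)) b B)
    (hd : blockDefect p b = blockDefect p B) (χ : IrrCharacter G) (hχ : χ ∈ B)
    (hpos : 1 ≤ blockHeight p B (χ : G → ℂ)) :
    ∃ r : ℂ, MemLocalIdeal M r ∧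
      (p : ℂ) ^ blockDefect p B
          * mm p b (fun c : Subgroup.centralizer ({x} : Set G) => (χ : G → ℂ) (x * c))
            (fun c : Subgroup.centralizer ({x} : Set G) => (χ : G → ℂ) (x * c))
        = (p : ℂ) ^ blockHeight p B (χ : G → ℂ) * r := by
  classical
  have hpp : p.Prime := Fact.out
  have hMp : M.IsPrime := isPrime_of_isPModular hM
  have hb : IsPBlock M b := hind.1
  have hB : IsPBlock M B := hind.2.1
  obtain ⟨k, hk⟩ := hx
  have hx : ∃ k : ℕ, orderOf x = p ^ k := ⟨k, hk⟩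
  -- the central element
  have hxC : x ∈ Subgroup.centralizer ({x} : Set G) := by
    rw [Subgroup.mem_centralizer_iff]
    intro h hh'
    rw [Set.mem_singleton_iff] at hh'
    rw [hh']
  obtain ⟨z, hzdef⟩ : ∃ z : Subgroup.centralizer ({x} : Set G), z = ⟨x, hxC⟩ := ⟨_, rfl⟩
  have hzval : (z : G) = x := by rw [hzdef]
  have hz : ∀ h : Subgroup.centralizer ({x} : Set G), z * h = h * z := by
    intro h
    apply Subtype.ext
    rw [Subgroup.coe_mul, Subgroup.coe_mul, hzval]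
    exact Subgroup.mem_centralizer_iff.1 h.2 x rfl
  have hzk : z ^ (p ^ k) = 1 := by
    apply Subtype.ext
    rw [Subgroup.coe_pow, hzval, ← hk, pow_orderOf_eq_one]
    rfl
  -- the restrictions
  have hres : ∀ χ' : IrrCharacter G, ∃ n : IrrCharacter (Subgroup.centralizer ({x} : Set G)) → ℕ,
      (fun y : Subgroup.centralizer ({x} : Set G) => (χ' : G → ℂ) y)
        = ∑ η : IrrCharacter (Subgroup.centralizer ({x} : Set G)), (n η : ℂ) • (η : Subgroup.centralizer ({x} : Set G) → ℂ) := by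
    intro χ'
    obtain ⟨n, -, hn⟩ := Cfsg.Agent.Lib.CT.NormOne.exists_mult_sum
      (Cfsg.Agent.Lib.CT.Ops.isCharacter_restrict (Subgroup.centralizer ({x} : Set G))
        (Cfsg.Agent.Lib.CT.Wedderburn.isCharacter_of_irr χ'.2))
    exact ⟨n, hn⟩
  choose nn hnn using hres
  have hshift : ∀ χ' : IrrCharacter G,
      (fun c : Subgroup.centralizer ({x} : Set G) => (χ' : G → ℂ) (x * c))
      = fun h : Subgroup.centralizer ({x} : Set G) => (fun y : Subgroup.centralizer ({x} : Set G) => (χ' : G → ℂ) y) (z ^ 1 * h) := by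
    intro χ'
    funext h
    show (χ' : G → ℂ) (x * h) = (χ' : G → ℂ) ((z ^ 1 * h : Subgroup.centralizer ({x} : Set G)) : G)
    rw [pow_one, Subgroup.coe_mul, hzval]
  obtain ⟨lam, hlam⟩ : ∃ lam : IrrCharacter (Subgroup.centralizer ({x} : Set G)) → ℂ,
      ∀ η, lam η = (η : Subgroup.centralizer ({x} : Set G) → ℂ) z / (η : Subgroup.centralizer ({x} : Set G) → ℂ) 1 := ⟨_, fun _ => rfl⟩
  have hlamk : ∀ η, lam η ^ (p ^ k) = 1 := fun η => by
    rw [hlam]
    exact lam_pow _ η.2 z hz _ hzk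
  have hconjI : ∀ η, MemLocalIdeal M (conj (lam η) - 1) := by
    intro η
    apply Cfsg.Agent.Lib.Helper16.PSection.memLocalIdeal_sub_one_of_pow_eq_one hM _ k
    rw [← map_pow, hlamk, map_one]
  have hconjR : ∀ η, MemLocalRing M (conj (lam η)) :=
    fun η => memLocalRing_of_sub_one hMp (hconjI η)
  have hcoef : ∀ (ψ : IrrCharacter G) (η' : IrrCharacter (Subgroup.centralizer ({x} : Set G))),
      classInner (fun c : Subgroup.centralizer ({x} : Set G) => (ψ : G → ℂ) (x * c)) (η' : Subgroup.centralizer ({x} : Set G) → ℂ)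
        = (nn ψ η' : ℂ) * lam η' := by
    intro ψ η'
    rw [hshift ψ, classInner_shift _ (nn ψ) (hnn ψ) z hz 1 η', pow_one, hlam]
  -- the scaled coefficients
  obtain ⟨T, hT⟩ : ∃ T : IrrCharacter G → IrrCharacter (Subgroup.centralizer ({x} : Set G)) → ℂ, ∀ χ' ξ,
      T χ' ξ = classInner (secRes p x (χ' : G → ℂ)) (ξ : Subgroup.centralizer ({x} : Set G) → ℂ) * (Nat.card G : ℂ)
        / (χ' : G → ℂ) 1 := ⟨_, fun _ _ => rfl⟩
  obtain ⟨E, hE⟩ : ∃ E : IrrCharacter G → IrrCharacter G → ℂ, ∀ χ' ψ,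
      E χ' ψ = ∑ η' ∈ univ.filter (· ∈ b), T χ' η' * ((nn ψ η' : ℂ) * conj (lam η')) :=
    ⟨_, fun _ _ => rfl⟩
  have hTR : ∀ χ' ξ, MemLocalRing M (T χ' ξ) := fun χ' ξ => by
    rw [hT]
    exact secCoeff_mem p M hM x hx ξ χ'
  have hER : ∀ χ' ψ, MemLocalRing M (E χ' ψ) := by
    intro χ' ψ
    rw [hE]
    exact memLocalRing_sum hMp _ _ fun η' _ => memLocalRing_mul hMp (hTR χ' η')
      (memLocalRing_mul hMp (memLocalRing_natCast hMp _) (hconjR η'))
  have hEcong : ∀ χ' ∈ B, ∀ χ'' ∈ B, ∀ ψ, MemLocalIdeal M (E χ' ψ - E χ'' ψ) := by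
    intro χ' hχ' χ'' hχ'' ψ
    rw [hE, hE, ← sum_sub_distrib]
    refine memLocalIdeal_sum hMp _ _ fun η' _ => ?_
    rw [← sub_mul]
    refine memLocalIdeal_mul_right hMp ?_
      (memLocalRing_mul hMp (memLocalRing_natCast hMp _) (hconjR η'))
    rw [hT, hT]
    exact secCoeff_cong p M hM x hx η' χ' χ''
      (Cfsg.Agent.Lib.Helper82.Contrib.sameBlock_of_mem hMp hB hχ' hχ'')
  -- the scaled contributions
  obtain ⟨Mm, hMm⟩ : ∃ Mm : IrrCharacter G → IrrCharacter G → ℂ, ∀ χ' ψ,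
      Mm χ' ψ = (p : ℂ) ^ blockDefect p B
        * mm p b (fun c : Subgroup.centralizer ({x} : Set G) => (χ' : G → ℂ) (x * c)) (fun c : Subgroup.centralizer ({x} : Set G) => (ψ : G → ℂ) (x * c)) :=
    ⟨_, fun _ _ => rfl⟩
  have hform : ∀ χ' ∈ B, ∀ ψ : IrrCharacter G, Mm χ' ψ
      = (p : ℂ) ^ blockHeight p B (χ' : G → ℂ)
        * (Cfsg.Agent.Lib.Helper82.Contrib.uu p (χ' : G → ℂ) * E χ' ψ) := by
    intro χ' hχ' ψ
    rw [hMm, mm_eq_sum_trunc_left p M hM b hb _ _
      (isClassFunction_shift x (Cfsg.Agent.Lib.CT.Orth.irr_isClassFunction χ')), hE, mul_sum,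
      mul_sum, mul_sum]
    refine sum_congr rfl fun η' _ => ?_
    rw [hcoef ψ η', map_mul, Complex.conj_natCast]
    have h1 := sec_height p B x η' χ' hχ'
    have h2 : classInner (pRegularPart p (fun c : Subgroup.centralizer ({x} : Set G) => (χ' : G → ℂ) (x * c))) (η' : Subgroup.centralizer ({x} : Set G) → ℂ)
        = classInner (secRes p x (χ' : G → ℂ)) (η' : Subgroup.centralizer ({x} : Set G) → ℂ) := rfl
    rw [h2, hT]
    linear_combination ((nn ψ η' : ℂ) * conj (lam η')) * h1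
  -- congruence with the integer form
  obtain ⟨Nf, hNf⟩ : ∃ Nf : IrrCharacter G → IrrCharacter G → ℤ, ∀ χ' ψ,
      Nf χ' ψ = ∑ η ∈ univ.filter (· ∈ b), ∑ η' ∈ univ.filter (· ∈ b),
        (nn χ' η : ℤ) * (nn ψ η' : ℤ) * mz p b η η' := ⟨_, fun _ _ => rfl⟩
  have hNsym : ∀ χ' ψ, Nf χ' ψ = Nf ψ χ' := by
    intro χ' ψ
    rw [hNf, hNf, sum_comm]
    refine sum_congr rfl fun η hη => sum_congr rfl fun η' hη' => ?_
    rw [mz_symm p M hM b η' η (mem_filter.1 hη').2 (mem_filter.1 hη).2]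
    ring
  have hNcong : ∀ χ' ψ : IrrCharacter G, MemLocalIdeal M (Mm χ' ψ - (Nf χ' ψ : ℂ)) := by
    intro χ' ψ
    have h1 : Mm χ' ψ = ∑ η ∈ univ.filter (· ∈ b), ∑ η' ∈ univ.filter (· ∈ b),
        (((nn χ' η : ℤ) * (nn ψ η' : ℤ) * mz p b η η' : ℤ) : ℂ)
          * (((η : Subgroup.centralizer ({x} : Set G) → ℂ) z / (η : Subgroup.centralizer ({x} : Set G) → ℂ) 1)
            * conj ((η' : Subgroup.centralizer ({x} : Set G) → ℂ) z / (η' : Subgroup.centralizer ({x} : Set G) → ℂ) 1)) ^ 1 := by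
      rw [hMm, ← hd, ← mm_pairs p M hM b _ _ (nn χ') (nn ψ) (hnn χ') (hnn ψ) z hz 1,
        ← hshift χ', ← hshift ψ]
    rw [h1, hNf, Int.cast_sum, ← sum_sub_distrib]
    refine memLocalIdeal_sum hMp _ _ fun η _ => ?_
    rw [Int.cast_sum, ← sum_sub_distrib]
    refine memLocalIdeal_sum hMp _ _ fun η' _ => ?_
    rw [← mul_sub_one]
    apply memLocalIdeal_mul_left hMp (memLocalRing_intCast hMp _)
    apply Cfsg.Agent.Lib.Helper16.PSection.memLocalIdeal_sub_one_of_pow_eq_one hM _ k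
    rw [pow_one, mul_pow, lam_pow _ η.2 z hz _ hzk, ← map_pow, lam_pow _ η'.2 z hz _ hzk,
      map_one, one_mul]
  -- a character of height zero
  obtain ⟨e, hae, -, χ₀, hχ₀, hχ₀e⟩ := Cfsg.Agent.Lib.Helper75.NumMinMax.exists_defect_data p B
    (Cfsg.Agent.Lib.CT.DefectZeroBlock.isPBlock_nonempty hMp hB)
  have hfc := factorization_charDegree p B χ₀ hχ₀
  have h0 : blockHeight p B (χ₀ : G → ℂ) = 0 := by omega
  have hpI : MemLocalIdeal M (p : ℂ) := memLocalIdeal_natCast_of_dvd hM (dvd_refl p)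
  have hpR : MemLocalRing M (p : ℂ) := memLocalRing_natCast hMp p
  have hphI : MemLocalIdeal M ((p : ℂ) ^ blockHeight p B (χ : G → ℂ)) := by
    obtain ⟨h', hh'⟩ : ∃ h', blockHeight p B (χ : G → ℂ) = h' + 1 :=
      ⟨blockHeight p B (χ : G → ℂ) - 1, by omega⟩
    rw [hh', pow_succ]
    exact memLocalIdeal_mul_left hMp (memLocalRing_pow hMp hpR _) hpI
  have huR := fun χ' : IrrCharacter G => Cfsg.Agent.Lib.Helper82.Contrib.memLocalRing_uu p hM χ'
  have s1 : MemLocalIdeal M (Mm χ χ₀) := by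
    rw [hform χ hχ χ₀]
    exact memLocalIdeal_mul_right hMp hphI (memLocalRing_mul hMp (huR χ) (hER χ χ₀))
  have s2 : MemLocalIdeal M ((Nf χ χ₀ : ℤ) : ℂ) := by
    have h1 := memLocalIdeal_sub hMp s1 (hNcong χ χ₀)
    rwa [sub_sub_cancel] at h1
  have s3 : MemLocalIdeal M (Mm χ₀ χ) := by
    have h2 : MemLocalIdeal M ((Nf χ₀ χ : ℤ) : ℂ) := by
      rw [hNsym χ₀ χ]
      exact s2
    have h1 := memLocalIdeal_add hMp (hNcong χ₀ χ) h2
    rwa [sub_add_cancel] at h1
  have s4 : MemLocalIdeal M (E χ₀ χ) := by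
    rw [hform χ₀ hχ₀ χ, h0, pow_zero, one_mul] at s3
    have h1 := memLocalIdeal_mul_left hMp
      (Cfsg.Agent.Lib.Helper82.Contrib.memLocalRing_uu_inv p hM χ₀) s3
    rwa [← mul_assoc, inv_mul_cancel₀ (Cfsg.Agent.Lib.Helper82.Contrib.uu_ne_zero p χ₀),
      one_mul] at h1
  have s5 : MemLocalIdeal M (E χ χ) := by
    have h1 := memLocalIdeal_add hMp (hEcong χ hχ χ₀ hχ₀ χ) s4
    rwa [sub_add_cancel] at h1
  exact ⟨Cfsg.Agent.Lib.Helper82.Contrib.uu p (χ : G → ℂ) * E χ χ,
    memLocalIdeal_mul_left hMp (huR χ) s5, by rw [← hMm]; exact hform χ hχ χ⟩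

end Gside

end Cfsg.Agent.Lib.Helper82.SecHeight
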