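import Mathlib
import Cfsg.Agent.Lib.Helper82.SecHeight
import Cfsg.Agent.S4431

/-!
# Non-vanishing of the contributions of a major subsection

* `mm_ne_zero`: for a block `b` of `C_G(x)`, `x` a `p`-element, inducing the block `B` of `G` and
  of the same defect, the contribution `mm χ ψ` of the subsection `(x, b)` does not vanish when
  one of `χ, ψ ∈ B` has height zero.
-/

set_option autoImplicit false

namespace Cfsg.Agent.Lib.Helper82.SecHeight2

open Cfsg Cfsg.Agent.Lib.Helper77.LocalRing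
  Cfsg.Agent.Lib.Helper75.Section Cfsg.Agent.Lib.Helper75.Section2
  Cfsg.Agent.Lib.Helper75.Section3 Cfsg.Agent.Lib.Helper75.BlockRank
  Cfsg.Agent.Lib.Helper82.SecSq Cfsg.Agent.Lib.Helper82.SecLocal
  Cfsg.Agent.Lib.Helper82.SecCong Cfsg.Agent.Lib.Helper80.Contrib
  Cfsg.Agent.Lib.Helper82.SecHeight
open scoped ComplexConjugate
open Finset

universe u

section Gside

variable {G : Type u} [Group G]

/-- **Non-vanishing of the contributions.**  Let `b` be a block of `C_G(x)`, `x` a `p`-element,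
inducing the block `B` of `G` and of the same defect.  For `χ, ψ ∈ B`, one of them of height
zero, the contribution `mm χ ψ` of the subsection `(x, b)` is not zero. -/
theorem mm_ne_zero [Fintype G] (p : ℕ) [Fact p.Prime] (M : Ideal AlgInt) (hM : IsPModular p M)
    (B : Set (IrrCharacter G)) (x : G) (hx : ∃ k : ℕ, orderOf x = p ^ k)
    [Fintype (Subgroup.centralizer ({x} : Set G))]
    [Fintype (IrrCharacter (Subgroup.centralizer ({x} : Set G)))]
    (b : Set (IrrCharacter (Subgroup.centralizer ({x} : Set G)))) [DecidablePred (· ∈ b)]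
    (hind : IsInducedBlock M (Subgroup.centralizer ({x} : Set G)) b B)
    (hd : blockDefect p b = blockDefect p B) (χ ψ : IrrCharacter G) (hχ : χ ∈ B) (hψ : ψ ∈ B)
    (h0 : blockHeight p B (χ : G → ℂ) = 0 ∨ blockHeight p B (ψ : G → ℂ) = 0) :
    mm p b (fun c : Subgroup.centralizer ({x} : Set G) => (χ : G → ℂ) (x * c))
      (fun c : Subgroup.centralizer ({x} : Set G) => (ψ : G → ℂ) (x * c)) ≠ 0 := by
  classical
  have hpp : p.Prime := Fact.out
  have hMp : M.IsPrime := isPrime_of_isPModular hM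
  have hb : IsPBlock M b := hind.1
  have hB : IsPBlock M B := hind.2.1
  obtain ⟨k, hk⟩ := hx
  have hx : ∃ k : ℕ, orderOf x = p ^ k := ⟨k, hk⟩
  -- the central element
  have hxC : x ∈ Subgroup.centralizer ({x} : Set G) := by
    rw [Subgroup.mem_centralizer_iff]
    intro h hh'
    rw [Set.mem_singleton_iff] at hh'
    rw [hh']
  obtain ⟨z, hzdef⟩ : ∃ z : Subgroup.centralizer ({x} : Set G), z = ⟨x, hxC⟩ := ⟨_, rfl⟩
  have hzval : (z : G) = x := by rw [hzdef]
  have hz : ∀ h : Subgroup.centralizer ({x} : Set G), z * h = h * z := by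
    intro h
    apply Subtype.ext
    rw [Subgroup.coe_mul, Subgroup.coe_mul, hzval]
    exact Subgroup.mem_centralizer_iff.1 h.2 x rfl
  have hzk : z ^ (p ^ k) = 1 := by
    apply Subtype.ext
    rw [Subgroup.coe_pow, hzval, ← hk, pow_orderOf_eq_one]
    rfl
  -- the restrictions
  have hres : ∀ χ' : IrrCharacter G, ∃ n : IrrCharacter (Subgroup.centralizer ({x} : Set G)) → ℕ,
      (fun y : Subgroup.centralizer ({x} : Set G) => (χ' : G → ℂ) y)
        = ∑ η : IrrCharacter (Subgroup.centralizer ({x} : Set G)), (n η : ℂ) • (η : Subgroup.centralizer ({x} : Set G) → ℂ) := by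
    intro χ'
    obtain ⟨n, -, hn⟩ := Cfsg.Agent.Lib.CT.NormOne.exists_mult_sum
      (Cfsg.Agent.Lib.CT.Ops.isCharacter_restrict (Subgroup.centralizer ({x} : Set G))
        (Cfsg.Agent.Lib.CT.Wedderburn.isCharacter_of_irr χ'.2))
    exact ⟨n, hn⟩
  choose nn hnn using hres
  have hshift : ∀ χ' : IrrCharacter G,
      (fun c : Subgroup.centralizer ({x} : Set G) => (χ' : G → ℂ) (x * c))
      = fun h : Subgroup.centralizer ({x} : Set G) => (fun y : Subgroup.centralizer ({x} : Set G) => (χ' : G → ℂ) y) (z ^ 1 * h) := by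
    intro χ'
    funext h
    show (χ' : G → ℂ) (x * h) = (χ' : G → ℂ) ((z ^ 1 * h : Subgroup.centralizer ({x} : Set G)) : G)
    rw [pow_one, Subgroup.coe_mul, hzval]
  obtain ⟨lam, hlam⟩ : ∃ lam : IrrCharacter (Subgroup.centralizer ({x} : Set G)) → ℂ,
      ∀ η, lam η = (η : Subgroup.centralizer ({x} : Set G) → ℂ) z / (η : Subgroup.centralizer ({x} : Set G) → ℂ) 1 := ⟨_, fun _ => rfl⟩
  have hlamk : ∀ η, lam η ^ (p ^ k) = 1 := fun η => by
    rw [hlam]
    exact lam_pow _ η.2 z hz _ hzk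
  have hconjI : ∀ η, MemLocalIdeal M (conj (lam η) - 1) := by
    intro η
    apply Cfsg.Agent.Lib.Helper16.PSection.memLocalIdeal_sub_one_of_pow_eq_one hM _ k
    rw [← map_pow, hlamk, map_one]
  have hconjR : ∀ η, MemLocalRing M (conj (lam η)) :=
    fun η => memLocalRing_of_sub_one hMp (hconjI η)
  have hcoef : ∀ (ψ : IrrCharacter G) (η' : IrrCharacter (Subgroup.centralizer ({x} : Set G))),
      classInner (fun c : Subgroup.centralizer ({x} : Set G) => (ψ : G → ℂ) (x * c)) (η' : Subgroup.centralizer ({x} : Set G) → ℂ)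
        = (nn ψ η' : ℂ) * lam η' := by
    intro ψ η'
    rw [hshift ψ, classInner_shift _ (nn ψ) (hnn ψ) z hz 1 η', pow_one, hlam]
  -- the scaled coefficients
  obtain ⟨T, hT⟩ : ∃ T : IrrCharacter G → IrrCharacter (Subgroup.centralizer ({x} : Set G)) → ℂ, ∀ χ' ξ,
      T χ' ξ = classInner (secRes p x (χ' : G → ℂ)) (ξ : Subgroup.centralizer ({x} : Set G) → ℂ) * (Nat.card G : ℂ)
        / (χ' : G → ℂ) 1 := ⟨_, fun _ _ => rfl⟩
  obtain ⟨E, hE⟩ : ∃ E : IrrCharacter G → IrrCharacter G → ℂ, ∀ χ' ψ,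
      E χ' ψ = ∑ η' ∈ univ.filter (· ∈ b), T χ' η' * ((nn ψ η' : ℂ) * conj (lam η')) :=
    ⟨_, fun _ _ => rfl⟩
  have hTR : ∀ χ' ξ, MemLocalRing M (T χ' ξ) := fun χ' ξ => by
    rw [hT]
    exact secCoeff_mem p M hM x hx ξ χ'
  have hER : ∀ χ' ψ, MemLocalRing M (E χ' ψ) := by
    intro χ' ψ
    rw [hE]
    exact memLocalRing_sum hMp _ _ fun η' _ => memLocalRing_mul hMp (hTR χ' η')
      (memLocalRing_mul hMp (memLocalRing_natCast hMp _) (hconjR η'))
  have hEcong : ∀ χ' ∈ B, ∀ χ'' ∈ B, ∀ ψ, MemLocalIdeal M (E χ' ψ - E χ'' ψ) := by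
    intro χ' hχ' χ'' hχ'' ψ
    rw [hE, hE, ← sum_sub_distrib]
    refine memLocalIdeal_sum hMp _ _ fun η' _ => ?_
    rw [← sub_mul]
    refine memLocalIdeal_mul_right hMp ?_
      (memLocalRing_mul hMp (memLocalRing_natCast hMp _) (hconjR η'))
    rw [hT, hT]
    exact secCoeff_cong p M hM x hx η' χ' χ''
      (Cfsg.Agent.Lib.Helper82.Contrib.sameBlock_of_mem hMp hB hχ' hχ'')
  -- the scaled contributions
  obtain ⟨Mm, hMm⟩ : ∃ Mm : IrrCharacter G → IrrCharacter G → ℂ, ∀ χ' ψ,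
      Mm χ' ψ = (p : ℂ) ^ blockDefect p B
        * mm p b (fun c : Subgroup.centralizer ({x} : Set G) => (χ' : G → ℂ) (x * c)) (fun c : Subgroup.centralizer ({x} : Set G) => (ψ : G → ℂ) (x * c)) :=
    ⟨_, fun _ _ => rfl⟩
  have hform : ∀ χ' ∈ B, ∀ ψ : IrrCharacter G, Mm χ' ψ
      = (p : ℂ) ^ blockHeight p B (χ' : G → ℂ)
        * (Cfsg.Agent.Lib.Helper82.Contrib.uu p (χ' : G → ℂ) * E χ' ψ) := by
    intro χ' hχ' ψ
    rw [hMm, mm_eq_sum_trunc_left p M hM b hb _ _
      (isClassFunction_shift x (Cfsg.Agent.Lib.CT.Orth.irr_isClassFunction χ')), hE, mul_sum,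
      mul_sum, mul_sum]
    refine sum_congr rfl fun η' _ => ?_
    rw [hcoef ψ η', map_mul, Complex.conj_natCast]
    have h1 := sec_height p B x η' χ' hχ'
    have h2 : classInner (pRegularPart p (fun c : Subgroup.centralizer ({x} : Set G) => (χ' : G → ℂ) (x * c))) (η' : Subgroup.centralizer ({x} : Set G) → ℂ)
        = classInner (secRes p x (χ' : G → ℂ)) (η' : Subgroup.centralizer ({x} : Set G) → ℂ) := rfl
    rw [h2, hT]
    linear_combination ((nn ψ η' : ℂ) * conj (lam η')) * h1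
  -- the double sums
  have hMmpairs : ∀ χ' ψ : IrrCharacter G, Mm χ' ψ
      = ∑ η ∈ univ.filter (· ∈ b), ∑ η' ∈ univ.filter (· ∈ b),
        (((nn χ' η : ℤ) * (nn ψ η' : ℤ) * mz p b η η' : ℤ) : ℂ)
          * (((η : Subgroup.centralizer ({x} : Set G) → ℂ) z / (η : Subgroup.centralizer ({x} : Set G) → ℂ) 1)
            * conj ((η' : Subgroup.centralizer ({x} : Set G) → ℂ) z / (η' : Subgroup.centralizer ({x} : Set G) → ℂ) 1)) ^ 1 := by
    intro χ' ψ
    rw [hMm, ← hd, ← mm_pairs p M hM b _ _ (nn χ') (nn ψ) (hnn χ') (hnn ψ) z hz 1,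
      ← hshift χ', ← hshift ψ]
  have hp0 : (p : ℂ) ≠ 0 := Nat.cast_ne_zero.2 hpp.ne_zero
  have huR := fun χ' : IrrCharacter G => Cfsg.Agent.Lib.Helper82.Contrib.memLocalRing_uu p hM χ'
  -- the conclusion of S4431 for the members of `B` of height zero
  have hS : ∀ ψ' ∈ B, blockHeight p B (ψ' : G → ℂ) = 0 → ∀ η ∈ b, ¬ MemLocalIdeal M (classInner
      (fun h : Subgroup.centralizer ({x} : Set G) => if p ∣ orderOf h then (0 : ℂ) else
        ((p ^ (Nat.card (Subgroup.centralizer ({x} : Set G))).factorization p : ℕ) : ℂ)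
          * (ψ' : G → ℂ) h) (η : Subgroup.centralizer ({x} : Set G) → ℂ)
        / (η : Subgroup.centralizer ({x} : Set G) → ℂ) 1) :=
    fun ψ' hψ' h0' η hη => (Cfsg.Agent.S4431.result p M hM _ b B hind ψ' η hη).2 hψ' h0'
  have hdiag : ∀ ψ' ∈ B, blockHeight p B (ψ' : G → ℂ) = 0 → ¬ MemLocalIdeal M (Mm ψ' ψ') := by
    intro ψ' hψ' h0'
    rw [hMmpairs ψ' ψ']
    exact alpha_not_mem p M hM b hb z hz k hzk
      (fun y : Subgroup.centralizer ({x} : Set G) => (ψ' : G → ℂ) y)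
      (fun y : Subgroup.centralizer ({x} : Set G) => (ψ' : G → ℂ) y) (nn ψ') (nn ψ') (hnn ψ')
      (hnn ψ') (hS ψ' hψ' h0') (hS ψ' hψ' h0') 1
  have hkey : ∀ χ' ∈ B, ∀ ψ' ∈ B, blockHeight p B (ψ' : G → ℂ) = 0 → Mm χ' ψ' ≠ 0 := by
    intro χ' hχ' ψ' hψ' h0'
    have h1 := hdiag ψ' hψ' h0'
    rw [hform ψ' hψ' ψ', h0', pow_zero, one_mul] at h1
    have h2 : ¬ MemLocalIdeal M (E ψ' ψ') :=
      fun h => h1 (memLocalIdeal_mul_left hMp (huR ψ') h)
    have h3 : ¬ MemLocalIdeal M (E χ' ψ') := by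
      intro h
      apply h2
      have h4 := memLocalIdeal_sub hMp h (hEcong χ' hχ' ψ' hψ' ψ')
      rwa [sub_sub_cancel] at h4
    have h5 : E χ' ψ' ≠ 0 := by
      intro h
      apply h3
      rw [h]
      exact memLocalIdeal_zero hMp
    rw [hform χ' hχ' ψ']
    exact mul_ne_zero (pow_ne_zero _ hp0)
      (mul_ne_zero (Cfsg.Agent.Lib.Helper82.Contrib.uu_ne_zero p χ') h5)
  -- conjugate symmetry
  have hconj : ∀ χ' ψ' : IrrCharacter G, Mm χ' ψ' = conj (Mm ψ' χ') := by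
    intro χ' ψ'
    rw [hMmpairs χ' ψ', hMmpairs ψ' χ', map_sum, sum_comm]
    refine sum_congr rfl fun η hη => ?_
    rw [map_sum]
    refine sum_congr rfl fun η' hη' => ?_
    rw [map_mul, map_intCast, pow_one, pow_one, map_mul, Complex.conj_conj,
      mz_symm p M hM b η' η (mem_filter.1 hη').2 (mem_filter.1 hη).2]
    push_cast
    ring
  have hfin : Mm χ ψ ≠ 0 := by
    rcases h0 with h | h
    · rw [hconj χ ψ]
      intro h1
      exact hkey ψ hψ χ hχ h ((map_eq_zero _).1 h1)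
    · exact hkey χ hχ ψ hψ h
  intro h1
  apply hfin
  rw [hMm, h1, mul_zero]

end Gside

end Cfsg.Agent.Lib.Helper82.SecHeight2
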