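import Mathlib
import Cfsg.Agent.Lib.Helper77.LocalRing
import Cfsg.Agent.Lib.Helper16.PSection
import Cfsg.Agent.Lib.Helper80.Contrib
import Cfsg.Agent.Lib.Helper82.CycSum
import Cfsg.Agent.Lib.Helper82.TwoUnits

/-!
# `2`-adic divisibility of integer combinations of `2`-power roots of unity

`M` is a maximal ideal of the algebraic integers containing `2`, and `ζ` a primitive `2 ^ k`-th
root of unity, `φ = φ(2 ^ k)`.

* `two_eq_pow_mul`: `2 = (ζ - 1) ^ φ * v` with `v` in the local ring;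
* `dvd_coeffs`: if `∑_{e < φ} y e ζ ^ e ∈ 2 ^ h R_M` for integers `y e` then `2 ^ h ∣ y e`;
* `exists_rep`: every `2 ^ k`-th root of unity is `± ζ ^ e` with `e < φ`;
* `orth`: orthogonality of the `ζ ^ e`, `e < φ`, over the units modulo `2 ^ k`;
* `cyc_div_ge`: an integer combination of `2 ^ k`-th roots of unity that is nonzero and lies in
  `2 ^ h R_M` has mean square over the units at least `4 ^ h`;
* `caseB_core`: the diagonal sums of a quadratic form twisted by `2 ^ k`-th roots of unity.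
-/

set_option autoImplicit false

namespace Cfsg.Agent.Lib.Helper82.TwoAdic

open Cfsg Cfsg.Agent.Lib.Helper77.LocalRing Cfsg.Agent.Lib.Helper80.Contrib
  Cfsg.Agent.Lib.Helper82.TwoUnits Cfsg.Agent.Lib.Helper82.CycSum
open scoped ComplexConjugate
open Finset

variable {M : Ideal AlgInt}

/-- `2` is `(ζ - 1) ^ φ` times an element of the local ring. -/
theorem two_eq_pow_mul (hM : IsPModular 2 M) : ∀ (k : ℕ) (ζ : ℂ),
    IsPrimitiveRoot ζ (2 ^ (k + 1)) →
    ∃ v : ℂ, MemLocalRing M v ∧ (2 : ℂ) = (ζ - 1) ^ (2 ^ k) * v := by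
  have hMp := isPrime_of_isPModular hM
  intro k
  induction k with
  | zero =>
    intro ζ hζ
    have h1 : ζ = -1 := by
      have h2 : IsPrimitiveRoot ζ 2 := by simpa using hζ
      exact h2.eq_neg_one_of_two_right
    refine ⟨-1, memLocalRing_neg (memLocalRing_one hMp), ?_⟩
    rw [h1]
    norm_num
  | succ k ih =>
    intro ζ hζ
    have hζ2 : IsPrimitiveRoot (ζ ^ 2) (2 ^ (k + 1)) :=
      IsPrimitiveRoot.pow (by positivity) hζ (by ring)
    obtain ⟨v, hv, h2⟩ := ih (ζ ^ 2) hζ2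
    have hζR : MemLocalRing M ζ := memLocalRing_of_isIntegral hMp (hζ.isIntegral (by positivity))
    have hσR : MemLocalRing M (ζ - 1) := memLocalRing_sub hMp hζR (memLocalRing_one hMp)
    have hζ1R : MemLocalRing M (ζ + 1) := memLocalRing_add hMp hζR (memLocalRing_one hMp)
    obtain ⟨g, hg⟩ : ∃ g : ℂ, g = 1 + (ζ - 1) ^ (2 ^ k - 1) * (ζ + 1) ^ (2 ^ k) * v := ⟨_, rfl⟩
    have hgR : MemLocalRing M g := by
      rw [hg]
      exact memLocalRing_add hMp (memLocalRing_one hMp) (memLocalRing_mul hMp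
        (memLocalRing_mul hMp (memLocalRing_pow hMp hσR _) (memLocalRing_pow hMp hζ1R _)) hv)
    have h4 : (ζ - 1) ^ (2 ^ k) = (ζ - 1) * (ζ - 1) ^ (2 ^ k - 1) := by
      rw [← pow_succ', Nat.sub_add_cancel Nat.one_le_two_pow]
    have h5 : ζ ^ 2 - 1 = (ζ - 1) * (ζ + 1) := by ring
    have h3 : ζ + 1 = (ζ - 1) * g := by
      rw [hg]
      calc ζ + 1 = (ζ - 1) + 2 := by ring
        _ = (ζ - 1) + (ζ ^ 2 - 1) ^ (2 ^ k) * v := by rw [← h2]
        _ = (ζ - 1) * (1 + (ζ - 1) ^ (2 ^ k - 1) * (ζ + 1) ^ (2 ^ k) * v) := by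
          rw [h5, mul_pow, h4]
          ring
    refine ⟨g ^ (2 ^ k) * v, memLocalRing_mul hMp (memLocalRing_pow hMp hgR _) hv, ?_⟩
    calc (2 : ℂ) = (ζ ^ 2 - 1) ^ (2 ^ k) * v := h2
      _ = ((ζ - 1) ^ 2 * g) ^ (2 ^ k) * v := by
        rw [h5]
        conv_lhs => rw [h3]
        ring
      _ = (ζ - 1) ^ (2 ^ (k + 1)) * (g ^ (2 ^ k) * v) := by
        rw [mul_pow, ← pow_mul, ← pow_succ']
        ring

/-- Division of a polynomial expression by `x - 1` with remainder its value at `1`, together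
with the parity bookkeeping. -/
theorem exists_tail (n : ℕ) : ∀ y : ℕ → ℤ, ∃ y' : ℕ → ℤ,
    (∀ x : ℂ, ∑ e ∈ range (n + 1), (y e : ℂ) * x ^ e
      = ((∑ e ∈ range (n + 1), y e : ℤ) : ℂ) + (x - 1) * ∑ j ∈ range n, (y' j : ℂ) * x ^ j) ∧
    ((2 : ℤ) ∣ ∑ e ∈ range (n + 1), y e → (∀ j < n, (2 : ℤ) ∣ y' j) →
      ∀ e < n + 1, (2 : ℤ) ∣ y e) := by
  induction n with
  | zero =>
    intro y
    refine ⟨fun _ => 0, ?_, ?_⟩
    · intro x
      simp
    · intro h _ e he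
      have h0 : e = 0 := by omega
      subst h0
      simpa using h
  | succ n ih =>
    intro y
    obtain ⟨y'', h1, h2⟩ := ih y
    refine ⟨fun j => (if j < n then y'' j else 0) + y (n + 1), ?_, ?_⟩
    · intro x
      have h3 : ∑ j ∈ range (n + 1), (((if j < n then y'' j else 0) + y (n + 1) : ℤ) : ℂ) * x ^ j
          = ∑ j ∈ range n, (y'' j : ℂ) * x ^ j + (y (n + 1) : ℂ) * ∑ j ∈ range (n + 1), x ^ j := by
        have h5 : ∀ j ∈ range (n + 1),
            (((if j < n then y'' j else 0) + y (n + 1) : ℤ) : ℂ) * x ^ j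
            = ((if j < n then y'' j else 0 : ℤ) : ℂ) * x ^ j + (y (n + 1) : ℂ) * x ^ j := by
          intro j _
          rw [Int.cast_add, add_mul]
        rw [sum_congr rfl h5, sum_add_distrib, ← mul_sum, sum_range_succ, if_neg (lt_irrefl n)]
        congr 1
        rw [Int.cast_zero, zero_mul, add_zero]
        refine sum_congr rfl fun j hj => ?_
        rw [if_pos (mem_range.1 hj)]
      have h4 : (x - 1) * ∑ j ∈ range (n + 1), x ^ j = x ^ (n + 1) - 1 := mul_geom_sum x (n + 1)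
      rw [sum_range_succ, h1 x, h3, sum_range_succ (fun e => y e) (n + 1), mul_add,
        mul_left_comm (x - 1) (y (n + 1) : ℂ), h4]
      push_cast
      ring
    · intro hY hy' e he
      have hn1 : (2 : ℤ) ∣ y (n + 1) := by
        have h := hy' n (Nat.lt_succ_self n)
        simpa using h
      have hYn : (2 : ℤ) ∣ ∑ e ∈ range (n + 1), y e := by
        rw [sum_range_succ] at hY
        exact (dvd_add_left hn1).1 hY
      have hy'' : ∀ j < n, (2 : ℤ) ∣ y'' j := by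
        intro j hj
        have h := hy' j (by omega)
        simp only [if_pos hj] at h
        exact (dvd_add_left hn1).1 h
      rcases Nat.lt_succ_iff_lt_or_eq.1 he with h | h
      · exact h2 hYn hy'' e h
      · rw [h]
        exact hn1

/-- The coefficients of a short combination of powers of `ζ` lying in a high power of
`(ζ - 1)` are even. -/
theorem even_coeffs_aux (hM : IsPModular 2 M) (ζ : ℂ) (φ : ℕ) (hζR : MemLocalRing M ζ)
    (hσ : MemLocalIdeal M (ζ - 1)) (hσ0 : ζ - 1 ≠ 0) (v : ℂ) (hv : MemLocalRing M v)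
    (h2 : (2 : ℂ) = (ζ - 1) ^ φ * v) :
    ∀ (n : ℕ) (y : ℕ → ℤ) (m : ℕ), n ≤ m → m ≤ φ →
      (∃ r : ℂ, MemLocalRing M r ∧ ∑ e ∈ range n, (y e : ℂ) * ζ ^ e = (ζ - 1) ^ m * r) →
      ∀ e < n, (2 : ℤ) ∣ y e := by
  have hMp := isPrime_of_isPModular hM
  have hσR := memLocalRing_of_memLocalIdeal hσ
  intro n
  induction n with
  | zero =>
    intro y m _ _ _ e he
    omega
  | succ n ih =>
    intro y m hnm hmφ hex
    obtain ⟨r, hr, hsum⟩ := hex
    obtain ⟨y', h1, h2'⟩ := exists_tail n y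
    have hid := h1 ζ
    rw [hsum] at hid
    have hS'R : MemLocalRing M (∑ j ∈ range n, (y' j : ℂ) * ζ ^ j) :=
      memLocalRing_sum hMp _ _ fun j _ =>
        memLocalRing_mul hMp (memLocalRing_intCast hMp _) (memLocalRing_pow hMp hζR _)
    obtain ⟨m', hm'⟩ : ∃ m', m = m' + 1 := ⟨m - 1, by omega⟩
    subst hm'
    have hY : MemLocalIdeal M ((∑ e ∈ range (n + 1), y e : ℤ) : ℂ) := by
      have h3 : ((∑ e ∈ range (n + 1), y e : ℤ) : ℂ)
          = (ζ - 1) * ((ζ - 1) ^ m' * r - ∑ j ∈ range n, (y' j : ℂ) * ζ ^ j) := by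
        linear_combination (-1 : ℂ) * hid
      rw [h3]
      exact memLocalIdeal_mul_right hMp hσ
        (memLocalRing_sub hMp (memLocalRing_mul hMp (memLocalRing_pow hMp hσR _) hr) hS'R)
    have hYdvd : (2 : ℤ) ∣ ∑ e ∈ range (n + 1), y e := by
      have h3 := (memLocalIdeal_intCast_iff hM _).1 hY
      exact_mod_cast h3
    obtain ⟨Y', hY'⟩ := hYdvd
    have h3 : (ζ - 1) ^ φ = (ζ - 1) ^ (m' + 1) * (ζ - 1) ^ (φ - (m' + 1)) := by
      rw [← pow_add]
      congr 1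
      omega
    have hYeq : ((∑ e ∈ range (n + 1), y e : ℤ) : ℂ)
        = (ζ - 1) ^ (m' + 1) * (ζ - 1) ^ (φ - (m' + 1)) * v * (Y' : ℂ) := by
      rw [hY', ← h3, ← h2]
      push_cast
      ring
    have hq : ∑ j ∈ range n, (y' j : ℂ) * ζ ^ j
        = (ζ - 1) ^ m' * (r - (ζ - 1) ^ (φ - (m' + 1)) * v * (Y' : ℂ)) := by
      apply mul_left_cancel₀ hσ0
      linear_combination (-1 : ℂ) * hid - hYeq
    have hy' := ih y' m' (by omega) (by omega) ⟨_, memLocalRing_sub hMp hr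
      (memLocalRing_mul hMp (memLocalRing_mul hMp (memLocalRing_pow hMp hσR _) hv)
        (memLocalRing_intCast hMp _)), hq⟩
    exact h2' ⟨Y', hY'⟩ hy'

/-- `ζ ^ (2 ^ k) = -1` for a primitive `2 ^ (k + 1)`-th root of unity. -/
theorem zeta_half (k : ℕ) (ζ : ℂ) (hζ : IsPrimitiveRoot ζ (2 ^ (k + 1))) : ζ ^ (2 ^ k) = -1 := by
  have hh : (ζ ^ (2 ^ k)) ^ 2 = 1 := by
    rw [← pow_mul, ← pow_succ]
    exact hζ.pow_eq_one
  have hne : ζ ^ (2 ^ k) ≠ 1 :=
    hζ.pow_ne_one_of_pos_of_lt (by positivity)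
      (Nat.pow_lt_pow_right (by norm_num) (Nat.lt_succ_self k))
  have h' : (ζ ^ (2 ^ k) - 1) * (ζ ^ (2 ^ k) + 1) = 0 := by linear_combination hh
  rcases mul_eq_zero.1 h' with h | h
  · exact absurd (by linear_combination h) hne
  · linear_combination h

/-- If an integer combination `∑_{e < φ} y e ζ ^ e` lies in `2 ^ h R_M`, then `2 ^ h` divides
every coefficient. -/
theorem dvd_coeffs (hM : IsPModular 2 M) (k : ℕ) (ζ : ℂ) (hζ : IsPrimitiveRoot ζ (2 ^ k)) :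
    ∀ (h : ℕ) (y : ℕ → ℤ) (r : ℂ), MemLocalRing M r →
      ∑ e ∈ range (2 ^ k).totient, (y e : ℂ) * ζ ^ e = 2 ^ h * r →
      ∀ e < (2 ^ k).totient, (2 : ℤ) ^ h ∣ y e := by
  have hMp := isPrime_of_isPModular hM
  have h2I : MemLocalIdeal M (2 : ℂ) := by
    have := memLocalIdeal_natCast_of_dvd hM (dvd_refl 2)
    exact_mod_cast this
  have hone : ∀ (y : ℕ → ℤ) (r : ℂ), MemLocalRing M r →
      ∑ e ∈ range (2 ^ k).totient, (y e : ℂ) * ζ ^ e = 2 * r →
      ∀ e < (2 ^ k).totient, (2 : ℤ) ∣ y e := by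
    intro y r hr hsum
    cases k with
    | zero =>
      intro e he
      have hφ : (2 ^ 0).totient = 1 := by simp
      rw [hφ] at hsum he
      have h0 : e = 0 := by omega
      subst h0
      rw [sum_range_one, pow_zero, mul_one] at hsum
      have h3 : MemLocalIdeal M ((y 0 : ℤ) : ℂ) := by
        rw [hsum]
        exact memLocalIdeal_mul_right hMp h2I hr
      have h4 := (memLocalIdeal_intCast_iff hM _).1 h3
      exact_mod_cast h4
    | succ k =>
      have hφ : (2 ^ (k + 1)).totient = 2 ^ k := by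
        rw [Nat.totient_prime_pow_succ Nat.prime_two]
        simp
      rw [hφ] at hsum ⊢
      obtain ⟨v, hv, h2⟩ := two_eq_pow_mul hM k ζ hζ
      have hζR : MemLocalRing M ζ :=
        memLocalRing_of_isIntegral hMp (hζ.isIntegral (by positivity))
      have hσ : MemLocalIdeal M (ζ - 1) :=
        Cfsg.Agent.Lib.Helper16.PSection.memLocalIdeal_sub_one_of_pow_eq_one hM ζ (k + 1)
          hζ.pow_eq_one
      have hσ0 : ζ - 1 ≠ 0 := by
        intro h0
        have h1 : ζ = 1 := by linear_combination h0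
        exact hζ.ne_one (by
          have : 2 ^ 1 ≤ 2 ^ (k + 1) := Nat.pow_le_pow_right (by norm_num) (by omega)
          omega) h1
      exact even_coeffs_aux hM ζ (2 ^ k) hζR hσ hσ0 v hv h2 (2 ^ k) y (2 ^ k) le_rfl le_rfl
        ⟨v * r, memLocalRing_mul hMp hv hr, by rw [hsum, h2]; ring⟩
  intro h
  induction h with
  | zero =>
    intro y r _ _ e _
    simp
  | succ h ih =>
    intro y r hr hsum e he
    have hev := hone y (2 ^ h * r) (memLocalRing_mul hMp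
      (memLocalRing_pow hMp (memLocalRing_of_memLocalIdeal h2I) _) hr)
      (by rw [hsum]; ring)
    have hy : ∀ e ∈ range (2 ^ k).totient, (y e : ℂ) = 2 * ((y e / 2 : ℤ) : ℂ) := by
      intro e he
      have h1 := hev e (mem_range.1 he)
      have h2 : y e = 2 * (y e / 2) := (Int.mul_ediv_cancel' h1).symm
      have h3 : ((y e : ℤ) : ℂ) = ((2 * (y e / 2) : ℤ) : ℂ) := by rw [← h2]
      rw [h3]
      push_cast
      ring
    have hsum' : ∑ e ∈ range (2 ^ k).totient, ((y e / 2 : ℤ) : ℂ) * ζ ^ e = 2 ^ h * r := by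
      have h1 : (2 : ℂ) * ∑ e ∈ range (2 ^ k).totient, ((y e / 2 : ℤ) : ℂ) * ζ ^ e
          = 2 * (2 ^ h * r) := by
        rw [mul_sum, ← mul_assoc, ← pow_succ', ← hsum]
        refine sum_congr rfl fun e he => ?_
        rw [hy e he]
        ring
      exact mul_left_cancel₀ two_ne_zero h1
    have h1 := ih (fun e => y e / 2) r hr hsum' e he
    have h2 : y e = 2 * (y e / 2) := (Int.mul_ediv_cancel' (hev e he)).symm
    rw [h2, pow_succ']
    exact mul_dvd_mul_left 2 h1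

/-- An integer in `2 ^ h R_M` is divisible by `2 ^ h`. -/
theorem int_dvd_of_eq (hM : IsPModular 2 M) (h : ℕ) (N : ℤ) (r : ℂ) (hr : MemLocalRing M r)
    (hN : (N : ℂ) = 2 ^ h * r) : (2 : ℤ) ^ h ∣ N := by
  have h1 := dvd_coeffs hM 0 1 (by simp) h (fun _ => N) r hr
    (by simpa using hN) 0 (by simp)
  exact h1

/-- An integer in `2 ^ h` times the local ideal is divisible by `2 ^ (h + 1)`. -/
theorem int_dvd_succ_of_eq (hM : IsPModular 2 M) (h : ℕ) (N : ℤ) (r : ℂ)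
    (hr : MemLocalIdeal M r) (hN : (N : ℂ) = 2 ^ h * r) : (2 : ℤ) ^ (h + 1) ∣ N := by
  obtain ⟨N', hN'⟩ := int_dvd_of_eq hM h N r (memLocalRing_of_memLocalIdeal hr) hN
  have h1 : ((N' : ℤ) : ℂ) = r := by
    have h2 : (2 : ℂ) ^ h * (N' : ℂ) = 2 ^ h * r := by
      rw [← hN, hN']
      push_cast
      ring
    exact mul_left_cancel₀ (pow_ne_zero _ two_ne_zero) h2
  have h3 : MemLocalIdeal M ((N' : ℤ) : ℂ) := by rw [h1]; exact hr
  have h4 := (memLocalIdeal_intCast_iff hM _).1 h3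
  have h5 : (2 : ℤ) ∣ N' := by exact_mod_cast h4
  rw [hN', pow_succ]
  exact mul_dvd_mul_left _ h5

/-- Every `2 ^ k`-th root of unity is `± ζ ^ e` with `e < φ`. -/
theorem exists_rep (k : ℕ) (ζ : ℂ) (hζ : IsPrimitiveRoot ζ (2 ^ k)) (μ : ℂ)
    (hμ : μ ^ (2 ^ k) = 1) :
    ∃ e : ℕ, e < (2 ^ k).totient ∧ ∃ s : ℤ, (s = 1 ∨ s = -1) ∧ μ = (s : ℂ) * ζ ^ e ∧
      ∀ t ∈ (range (2 ^ k)).filter (fun t => Nat.Coprime t (2 ^ k)),
        μ ^ t = (s : ℂ) * (ζ ^ e) ^ t := by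
  cases k with
  | zero =>
    have h1 : μ = 1 := by simpa using hμ
    refine ⟨0, by simp, 1, Or.inl rfl, by simp [h1], ?_⟩
    intro t _
    simp [h1]
  | succ k =>
    have hφ : (2 ^ (k + 1)).totient = 2 ^ k := by
      rw [Nat.totient_prime_pow_succ Nat.prime_two]
      simp
    rw [hφ]
    have : NeZero (2 ^ (k + 1)) := ⟨by positivity⟩
    obtain ⟨j, hj, hjμ⟩ := hζ.eq_pow_of_pow_eq_one hμ
    have hhalf := zeta_half k ζ hζ
    obtain ⟨N, hN⟩ : ∃ N : ℕ, N = 2 ^ k := ⟨_, rfl⟩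
    have hN2 : 2 ^ (k + 1) = 2 * N := by rw [hN, pow_succ']
    rw [← hN] at hhalf ⊢
    rw [hN2] at hj
    by_cases hj' : j < N
    · refine ⟨j, hj', 1, Or.inl rfl, by rw [← hjμ]; simp, ?_⟩
      intro t _
      rw [← hjμ]
      simp
    · have hj2 : j = N + (j - N) := by omega
      have hμ' : μ = -ζ ^ (j - N) := by
        rw [← hjμ]
        conv_lhs => rw [hj2]
        rw [pow_add, hhalf]
        ring
      refine ⟨j - N, by omega, -1, Or.inr rfl, by rw [hμ']; push_cast; ring, ?_⟩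
      intro t ht
      have hodd : Odd t := by
        have h1 := (mem_filter.1 ht).2
        have h2 : Nat.Coprime t 2 :=
          Nat.Coprime.coprime_dvd_right (dvd_pow_self 2 (Nat.succ_ne_zero k)) h1
        exact Nat.coprime_two_left.1 (Nat.coprime_comm.1 h2)
      rw [hμ', neg_pow, hodd.neg_one_pow]
      push_cast
      ring

/-- Orthogonality of the powers `ζ ^ e`, `e < φ`, over the units modulo `2 ^ k`. -/
theorem orth (k : ℕ) (ζ : ℂ) (hζ : IsPrimitiveRoot ζ (2 ^ k)) (e e' : ℕ)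
    (he : e < (2 ^ k).totient) (he' : e' < (2 ^ k).totient) :
    ∑ t ∈ (range (2 ^ k)).filter (fun t => Nat.Coprime t (2 ^ k)), (ζ ^ e * conj (ζ ^ e')) ^ t
      = if e = e' then ((2 ^ k).totient : ℂ) else 0 := by
  have hnorm : ∀ j : ℕ, ζ ^ j * conj (ζ ^ j) = 1 := by
    intro j
    have h1 : ‖ζ ^ j‖ = 1 := by
      rw [norm_pow, Complex.norm_eq_one_of_pow_eq_one hζ.pow_eq_one (by positivity), one_pow]
    rw [Complex.mul_conj, Complex.normSq_eq_norm_sq, h1]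
    simp
  have hμ : (ζ ^ e * conj (ζ ^ e')) ^ (2 ^ k) = 1 := by
    rw [mul_pow, ← map_pow, ← pow_mul, ← pow_mul, mul_comm e, mul_comm e', pow_mul, pow_mul,
      hζ.pow_eq_one, one_pow, one_pow, map_one, one_mul]
  rw [sum_units_pow k _ hμ]
  have hle : (2 ^ k).totient ≤ 2 ^ k := Nat.totient_le _
  have h1 : ζ ^ e * conj (ζ ^ e') = 1 ↔ e = e' := by
    constructor
    · intro h
      have h2 : ζ ^ e = ζ ^ e' := by
        calc ζ ^ e = ζ ^ e * (conj (ζ ^ e') * ζ ^ e') := by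
              rw [mul_comm (conj _), hnorm, mul_one]
          _ = (ζ ^ e * conj (ζ ^ e')) * ζ ^ e' := by ring
          _ = ζ ^ e' := by rw [h, one_mul]
      exact hζ.pow_inj (by omega) (by omega) h2
    · intro h
      rw [h]
      exact hnorm e'
  have h2 : ζ ^ e * conj (ζ ^ e') ≠ -1 := by
    intro h
    have h3 : ζ ^ e = -ζ ^ e' := by
      calc ζ ^ e = ζ ^ e * (conj (ζ ^ e') * ζ ^ e') := by
            rw [mul_comm (conj _), hnorm, mul_one]
        _ = (ζ ^ e * conj (ζ ^ e')) * ζ ^ e' := by ring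
        _ = -ζ ^ e' := by rw [h]; ring
    cases k with
    | zero =>
      have hφ : (2 ^ 0).totient = 1 := by simp
      rw [hφ] at he he'
      have e0 : e = 0 := by omega
      have e0' : e' = 0 := by omega
      rw [e0, e0'] at h3
      norm_num at h3
    | succ k =>
      have hφ : (2 ^ (k + 1)).totient = 2 ^ k := by
        rw [Nat.totient_prime_pow_succ Nat.prime_two]
        simp
      rw [hφ] at he he'
      have hhalf := zeta_half k ζ hζ
      obtain ⟨N, hN⟩ : ∃ N : ℕ, N = 2 ^ k := ⟨_, rfl⟩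
      have hN2 : 2 ^ (k + 1) = 2 * N := by rw [hN, pow_succ']
      rw [← hN] at hhalf he he'
      have h4 : ζ ^ e = ζ ^ (N + e') := by
        rw [pow_add, hhalf, h3]
        ring
      have h5 := hζ.pow_inj (by rw [hN2]; omega) (by rw [hN2]; omega) h4
      omega
  by_cases hee : e = e'
  · rw [if_pos (h1.2 hee), if_pos hee, mul_one]
  · rw [if_neg (fun h => hee (h1.1 h)), if_neg h2, if_neg hee, mul_zero]

/-- Regrouping a sum according to the value of an exponent function. -/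
theorem regroup {ι : Type*} (s : Finset ι) (e : ι → ℕ) (φ : ℕ) (he : ∀ i ∈ s, e i < φ)
    (f : ι → ℂ) (w : ℕ → ℂ) :
    ∑ i ∈ s, f i * w (e i) = ∑ e₀ ∈ range φ, (∑ i ∈ s, if e i = e₀ then f i else 0) * w e₀ := by
  have h1 : ∀ e₀ ∈ range φ, (∑ i ∈ s, if e i = e₀ then f i else 0) * w e₀
      = ∑ i ∈ s, if e i = e₀ then f i * w e₀ else 0 := by
    intro e₀ _
    rw [sum_mul]
    refine sum_congr rfl fun i _ => ?_
    split_ifs <;> simp
  rw [sum_congr rfl h1, sum_comm]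
  refine sum_congr rfl fun i hi => ?_
  rw [sum_ite_eq (range φ) (e i) (fun e₀ => f i * w e₀), if_pos (mem_range.2 (he i hi))]

/-- An integer combination of `2 ^ k`-th roots of unity that is nonzero and lies in
`2 ^ h R_M` has mean square over the units modulo `2 ^ k` at least `4 ^ h`. -/
theorem cyc_div_ge (hM : IsPModular 2 M) (k : ℕ) {ι : Type*} (s : Finset ι) (K : ι → ℤ)
    (μ : ι → ℂ) (hμ : ∀ i ∈ s, μ i ^ (2 ^ k) = 1) (h : ℕ) (r : ℂ) (hr : MemLocalRing M r)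
    (hdiv : ∑ i ∈ s, (K i : ℂ) * μ i = 2 ^ h * r) (hne : ∑ i ∈ s, (K i : ℂ) * μ i ≠ 0) :
    ((2 ^ k).totient : ℝ) * 4 ^ h
      ≤ ∑ t ∈ (range (2 ^ k)).filter (fun t => Nat.Coprime t (2 ^ k)),
        Complex.normSq (∑ i ∈ s, (K i : ℂ) * μ i ^ t) := by
  classical
  have hN : 2 ^ k ≠ 0 := by positivity
  obtain ⟨ζ, hζ⟩ : ∃ ζ : ℂ, IsPrimitiveRoot ζ (2 ^ k) :=
    ⟨_, Complex.isPrimitiveRoot_exp (2 ^ k) hN⟩
  have hφ : 0 < (2 ^ k).totient := Nat.totient_pos.2 (by positivity)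
  have hrep : ∀ i : ι, ∃ e : ℕ, e < (2 ^ k).totient ∧ ∃ sg : ℤ,
      (i ∈ s → μ i = (sg : ℂ) * ζ ^ e ∧
        ∀ t ∈ (range (2 ^ k)).filter (fun t => Nat.Coprime t (2 ^ k)),
          μ i ^ t = (sg : ℂ) * (ζ ^ e) ^ t) := by
    intro i
    by_cases hi : i ∈ s
    · obtain ⟨e, he, sg, -, h1, h2⟩ := exists_rep k ζ hζ (μ i) (hμ i hi)
      exact ⟨e, he, sg, fun _ => ⟨h1, h2⟩⟩
    · exact ⟨0, hφ, 1, fun h => absurd h hi⟩
  choose e he sg hsg using hrep
  obtain ⟨y, hy⟩ : ∃ y : ℕ → ℤ, ∀ e₀, y e₀ = ∑ i ∈ s, if e i = e₀ then K i * sg i else 0 :=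
    ⟨_, fun _ => rfl⟩
  have key : ∀ w : ℕ → ℂ, ∑ i ∈ s, ((K i * sg i : ℤ) : ℂ) * w (e i)
      = ∑ e₀ ∈ range (2 ^ k).totient, (y e₀ : ℂ) * w e₀ := by
    intro w
    rw [regroup s e _ (fun i _ => he i) (fun i => ((K i * sg i : ℤ) : ℂ)) w]
    refine sum_congr rfl fun e₀ _ => ?_
    congr 1
    rw [hy, Int.cast_sum]
    refine sum_congr rfl fun i _ => ?_
    split_ifs <;> simp
  have h1 : ∑ i ∈ s, (K i : ℂ) * μ i = ∑ e₀ ∈ range (2 ^ k).totient, (y e₀ : ℂ) * ζ ^ e₀ := by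
    rw [← key (fun e₀ => ζ ^ e₀)]
    refine sum_congr rfl fun i hi => ?_
    rw [(hsg i hi).1]
    push_cast
    ring
  have hdvd := dvd_coeffs hM k ζ hζ h y r hr (by rw [← h1, hdiv])
  obtain ⟨y', hy'⟩ : ∃ y' : ℕ → ℤ, ∀ e₀, y' e₀ = y e₀ / 2 ^ h := ⟨_, fun _ => rfl⟩
  have hyy : ∀ e₀ ∈ range (2 ^ k).totient, (y e₀ : ℂ) = 2 ^ h * (y' e₀ : ℂ) := by
    intro e₀ he₀
    have h2 : y e₀ = 2 ^ h * y' e₀ := by
      rw [hy']
      exact (Int.mul_ediv_cancel' (hdvd e₀ (mem_range.1 he₀))).symm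
    have h3 : ((y e₀ : ℤ) : ℂ) = ((2 ^ h * y' e₀ : ℤ) : ℂ) := by rw [← h2]
    rw [h3]
    push_cast
    ring
  have h2 : ∀ t ∈ (range (2 ^ k)).filter (fun t => Nat.Coprime t (2 ^ k)),
      ∑ i ∈ s, (K i : ℂ) * μ i ^ t
        = 2 ^ h * ∑ e₀ ∈ range (2 ^ k).totient, (y' e₀ : ℂ) * (ζ ^ e₀) ^ t := by
    intro t ht
    rw [mul_sum]
    have h3 : ∑ i ∈ s, (K i : ℂ) * μ i ^ t
        = ∑ i ∈ s, ((K i * sg i : ℤ) : ℂ) * (ζ ^ e i) ^ t := by
      refine sum_congr rfl fun i hi => ?_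
      rw [(hsg i hi).2 t ht]
      push_cast
      ring
    rw [h3, key (fun e₀ => (ζ ^ e₀) ^ t)]
    refine sum_congr rfl fun e₀ he₀ => ?_
    rw [hyy e₀ he₀]
    ring
  have hne' : ∑ e₀ ∈ range (2 ^ k).totient, (y' e₀ : ℂ) * (ζ ^ e₀) ^ 1 ≠ 0 := by
    intro h0
    apply hne
    simp only [pow_one] at h0
    rw [h1, sum_congr rfl (fun e₀ he₀ => by rw [hyy e₀ he₀, mul_assoc]), ← mul_sum, h0, mul_zero]
  have h4 := cyc_ge' Nat.prime_two k (range (2 ^ k).totient) y' (fun e₀ => ζ ^ e₀)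
    (fun e₀ _ => by rw [← pow_mul, mul_comm, pow_mul, hζ.pow_eq_one, one_pow])
    ⟨1, Nat.coprime_one_left _, hne'⟩
  have h5 : Complex.normSq ((2 : ℂ) ^ h) = 4 ^ h := by
    rw [map_pow]
    congr 1
    rw [show (2 : ℂ) = ((2 : ℕ) : ℂ) by norm_num, Complex.normSq_natCast]
    norm_num
  calc ((2 ^ k).totient : ℝ) * 4 ^ h
      ≤ (∑ t ∈ (range (2 ^ k)).filter (fun t => Nat.Coprime t (2 ^ k)),
        Complex.normSq (∑ e₀ ∈ range (2 ^ k).totient, (y' e₀ : ℂ) * (ζ ^ e₀) ^ t)) * 4 ^ h :=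
        mul_le_mul_of_nonneg_right h4 (by positivity)
    _ = _ := by
      rw [sum_mul]
      refine sum_congr rfl fun t ht => ?_
      rw [h2 t ht, Complex.normSq_mul, h5, mul_comm]

/-- A double sum of a symmetric array through its diagonal and strict lower triangle. -/
theorem sum_sym (β : ℕ → ℕ → ℤ) (hβ : ∀ e e', β e e' = β e' e) (n : ℕ) :
    ∑ e ∈ range n, ∑ e' ∈ range n, β e e'
      = ∑ e ∈ range n, β e e + 2 * ∑ e ∈ range n, ∑ e' ∈ range e, β e e' := by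
  induction n with
  | zero => simp
  | succ n ih =>
    have hg : ∀ e, ∑ e' ∈ range (n + 1), β e e' = ∑ e' ∈ range n, β e e' + β e n :=
      fun e => sum_range_succ _ _
    have hs : ∑ e ∈ range n, β e n = ∑ e' ∈ range n, β n e' := sum_congr rfl fun e _ => hβ e n
    rw [sum_range_succ, sum_range_succ (fun e => β e e),
      sum_range_succ (fun e => ∑ e' ∈ range e, β e e')]
    simp only [hg, sum_add_distrib]
    rw [ih, hs]
    ring

/-- The diagonal sums of a positive semidefinite integral quadratic form `m` twisted by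
`2 ^ k`-th roots of unity `μ i`: the sum over the units `t` modulo `2 ^ k` of
`∑ n i n j m i j (μ i conj (μ j)) ^ t` is the totient times a nonnegative integer `a`, and

* if `m` does not represent `1` and `a` is odd, then `3 ≤ a`;
* if all the linear forms `x ↦ ∑ n i (m x) i μ i` take values in `2 ^ h R_M`, one of them a
  nonzero value, and the value at `t = 1` lies in `2 ^ h` times the local ideal, then
  `2 ^ (h + 1) ≤ a`. -/
theorem caseB_core (hM : IsPModular 2 M) (k : ℕ) {ι : Type*} (s : Finset ι) (n : ι → ℤ)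
    (m : ι → ι → ℤ) (μ : ι → ℂ) (hμ : ∀ i ∈ s, μ i ^ (2 ^ k) = 1)
    (hsym : ∀ i ∈ s, ∀ j ∈ s, m i j = m j i)
    (hpsd : ∀ x : ι → ℤ, 0 ≤ ∑ i ∈ s, ∑ j ∈ s, x i * x j * m i j) :
    ∃ a : ℤ, 0 ≤ a ∧
      (∑ t ∈ (range (2 ^ k)).filter (fun t => Nat.Coprime t (2 ^ k)), ∑ i ∈ s, ∑ j ∈ s,
        ((n i * n j * m i j : ℤ) : ℂ) * (μ i * conj (μ j)) ^ t = ((2 ^ k).totient : ℂ) * a) ∧
      ((∀ x : ι → ℤ, ∑ i ∈ s, ∑ j ∈ s, x i * x j * m i j ≠ 1) → Odd a → 3 ≤ a) ∧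
      (∀ h : ℕ,
        (∀ x : ι → ℤ, ∃ r : ℂ, MemLocalRing M r ∧
          ∑ i ∈ s, ((n i * ∑ j ∈ s, x j * m i j : ℤ) : ℂ) * μ i = 2 ^ h * r) →
        (∃ r : ℂ, MemLocalIdeal M r ∧
          ∑ i ∈ s, ∑ j ∈ s, ((n i * n j * m i j : ℤ) : ℂ) * (μ i * conj (μ j)) = 2 ^ h * r) →
        (∃ x : ι → ℤ, ∑ i ∈ s, ((n i * ∑ j ∈ s, x j * m i j : ℤ) : ℂ) * μ i ≠ 0) →
        (2 : ℤ) ^ (h + 1) ≤ a) := by
  classical
  have hMp := isPrime_of_isPModular hM
  have hN : 2 ^ k ≠ 0 := by positivity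
  obtain ⟨ζ, hζ⟩ : ∃ ζ : ℂ, IsPrimitiveRoot ζ (2 ^ k) :=
    ⟨_, Complex.isPrimitiveRoot_exp (2 ^ k) hN⟩
  obtain ⟨φ, hφdef⟩ : ∃ φ : ℕ, φ = (2 ^ k).totient := ⟨_, rfl⟩
  obtain ⟨U, hU⟩ : ∃ U : Finset ℕ, U = (range (2 ^ k)).filter (fun t => Nat.Coprime t (2 ^ k)) :=
    ⟨_, rfl⟩
  rw [← hφdef, ← hU]
  have hφ : 0 < φ := by rw [hφdef]; exact Nat.totient_pos.2 (by positivity)
  have hrep : ∀ i : ι, ∃ e : ℕ, e < φ ∧ ∃ sg : ℤ,
      (i ∈ s → μ i = (sg : ℂ) * ζ ^ e ∧ ∀ t ∈ U, μ i ^ t = (sg : ℂ) * (ζ ^ e) ^ t) := by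
    intro i
    by_cases hi : i ∈ s
    · obtain ⟨e, he, sg, -, h1, h2⟩ := exists_rep k ζ hζ (μ i) (hμ i hi)
      exact ⟨e, by rw [hφdef]; exact he, sg, fun _ => ⟨h1, by rw [hU]; exact h2⟩⟩
    · exact ⟨0, hφ, 1, fun h => absurd h hi⟩
  choose e he sg hsg using hrep
  -- the bilinear form
  obtain ⟨q, hq⟩ : ∃ q : (ι → ℤ) → (ι → ℤ) → ℤ,
      ∀ x y, q x y = ∑ i ∈ s, ∑ j ∈ s, x i * y j * m i j := ⟨_, fun _ _ => rfl⟩
  have hqsym : ∀ x y, q x y = q y x := by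
    intro x y
    rw [hq, hq, sum_comm]
    refine sum_congr rfl fun a ha => sum_congr rfl fun b hb => ?_
    rw [hsym b hb a ha]
    ring
  have hqnn : ∀ x, 0 ≤ q x x := fun x => by rw [hq]; exact hpsd x
  have hqlin : ∀ (N : ℤ) (u x y : ι → ℤ),
      q (fun i => N * u i + x i) y = N * q u y + q x y := by
    intro N u x y
    rw [hq, hq, hq, mul_sum, ← sum_add_distrib]
    refine sum_congr rfl fun i _ => ?_
    rw [mul_sum, ← sum_add_distrib]
    refine sum_congr rfl fun j _ => ?_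
    ring
  have hq0 : ∀ u x, q u u = 0 → q u x = 0 := by
    intro u x hu
    by_contra hne
    obtain ⟨N, hNdef⟩ : ∃ N : ℤ, N = -(q x x + 1) * q u x := ⟨_, rfl⟩
    have h1 : q (fun i => N * u i + x i) (fun i => N * u i + x i)
        = N * N * q u u + N * (q u x + q x u) + q x x := by
      rw [hqlin, hqsym u, hqsym x, hqlin, hqlin]
      ring
    have h2 := hqnn (fun i => N * u i + x i)
    rw [h1, hu, hqsym x u] at h2
    have h3 : 1 ≤ q u x * q u x := by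
      rcases lt_or_gt_of_ne hne with h | h <;> nlinarith
    have h4 := hqnn x
    rw [hNdef] at h2
    nlinarith [mul_nonneg (by linarith : (0 : ℤ) ≤ q x x + 1)
      (by linarith : (0 : ℤ) ≤ q u x * q u x - 1)]
  -- the vectors
  obtain ⟨c, hc⟩ : ∃ c : ℕ → ι → ℤ, ∀ e₀ i, c e₀ i = if e i = e₀ then n i * sg i else 0 :=
    ⟨_, fun _ _ => rfl⟩
  obtain ⟨a, ha⟩ : ∃ a : ℤ, a = ∑ e₀ ∈ range φ, q (c e₀) (c e₀) := ⟨_, rfl⟩
  have ha0 : 0 ≤ a := by rw [ha]; exact sum_nonneg fun e₀ _ => hqnn _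
  -- one-variable regrouping
  have key1 : ∀ (x : ι → ℤ) (w : ℕ → ℂ),
      ∑ i ∈ s, ((n i * sg i * ∑ j ∈ s, x j * m i j : ℤ) : ℂ) * w (e i)
        = ∑ e₀ ∈ range φ, (q (c e₀) x : ℂ) * w e₀ := by
    intro x w
    rw [regroup s e φ (fun i _ => he i)
      (fun i => ((n i * sg i * ∑ j ∈ s, x j * m i j : ℤ) : ℂ)) w]
    refine sum_congr rfl fun e₀ _ => ?_
    congr 1
    rw [hq, Int.cast_sum]
    refine sum_congr rfl fun i _ => ?_
    by_cases h : e i = e₀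
    · rw [if_pos h]
      congr 1
      rw [mul_sum]
      refine sum_congr rfl fun j _ => ?_
      rw [hc, if_pos h]
      ring
    · rw [if_neg h]
      have h0 : ∑ j ∈ s, c e₀ i * x j * m i j = 0 := by
        refine sum_eq_zero fun j _ => ?_
        rw [hc, if_neg h]
        ring
      rw [h0, Int.cast_zero]
  -- two-variable regrouping
  have key2 : ∀ w : ℕ → ℕ → ℂ,
      ∑ i ∈ s, ∑ j ∈ s, ((n i * sg i * (n j * sg j) * m i j : ℤ) : ℂ) * w (e i) (e j)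
        = ∑ e₀ ∈ range φ, ∑ e₁ ∈ range φ, (q (c e₀) (c e₁) : ℂ) * w e₀ e₁ := by
    intro w
    have h1 : ∀ i ∈ s,
        ∑ j ∈ s, ((n i * sg i * (n j * sg j) * m i j : ℤ) : ℂ) * w (e i) (e j)
          = ∑ e₁ ∈ range φ, ((n i * sg i * ∑ j ∈ s, c e₁ j * m i j : ℤ) : ℂ) * w (e i) e₁ := by
      intro i _
      rw [regroup s e φ (fun j _ => he j)
        (fun j => ((n i * sg i * (n j * sg j) * m i j : ℤ) : ℂ)) (w (e i))]
      refine sum_congr rfl fun e₁ _ => ?_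
      congr 1
      rw [mul_sum, Int.cast_sum]
      refine sum_congr rfl fun j _ => ?_
      rw [hc]
      by_cases h : e j = e₁
      · rw [if_pos h, if_pos h]
        congr 1
        ring
      · rw [if_neg h, if_neg h]
        simp
    rw [sum_congr rfl h1, sum_comm]
    have h2 : ∀ e₁ ∈ range φ,
        ∑ i ∈ s, ((n i * sg i * ∑ j ∈ s, c e₁ j * m i j : ℤ) : ℂ) * w (e i) e₁
          = ∑ e₀ ∈ range φ, (q (c e₀) (c e₁) : ℂ) * w e₀ e₁ :=
      fun e₁ _ => key1 (c e₁) (fun e₀ => w e₀ e₁)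
    rw [sum_congr rfl h2, sum_comm]
  -- `a` through the pairs
  have ha_alt : (a : ℂ) * φ = ∑ i ∈ s, ∑ j ∈ s,
      ((n i * sg i * (n j * sg j) * m i j : ℤ) : ℂ) * (if e i = e j then (φ : ℂ) else 0) := by
    rw [key2 (fun e₀ e₁ => if e₀ = e₁ then (φ : ℂ) else 0), ha, Int.cast_sum, sum_mul]
    refine sum_congr rfl fun e₀ he₀ => ?_
    rw [sum_eq_single e₀]
    · rw [if_pos rfl]
    · intro e₁ _ hne
      rw [if_neg (Ne.symm hne), mul_zero]
    · intro h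
      exact absurd he₀ h
  -- the sum identity
  have hsumid : ∑ t ∈ U, ∑ i ∈ s, ∑ j ∈ s,
      ((n i * n j * m i j : ℤ) : ℂ) * (μ i * conj (μ j)) ^ t = (φ : ℂ) * a := by
    have h1 : ∀ t ∈ U, ∑ i ∈ s, ∑ j ∈ s, ((n i * n j * m i j : ℤ) : ℂ) * (μ i * conj (μ j)) ^ t
        = ∑ i ∈ s, ∑ j ∈ s, ((n i * sg i * (n j * sg j) * m i j : ℤ) : ℂ)
            * (ζ ^ e i * conj (ζ ^ e j)) ^ t := by
      intro t ht
      refine sum_congr rfl fun i hi => sum_congr rfl fun j hj => ?_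
      rw [mul_pow, ← map_pow, (hsg i hi).2 t ht, (hsg j hj).2 t ht, mul_pow, ← map_pow, map_mul,
        map_intCast]
      push_cast
      ring
    rw [sum_congr rfl h1, sum_comm]
    have h2 : ∀ i ∈ s, ∑ t ∈ U, ∑ j ∈ s, ((n i * sg i * (n j * sg j) * m i j : ℤ) : ℂ)
          * (ζ ^ e i * conj (ζ ^ e j)) ^ t
        = ∑ j ∈ s, ((n i * sg i * (n j * sg j) * m i j : ℤ) : ℂ)
          * (if e i = e j then (φ : ℂ) else 0) := by
      intro i _
      rw [sum_comm]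
      refine sum_congr rfl fun j _ => ?_
      rw [← mul_sum, hU, orth k ζ hζ (e i) (e j) (by rw [← hφdef]; exact he i)
        (by rw [← hφdef]; exact he j), hφdef]
    rw [sum_congr rfl h2, ← ha_alt, mul_comm]
  refine ⟨a, ha0, hsumid, ?_, ?_⟩
  · intro hne1 hodd
    by_contra hlt
    have ha1 : a = 1 := by
      obtain ⟨x, hx⟩ := hodd
      omega
    have hex : ∃ e₀ ∈ range φ, 1 ≤ q (c e₀) (c e₀) := by
      by_contra hno
      push Not at hno
      have h1 : a ≤ 0 := by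
        rw [ha]
        exact sum_nonpos fun e₀ he₀ => by
          have := hno e₀ he₀
          omega
      omega
    obtain ⟨e₀, he₀, h1⟩ := hex
    have h2 : q (c e₀) (c e₀) ≠ 1 := by
      rw [hq]
      exact hne1 (c e₀)
    have h3 : q (c e₀) (c e₀) ≤ a := by
      rw [ha]
      exact single_le_sum (f := fun e₁ => q (c e₁) (c e₁)) (fun e₁ _ => hqnn (c e₁)) he₀
    omega
  · intro h hdiv hstrict hne
    have hG : ∀ x : ι → ℤ, ∑ i ∈ s, ((n i * ∑ j ∈ s, x j * m i j : ℤ) : ℂ) * μ i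
        = ∑ e₀ ∈ range φ, (q (c e₀) x : ℂ) * ζ ^ e₀ := by
      intro x
      rw [← key1 x (fun e₀ => ζ ^ e₀)]
      refine sum_congr rfl fun i hi => ?_
      rw [(hsg i hi).1]
      push_cast
      ring
    have hstep1 : ∀ (x : ι → ℤ) (e₀ : ℕ), e₀ < φ → (2 : ℤ) ^ h ∣ q (c e₀) x := by
      intro x e₀ he₀
      obtain ⟨r, hr, hGx⟩ := hdiv x
      rw [hG x] at hGx
      exact dvd_coeffs hM k ζ hζ h (fun e₀ => q (c e₀) x) r hr (by rw [← hφdef]; exact hGx) e₀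
        (by rw [← hφdef]; exact he₀)
    obtain ⟨r, hr, hF⟩ := hstrict
    have hF' : ∑ i ∈ s, ∑ j ∈ s, ((n i * n j * m i j : ℤ) : ℂ) * (μ i * conj (μ j))
        = ∑ e₀ ∈ range φ, ∑ e₁ ∈ range φ,
            (q (c e₀) (c e₁) : ℂ) * (ζ ^ e₀ * conj (ζ ^ e₁)) := by
      rw [← key2 (fun e₀ e₁ => ζ ^ e₀ * conj (ζ ^ e₁))]
      refine sum_congr rfl fun i hi => sum_congr rfl fun j hj => ?_
      rw [(hsg i hi).1, (hsg j hj).1, map_mul, map_intCast]
      push_cast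
      ring
    rw [hF'] at hF
    have hroot : ∀ e₀ e₁ : ℕ, MemLocalIdeal M (ζ ^ e₀ * conj (ζ ^ e₁) - 1) := by
      intro e₀ e₁
      apply Cfsg.Agent.Lib.Helper16.PSection.memLocalIdeal_sub_one_of_pow_eq_one hM _ k
      rw [mul_pow, ← map_pow, ← pow_mul, ← pow_mul, mul_comm e₀, mul_comm e₁, pow_mul, pow_mul,
        hζ.pow_eq_one, one_pow, one_pow, map_one, one_mul]
    have hTot : (2 : ℤ) ^ (h + 1) ∣ ∑ e₀ ∈ range φ, ∑ e₁ ∈ range φ, q (c e₀) (c e₁) := by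
      obtain ⟨p₁, hp₁⟩ : ∃ p₁ : ℂ, p₁ = ∑ e₀ ∈ range φ, ∑ e₁ ∈ range φ,
          ((q (c e₀) (c e₁) / 2 ^ h : ℤ) : ℂ) * (ζ ^ e₀ * conj (ζ ^ e₁) - 1) := ⟨_, rfl⟩
      have hp₁I : MemLocalIdeal M p₁ := by
        rw [hp₁]
        refine memLocalIdeal_sum hMp _ _ fun e₀ _ => memLocalIdeal_sum hMp _ _ fun e₁ _ => ?_
        exact memLocalIdeal_mul_left hMp (memLocalRing_intCast hMp _) (hroot e₀ e₁)
      apply int_dvd_succ_of_eq hM h _ (r - p₁) (memLocalIdeal_sub hMp hr hp₁I)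
      rw [mul_sub, ← hF, hp₁, mul_sum, ← sum_sub_distrib, Int.cast_sum]
      refine sum_congr rfl fun e₀ he₀ => ?_
      rw [Int.cast_sum, mul_sum, ← sum_sub_distrib]
      refine sum_congr rfl fun e₁ _ => ?_
      have h1 : q (c e₀) (c e₁) = 2 ^ h * (q (c e₀) (c e₁) / 2 ^ h) :=
        (Int.mul_ediv_cancel' (hstep1 (c e₁) e₀ (mem_range.1 he₀))).symm
      have h2 : ((q (c e₀) (c e₁) : ℤ) : ℂ)
          = 2 ^ h * ((q (c e₀) (c e₁) / 2 ^ h : ℤ) : ℂ) := by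
        have h3 : ((q (c e₀) (c e₁) : ℤ) : ℂ)
            = ((2 ^ h * (q (c e₀) (c e₁) / 2 ^ h) : ℤ) : ℂ) := by rw [← h1]
        rw [h3, Int.cast_mul, Int.cast_pow]
        norm_num
      rw [h2]
      ring
    have hsym' := sum_sym (fun e₀ e₁ => q (c e₀) (c e₁)) (fun e₀ e₁ => hqsym _ _) φ
    have hoff : (2 : ℤ) ^ (h + 1) ∣ 2 * ∑ e₀ ∈ range φ, ∑ e₁ ∈ range e₀, q (c e₀) (c e₁) := by
      rw [pow_succ']
      apply mul_dvd_mul_left
      exact dvd_sum fun e₀ he₀ => dvd_sum fun e₁ _ => hstep1 (c e₁) e₀ (mem_range.1 he₀)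
    have hadvd : (2 : ℤ) ^ (h + 1) ∣ a := by
      rw [ha]
      rw [hsym'] at hTot
      exact (dvd_add_left hoff).1 hTot
    have hapos : 1 ≤ a := by
      obtain ⟨x, hx⟩ := hne
      rw [hG x] at hx
      obtain ⟨e₀, he₀, h1⟩ := exists_ne_zero_of_sum_ne_zero hx
      have h2 : q (c e₀) x ≠ 0 := by
        intro h0
        apply h1
        rw [h0, Int.cast_zero, zero_mul]
      have h3 : q (c e₀) (c e₀) ≠ 0 := fun h0 => h2 (hq0 _ _ h0)
      have h4 : q (c e₀) (c e₀) ≤ a := by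
        rw [ha]
        exact single_le_sum (f := fun e₁ => q (c e₁) (c e₁)) (fun e₁ _ => hqnn (c e₁)) he₀
      have h5 := hqnn (c e₀)
      omega
    exact Int.le_of_dvd (by omega) hadvd

end Cfsg.Agent.Lib.Helper82.TwoAdic
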