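import Mathlib
import Cfsg.Agent.Lib.Helper82.TwoAdic

/-!
# Further `2`-adic and counting lemmas

* `caseB_dvd`: the divisibility form of `TwoAdic.caseB_core`: the integer `a` of the diagonal
  sums of a twisted quadratic form is divisible by `2 ^ (h + 1)`;
* `row_bound`: the counting bound for one row of the contribution matrices;
* `arith_rows`: the final arithmetic for blocks with `k(B) - l(b) ≤ 3`.
-/

set_option autoImplicit false

namespace Cfsg.Agent.Lib.Helper82.TwoAdic2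

open Cfsg Cfsg.Agent.Lib.Helper77.LocalRing Cfsg.Agent.Lib.Helper80.Contrib
  Cfsg.Agent.Lib.Helper82.TwoUnits Cfsg.Agent.Lib.Helper82.CycSum
  Cfsg.Agent.Lib.Helper82.TwoAdic
open scoped ComplexConjugate
open Finset

variable {M : Ideal AlgInt}

/-- The diagonal sums of a positive semidefinite integral quadratic form `m` twisted by
`2 ^ k`-th roots of unity `μ i`: the sum over the units `t` modulo `2 ^ k` of
`∑ n i n j m i j (μ i conj (μ j)) ^ t` is the totient times a nonnegative integer `a`, and if all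
the linear forms `x ↦ ∑ n i (m x) i μ i` take values in `2 ^ h R_M` and the value at `t = 1` lies
in `2 ^ h` times the local ideal, then `2 ^ (h + 1) ∣ a`. -/
theorem caseB_dvd (hM : IsPModular 2 M) (k : ℕ) {ι : Type*} (s : Finset ι) (n : ι → ℤ)
    (m : ι → ι → ℤ) (μ : ι → ℂ) (hμ : ∀ i ∈ s, μ i ^ (2 ^ k) = 1)
    (hsym : ∀ i ∈ s, ∀ j ∈ s, m i j = m j i)
    (hpsd : ∀ x : ι → ℤ, 0 ≤ ∑ i ∈ s, ∑ j ∈ s, x i * x j * m i j) :
    ∃ a : ℤ, 0 ≤ a ∧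
      (∑ t ∈ (range (2 ^ k)).filter (fun t => Nat.Coprime t (2 ^ k)), ∑ i ∈ s, ∑ j ∈ s,
        ((n i * n j * m i j : ℤ) : ℂ) * (μ i * conj (μ j)) ^ t = ((2 ^ k).totient : ℂ) * a) ∧
      (∀ h : ℕ,
        (∀ x : ι → ℤ, ∃ r : ℂ, MemLocalRing M r ∧
          ∑ i ∈ s, ((n i * ∑ j ∈ s, x j * m i j : ℤ) : ℂ) * μ i = 2 ^ h * r) →
        (∃ r : ℂ, MemLocalIdeal M r ∧
          ∑ i ∈ s, ∑ j ∈ s, ((n i * n j * m i j : ℤ) : ℂ) * (μ i * conj (μ j)) = 2 ^ h * r) →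
        (2 : ℤ) ^ (h + 1) ∣ a) := by
  classical
  have hMp := isPrime_of_isPModular hM
  have hN : 2 ^ k ≠ 0 := by positivity
  obtain ⟨ζ, hζ⟩ : ∃ ζ : ℂ, IsPrimitiveRoot ζ (2 ^ k) :=
    ⟨_, Complex.isPrimitiveRoot_exp (2 ^ k) hN⟩
  obtain ⟨φ, hφdef⟩ : ∃ φ : ℕ, φ = (2 ^ k).totient := ⟨_, rfl⟩
  obtain ⟨U, hU⟩ : ∃ U : Finset ℕ, U = (range (2 ^ k)).filter (fun t => Nat.Coprime t (2 ^ k)) :=
    ⟨_, rfl⟩
  rw [← hφdef, ← hU]
  have hφ : 0 < φ := by rw [hφdef]; exact Nat.totient_pos.2 (by positivity)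
  have hrep : ∀ i : ι, ∃ e : ℕ, e < φ ∧ ∃ sg : ℤ,
      (i ∈ s → μ i = (sg : ℂ) * ζ ^ e ∧ ∀ t ∈ U, μ i ^ t = (sg : ℂ) * (ζ ^ e) ^ t) := by
    intro i
    by_cases hi : i ∈ s
    · obtain ⟨e, he, sg, -, h1, h2⟩ := exists_rep k ζ hζ (μ i) (hμ i hi)
      exact ⟨e, by rw [hφdef]; exact he, sg, fun _ => ⟨h1, by rw [hU]; exact h2⟩⟩
    · exact ⟨0, hφ, 1, fun h => absurd h hi⟩
  choose e he sg hsg using hrep
  -- the bilinear form
  obtain ⟨q, hq⟩ : ∃ q : (ι → ℤ) → (ι → ℤ) → ℤ,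
      ∀ x y, q x y = ∑ i ∈ s, ∑ j ∈ s, x i * y j * m i j := ⟨_, fun _ _ => rfl⟩
  have hqsym : ∀ x y, q x y = q y x := by
    intro x y
    rw [hq, hq, sum_comm]
    refine sum_congr rfl fun a ha => sum_congr rfl fun b hb => ?_
    rw [hsym b hb a ha]
    ring
  have hqnn : ∀ x, 0 ≤ q x x := fun x => by rw [hq]; exact hpsd x
  have hqlin : ∀ (N : ℤ) (u x y : ι → ℤ),
      q (fun i => N * u i + x i) y = N * q u y + q x y := by
    intro N u x y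
    rw [hq, hq, hq, mul_sum, ← sum_add_distrib]
    refine sum_congr rfl fun i _ => ?_
    rw [mul_sum, ← sum_add_distrib]
    refine sum_congr rfl fun j _ => ?_
    ring
  have hq0 : ∀ u x, q u u = 0 → q u x = 0 := by
    intro u x hu
    by_contra hne
    obtain ⟨N, hNdef⟩ : ∃ N : ℤ, N = -(q x x + 1) * q u x := ⟨_, rfl⟩
    have h1 : q (fun i => N * u i + x i) (fun i => N * u i + x i)
        = N * N * q u u + N * (q u x + q x u) + q x x := by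
      rw [hqlin, hqsym u, hqsym x, hqlin, hqlin]
      ring
    have h2 := hqnn (fun i => N * u i + x i)
    rw [h1, hu, hqsym x u] at h2
    have h3 : 1 ≤ q u x * q u x := by
      rcases lt_or_gt_of_ne hne with h | h <;> nlinarith
    have h4 := hqnn x
    rw [hNdef] at h2
    nlinarith [mul_nonneg (by linarith : (0 : ℤ) ≤ q x x + 1)
      (by linarith : (0 : ℤ) ≤ q u x * q u x - 1)]
  -- the vectors
  obtain ⟨c, hc⟩ : ∃ c : ℕ → ι → ℤ, ∀ e₀ i, c e₀ i = if e i = e₀ then n i * sg i else 0 :=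
    ⟨_, fun _ _ => rfl⟩
  obtain ⟨a, ha⟩ : ∃ a : ℤ, a = ∑ e₀ ∈ range φ, q (c e₀) (c e₀) := ⟨_, rfl⟩
  have ha0 : 0 ≤ a := by rw [ha]; exact sum_nonneg fun e₀ _ => hqnn _
  -- one-variable regrouping
  have key1 : ∀ (x : ι → ℤ) (w : ℕ → ℂ),
      ∑ i ∈ s, ((n i * sg i * ∑ j ∈ s, x j * m i j : ℤ) : ℂ) * w (e i)
        = ∑ e₀ ∈ range φ, (q (c e₀) x : ℂ) * w e₀ := by
    intro x w
    rw [regroup s e φ (fun i _ => he i)
      (fun i => ((n i * sg i * ∑ j ∈ s, x j * m i j : ℤ) : ℂ)) w]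
    refine sum_congr rfl fun e₀ _ => ?_
    congr 1
    rw [hq, Int.cast_sum]
    refine sum_congr rfl fun i _ => ?_
    by_cases h : e i = e₀
    · rw [if_pos h]
      congr 1
      rw [mul_sum]
      refine sum_congr rfl fun j _ => ?_
      rw [hc, if_pos h]
      ring
    · rw [if_neg h]
      have h0 : ∑ j ∈ s, c e₀ i * x j * m i j = 0 := by
        refine sum_eq_zero fun j _ => ?_
        rw [hc, if_neg h]
        ring
      rw [h0, Int.cast_zero]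
  -- two-variable regrouping
  have key2 : ∀ w : ℕ → ℕ → ℂ,
      ∑ i ∈ s, ∑ j ∈ s, ((n i * sg i * (n j * sg j) * m i j : ℤ) : ℂ) * w (e i) (e j)
        = ∑ e₀ ∈ range φ, ∑ e₁ ∈ range φ, (q (c e₀) (c e₁) : ℂ) * w e₀ e₁ := by
    intro w
    have h1 : ∀ i ∈ s,
        ∑ j ∈ s, ((n i * sg i * (n j * sg j) * m i j : ℤ) : ℂ) * w (e i) (e j)
          = ∑ e₁ ∈ range φ, ((n i * sg i * ∑ j ∈ s, c e₁ j * m i j : ℤ) : ℂ) * w (e i) e₁ := by
      intro i _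
      rw [regroup s e φ (fun j _ => he j)
        (fun j => ((n i * sg i * (n j * sg j) * m i j : ℤ) : ℂ)) (w (e i))]
      refine sum_congr rfl fun e₁ _ => ?_
      congr 1
      rw [mul_sum, Int.cast_sum]
      refine sum_congr rfl fun j _ => ?_
      rw [hc]
      by_cases h : e j = e₁
      · rw [if_pos h, if_pos h]
        congr 1
        ring
      · rw [if_neg h, if_neg h]
        simp
    rw [sum_congr rfl h1, sum_comm]
    have h2 : ∀ e₁ ∈ range φ,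
        ∑ i ∈ s, ((n i * sg i * ∑ j ∈ s, c e₁ j * m i j : ℤ) : ℂ) * w (e i) e₁
          = ∑ e₀ ∈ range φ, (q (c e₀) (c e₁) : ℂ) * w e₀ e₁ :=
      fun e₁ _ => key1 (c e₁) (fun e₀ => w e₀ e₁)
    rw [sum_congr rfl h2, sum_comm]
  -- `a` through the pairs
  have ha_alt : (a : ℂ) * φ = ∑ i ∈ s, ∑ j ∈ s,
      ((n i * sg i * (n j * sg j) * m i j : ℤ) : ℂ) * (if e i = e j then (φ : ℂ) else 0) := by
    rw [key2 (fun e₀ e₁ => if e₀ = e₁ then (φ : ℂ) else 0), ha, Int.cast_sum, sum_mul]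
    refine sum_congr rfl fun e₀ he₀ => ?_
    rw [sum_eq_single e₀]
    · rw [if_pos rfl]
    · intro e₁ _ hne
      rw [if_neg (Ne.symm hne), mul_zero]
    · intro h
      exact absurd he₀ h
  -- the sum identity
  have hsumid : ∑ t ∈ U, ∑ i ∈ s, ∑ j ∈ s,
      ((n i * n j * m i j : ℤ) : ℂ) * (μ i * conj (μ j)) ^ t = (φ : ℂ) * a := by
    have h1 : ∀ t ∈ U, ∑ i ∈ s, ∑ j ∈ s, ((n i * n j * m i j : ℤ) : ℂ) * (μ i * conj (μ j)) ^ t
        = ∑ i ∈ s, ∑ j ∈ s, ((n i * sg i * (n j * sg j) * m i j : ℤ) : ℂ)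
            * (ζ ^ e i * conj (ζ ^ e j)) ^ t := by
      intro t ht
      refine sum_congr rfl fun i hi => sum_congr rfl fun j hj => ?_
      rw [mul_pow, ← map_pow, (hsg i hi).2 t ht, (hsg j hj).2 t ht, mul_pow, ← map_pow, map_mul,
        map_intCast]
      push_cast
      ring
    rw [sum_congr rfl h1, sum_comm]
    have h2 : ∀ i ∈ s, ∑ t ∈ U, ∑ j ∈ s, ((n i * sg i * (n j * sg j) * m i j : ℤ) : ℂ)
          * (ζ ^ e i * conj (ζ ^ e j)) ^ t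
        = ∑ j ∈ s, ((n i * sg i * (n j * sg j) * m i j : ℤ) : ℂ)
          * (if e i = e j then (φ : ℂ) else 0) := by
      intro i _
      rw [sum_comm]
      refine sum_congr rfl fun j _ => ?_
      rw [← mul_sum, hU, orth k ζ hζ (e i) (e j) (by rw [← hφdef]; exact he i)
        (by rw [← hφdef]; exact he j), hφdef]
    rw [sum_congr rfl h2, ← ha_alt, mul_comm]
  refine ⟨a, ha0, hsumid, ?_⟩
  · intro h hdiv hstrict
    have hG : ∀ x : ι → ℤ, ∑ i ∈ s, ((n i * ∑ j ∈ s, x j * m i j : ℤ) : ℂ) * μ i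
        = ∑ e₀ ∈ range φ, (q (c e₀) x : ℂ) * ζ ^ e₀ := by
      intro x
      rw [← key1 x (fun e₀ => ζ ^ e₀)]
      refine sum_congr rfl fun i hi => ?_
      rw [(hsg i hi).1]
      push_cast
      ring
    have hstep1 : ∀ (x : ι → ℤ) (e₀ : ℕ), e₀ < φ → (2 : ℤ) ^ h ∣ q (c e₀) x := by
      intro x e₀ he₀
      obtain ⟨r, hr, hGx⟩ := hdiv x
      rw [hG x] at hGx
      exact dvd_coeffs hM k ζ hζ h (fun e₀ => q (c e₀) x) r hr (by rw [← hφdef]; exact hGx) e₀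
        (by rw [← hφdef]; exact he₀)
    obtain ⟨r, hr, hF⟩ := hstrict
    have hF' : ∑ i ∈ s, ∑ j ∈ s, ((n i * n j * m i j : ℤ) : ℂ) * (μ i * conj (μ j))
        = ∑ e₀ ∈ range φ, ∑ e₁ ∈ range φ,
            (q (c e₀) (c e₁) : ℂ) * (ζ ^ e₀ * conj (ζ ^ e₁)) := by
      rw [← key2 (fun e₀ e₁ => ζ ^ e₀ * conj (ζ ^ e₁))]
      refine sum_congr rfl fun i hi => sum_congr rfl fun j hj => ?_
      rw [(hsg i hi).1, (hsg j hj).1, map_mul, map_intCast]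
      push_cast
      ring
    rw [hF'] at hF
    have hroot : ∀ e₀ e₁ : ℕ, MemLocalIdeal M (ζ ^ e₀ * conj (ζ ^ e₁) - 1) := by
      intro e₀ e₁
      apply Cfsg.Agent.Lib.Helper16.PSection.memLocalIdeal_sub_one_of_pow_eq_one hM _ k
      rw [mul_pow, ← map_pow, ← pow_mul, ← pow_mul, mul_comm e₀, mul_comm e₁, pow_mul, pow_mul,
        hζ.pow_eq_one, one_pow, one_pow, map_one, one_mul]
    have hTot : (2 : ℤ) ^ (h + 1) ∣ ∑ e₀ ∈ range φ, ∑ e₁ ∈ range φ, q (c e₀) (c e₁) := by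
      obtain ⟨p₁, hp₁⟩ : ∃ p₁ : ℂ, p₁ = ∑ e₀ ∈ range φ, ∑ e₁ ∈ range φ,
          ((q (c e₀) (c e₁) / 2 ^ h : ℤ) : ℂ) * (ζ ^ e₀ * conj (ζ ^ e₁) - 1) := ⟨_, rfl⟩
      have hp₁I : MemLocalIdeal M p₁ := by
        rw [hp₁]
        refine memLocalIdeal_sum hMp _ _ fun e₀ _ => memLocalIdeal_sum hMp _ _ fun e₁ _ => ?_
        exact memLocalIdeal_mul_left hMp (memLocalRing_intCast hMp _) (hroot e₀ e₁)
      apply int_dvd_succ_of_eq hM h _ (r - p₁) (memLocalIdeal_sub hMp hr hp₁I)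
      rw [mul_sub, ← hF, hp₁, mul_sum, ← sum_sub_distrib, Int.cast_sum]
      refine sum_congr rfl fun e₀ he₀ => ?_
      rw [Int.cast_sum, mul_sum, ← sum_sub_distrib]
      refine sum_congr rfl fun e₁ _ => ?_
      have h1 : q (c e₀) (c e₁) = 2 ^ h * (q (c e₀) (c e₁) / 2 ^ h) :=
        (Int.mul_ediv_cancel' (hstep1 (c e₁) e₀ (mem_range.1 he₀))).symm
      have h2 : ((q (c e₀) (c e₁) : ℤ) : ℂ)
          = 2 ^ h * ((q (c e₀) (c e₁) / 2 ^ h : ℤ) : ℂ) := by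
        have h3 : ((q (c e₀) (c e₁) : ℤ) : ℂ)
            = ((2 ^ h * (q (c e₀) (c e₁) / 2 ^ h) : ℤ) : ℂ) := by rw [← h1]
        rw [h3, Int.cast_mul, Int.cast_pow]
        norm_num
      rw [h2]
      ring
    have hsym' := sum_sym (fun e₀ e₁ => q (c e₀) (c e₁)) (fun e₀ e₁ => hqsym _ _) φ
    have hoff : (2 : ℤ) ^ (h + 1) ∣ 2 * ∑ e₀ ∈ range φ, ∑ e₁ ∈ range e₀, q (c e₀) (c e₁) := by
      rw [pow_succ']
      apply mul_dvd_mul_left
      exact dvd_sum fun e₀ he₀ => dvd_sum fun e₁ _ => hstep1 (c e₁) e₀ (mem_range.1 he₀)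
    have hadvd : (2 : ℤ) ^ (h + 1) ∣ a := by
      rw [ha]
      rw [hsym'] at hTot
      exact (dvd_add_left hoff).1 hTot
    exact hadvd

/-- The counting bound for the row of `χ`: `S` a set of indices `ψ ≠ χ` with mean square at
least one. -/
theorem row_bound {ι τ : Type*} [DecidableEq ι] (B : Finset ι) (χ : ι) (hχ : χ ∈ B)
    (S : Finset ι) (hS : S ⊆ B.erase χ) (U : Finset τ) (φ : ℕ) (hU : U.card = φ) (hφ : 0 < φ)
    (N : τ → ι → ℝ) (hN : ∀ t ψ, 0 ≤ N t ψ) (m : τ → ℝ) (Q : ℝ)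
    (hrow : ∀ t ∈ U, ∑ ψ ∈ B, N t ψ = Q * m t)
    (hdiag : ∀ t ∈ U, N t χ = (m t) ^ 2)
    (hP : ∀ ψ ∈ S, (φ : ℝ) ≤ ∑ t ∈ U, N t ψ)
    (a : ℝ) (ha : ∑ t ∈ U, m t = φ * a) :
    (S.card : ℝ) + a ^ 2 ≤ Q * a := by
  have hφ' : (0 : ℝ) < φ := by exact_mod_cast hφ
  have h1 : (φ : ℝ) * (Q * a) = ∑ t ∈ U, ∑ ψ ∈ B, N t ψ := by
    rw [sum_congr rfl (fun t ht => hrow t ht), ← mul_sum, ha]
    ring
  have h2 : ∑ t ∈ U, ∑ ψ ∈ B, N t ψ
      = ∑ ψ ∈ B.erase χ, ∑ t ∈ U, N t ψ + ∑ t ∈ U, N t χ := by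
    rw [sum_comm, ← sum_erase_add _ _ hχ]
  have h3 : ∑ ψ ∈ S, ∑ t ∈ U, N t ψ ≤ ∑ ψ ∈ B.erase χ, ∑ t ∈ U, N t ψ :=
    sum_le_sum_of_subset_of_nonneg hS fun ψ _ _ => sum_nonneg fun t _ => hN t ψ
  have h4 : (S.card : ℝ) * φ ≤ ∑ ψ ∈ S, ∑ t ∈ U, N t ψ := by
    have h5 : ∑ ψ ∈ S, (φ : ℝ) ≤ ∑ ψ ∈ S, ∑ t ∈ U, N t ψ := sum_le_sum hP
    rw [sum_const, nsmul_eq_mul] at h5
    exact h5
  have h7 : (φ : ℝ) * a ^ 2 ≤ ∑ t ∈ U, N t χ := by
    rw [sum_congr rfl (fun t ht => hdiag t ht)]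
    have h8 := sq_sum_le_card_mul_sum_sq (s := U) (f := fun t => m t)
    rw [ha, hU] at h8
    have h9 : (φ : ℝ) * ((φ : ℝ) * a ^ 2) ≤ (φ : ℝ) * ∑ t ∈ U, (m t) ^ 2 := by
      calc (φ : ℝ) * ((φ : ℝ) * a ^ 2) = ((φ : ℝ) * a) ^ 2 := by ring
        _ ≤ _ := h8
    exact le_of_mul_le_mul_left h9 hφ'
  have h10 : (φ : ℝ) * ((S.card : ℝ) + a ^ 2) ≤ (φ : ℝ) * (Q * a) := by
    rw [h1, h2]
    linarith
  exact le_of_mul_le_mul_left h10 hφ'

/-- The final arithmetic: if every row integer `a χ` satisfies the row bounds and the parity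
conditions, the sum of the `a χ` is `2 ^ d * l` and `k ≤ l + 3`, then `k ≤ 2 ^ d`. -/
theorem arith_rows {ι : Type*} (BF : Finset ι) (ht : ι → ℕ) (a : ι → ℤ) (d l : ℕ)
    (hsum : ∑ χ ∈ BF, a χ = 2 ^ d * (l : ℤ))
    (hk : BF.card ≤ l + 3)
    (h0 : ∀ χ ∈ BF, ht χ = 0 →
      Odd (a χ) ∧ (BF.card : ℤ) - 1 + (a χ) ^ 2 ≤ 2 ^ d * a χ)
    (h1 : ∀ χ ∈ BF, 1 ≤ ht χ → (4 : ℤ) ∣ a χ ∧ 1 + (a χ) ^ 2 ≤ 2 ^ d * a χ) :
    BF.card ≤ 2 ^ d := by
  by_contra hlt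
  push Not at hlt
  obtain ⟨Q, hQ⟩ : ∃ Q : ℤ, Q = 2 ^ d := ⟨_, rfl⟩
  have hQ1 : 1 ≤ Q := by rw [hQ]; exact one_le_pow₀ (by norm_num)
  have hkQ : Q + 1 ≤ (BF.card : ℤ) := by
    rw [hQ]
    exact_mod_cast hlt
  rw [← hQ] at hsum h0 h1
  have hrow : ∀ χ ∈ BF, 3 ≤ Q - a χ := by
    intro χ hχ
    rcases Nat.eq_zero_or_pos (ht χ) with hz | hp
    · obtain ⟨hodd, hb⟩ := h0 χ hχ hz
      have hprod : Q ≤ a χ * (Q - a χ) := by nlinarith
      have ha1 : 1 ≤ a χ := by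
        by_contra hneg
        have : a χ ≤ 0 := by omega
        nlinarith
      have ha2 : a χ ≠ 1 := by
        intro h
        rw [h] at hprod
        omega
      have hq1 : 1 ≤ Q - a χ := by
        by_contra hneg
        have : Q - a χ ≤ 0 := by omega
        nlinarith
      have hq2 : Q - a χ ≠ 1 := by
        intro h
        rw [h] at hprod
        omega
      rcases Nat.eq_zero_or_pos d with hd | hd
      · rw [hd, pow_zero] at hQ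
        omega
      · obtain ⟨d', hd'⟩ : ∃ d', d = d' + 1 := ⟨d - 1, by omega⟩
        rw [hd', pow_succ] at hQ
        obtain ⟨x, hx⟩ := hodd
        omega
    · obtain ⟨hdvd, hb⟩ := h1 χ hχ hp
      have hprod : 1 ≤ a χ * (Q - a χ) := by nlinarith
      have ha1 : 1 ≤ a χ := by
        by_contra hneg
        have : a χ ≤ 0 := by omega
        nlinarith
      have hq1 : 1 ≤ Q - a χ := by
        by_contra hneg
        have : Q - a χ ≤ 0 := by omega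
        nlinarith
      obtain ⟨x, hx⟩ := hdvd
      rcases Nat.lt_or_ge d 2 with hd | hd
      · have hQ2 : Q ≤ 2 := by
          rw [hQ]
          have : (2 : ℤ) ^ d ≤ 2 ^ 1 := pow_le_pow_right₀ (by norm_num) (by omega)
          simpa using this
        omega
      · obtain ⟨d', hd'⟩ : ∃ d', d = d' + 2 := ⟨d - 2, by omega⟩
        rw [hd', pow_add] at hQ
        omega
  have h3 : BF.card • (3 : ℤ) ≤ ∑ χ ∈ BF, (Q - a χ) := card_nsmul_le_sum BF _ 3 hrow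
  rw [sum_sub_distrib, hsum, sum_const, nsmul_eq_mul, nsmul_eq_mul] at h3
  have hk' : (BF.card : ℤ) ≤ l + 3 := by exact_mod_cast hk
  nlinarith

end Cfsg.Agent.Lib.Helper82.TwoAdic2
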